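import Mathlib

/-!
The centraliser of a double transposition in the alternating group of degree six.
-/

set_option autoImplicit false
set_option maxRecDepth 4000

namespace Cfsg.Agent.Lib.Involution.AltSixCent

open Equiv DihedralGroup

/-- The double transposition. -/
def beta : Perm (Fin 6) := swap 0 1 * swap 2 3

/-- An element of order four squaring to it. -/
def rot : Perm (Fin 6) := swap 0 3 * swap 0 1 * swap 0 2 * swap 4 5

/-- An inverting involution. -/
def refl : Perm (Fin 6) := swap 0 1 * swap 4 5

def toPerm : DihedralGroup 4 → Perm (Fin 6)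
  | r i => rot ^ i.val
  | sr i => refl * rot ^ i.val

theorem toPerm_mul : ∀ a b : DihedralGroup 4, toPerm (a * b) = toPerm a * toPerm b := by decide +kernel

theorem toPerm_sign : ∀ a : DihedralGroup 4, Perm.sign (toPerm a) = 1 := by decide +kernel

theorem toPerm_inj : ∀ a b : DihedralGroup 4, toPerm a = toPerm b → a = b := by decide +kernel

theorem toPerm_comm : ∀ a : DihedralGroup 4, toPerm a * beta = beta * toPerm a := by decide +kernel

theorem cover : ∀ σ : Perm (Fin 6), σ * beta = beta * σ → Perm.sign σ = 1 → ∃ a, toPerm a = σ := by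
  decide +kernel

/-- The double transposition in the alternating group. -/
def betaA : alternatingGroup (Fin 6) := ⟨beta, Perm.mem_alternatingGroup.2 (by decide +kernel)⟩

theorem centralizer_beta :
    Nonempty (Subgroup.centralizer ({betaA} : Set (alternatingGroup (Fin 6))) ≃* DihedralGroup 4) := by
  let f : DihedralGroup 4 →* Subgroup.centralizer ({betaA} : Set (alternatingGroup (Fin 6))) :=
    MonoidHom.mk' (fun a => ⟨⟨toPerm a, Perm.mem_alternatingGroup.2 (toPerm_sign a)⟩,
      Subgroup.mem_centralizer_singleton_iff.2 (Subtype.ext (toPerm_comm a))⟩)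
      fun a b => Subtype.ext (Subtype.ext (toPerm_mul a b))
  refine ⟨(MulEquiv.ofBijective f ⟨fun a b h => toPerm_inj a b ?_, fun x => ?_⟩).symm⟩
  · exact congrArg (fun y : Subgroup.centralizer ({betaA} : Set (alternatingGroup (Fin 6))) =>
      ((y : alternatingGroup (Fin 6)) : Perm (Fin 6))) h
  · obtain ⟨a, ha⟩ := cover ((x : alternatingGroup (Fin 6)) : Perm (Fin 6))
      (congrArg Subtype.val (Subgroup.mem_centralizer_singleton_iff.1 x.2))
      (Perm.mem_alternatingGroup.1 (x : alternatingGroup (Fin 6)).2)
    exact ⟨a, Subtype.ext (Subtype.ext ha)⟩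

/-- Every involution moving four points has dihedral centraliser. -/
theorem centralizer_equiv (a : alternatingGroup (Fin 6)) (ha : orderOf a = 2)
    (hs : (a : Perm (Fin 6)).support.card = 4) :
    Nonempty (Subgroup.centralizer ({a} : Set (alternatingGroup (Fin 6))) ≃* DihedralGroup 4) := by
  haveI : Fact (Nat.Prime 2) := ⟨Nat.prime_two⟩
  have hord : orderOf (a : Perm (Fin 6)) = 2 := by rw [Subgroup.orderOf_coe, ha]
  have htype : ∀ σ : Perm (Fin 6), orderOf σ = 2 → σ.support.card = 4 → σ.cycleType = Multiset.replicate 2 2 := by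
    intro σ h h4
    obtain ⟨n, hn⟩ := Perm.cycleType_prime_order (σ := σ) (by rw [h]; exact Nat.prime_two)
    rw [h] at hn
    have hsum := Perm.sum_cycleType σ
    rw [hn, Multiset.sum_replicate, h4, smul_eq_mul] at hsum
    rw [hn, show n = 1 by omega]
  have hb : orderOf beta = 2 := orderOf_eq_prime (by rw [sq]; decide +kernel) (by decide +kernel)
  obtain ⟨c, hc⟩ := isConj_iff.1 (Perm.isConj_iff_cycleType_eq.2
    ((htype _ hord hs).trans (htype beta hb (by decide +kernel)).symm))
  let φ : MulAut (alternatingGroup (Fin 6)) := MulAut.conjNormal c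
  have hφ : φ a = betaA := Subtype.ext (by rw [MulAut.conjNormal_apply]; exact hc)
  obtain ⟨e⟩ := centralizer_beta
  let e1 : Subgroup.centralizer ({a} : Set (alternatingGroup (Fin 6))) ≃*
      Subgroup.centralizer ({betaA} : Set (alternatingGroup (Fin 6))) :=
    { toFun := fun x => ⟨φ x.1, Subgroup.mem_centralizer_singleton_iff.2 (by
        rw [← hφ, ← map_mul, ← map_mul, Subgroup.mem_centralizer_singleton_iff.1 x.2])⟩
      invFun := fun x => ⟨φ.symm x.1, Subgroup.mem_centralizer_singleton_iff.2 (by
        apply φ.injective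
        rw [map_mul, map_mul, MulEquiv.apply_symm_apply, hφ]
        exact Subgroup.mem_centralizer_singleton_iff.1 x.2)⟩
      left_inv := fun x => Subtype.ext (φ.symm_apply_apply _)
      right_inv := fun x => Subtype.ext (φ.apply_symm_apply _)
      map_mul' := fun x y => Subtype.ext (map_mul φ _ _) }
  exact ⟨e1.trans e⟩

end Cfsg.Agent.Lib.Involution.AltSixCent
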