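import Mathlib.GroupTheory.Subgroup.Centralizer
import Cfsg.Agent.Lib.Involution.Basic

/-!
Counting pairs of involutions with a given product.
-/

set_option autoImplicit false

namespace Cfsg.Agent.Lib.Involution

variable {G : Type*} [Group G] [Finite G]

omit [Finite G] in
lemma card_inverting (x : G) (hreal : IsConj x x⁻¹) :
    Nat.card {g : G // g * x * g⁻¹ = x⁻¹} = Nat.card (Subgroup.centralizer ({x} : Set G)) := by
  obtain ⟨g₀, hg₀⟩ := isConj_iff.mp hreal
  refine Nat.card_congr ((Equiv.mulLeft g₀⁻¹).subtypeEquiv fun g => ?_)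
  rw [Subgroup.mem_centralizer_singleton_iff]
  simp only [Equiv.coe_mulLeft]
  constructor
  · intro h
    have h' : g * x = x⁻¹ * g := mul_inv_eq_iff_eq_mul.mp h
    rw [mul_assoc, h', ← hg₀]
    group
  · intro h
    rw [mul_inv_eq_iff_eq_mul, ← hg₀, ← mul_right_inj g₀⁻¹, ← mul_assoc, h]
    group

omit [Finite G] in
lemma pair_inverts {x : G} {p : G × G}
    (hp : orderOf p.1 = 2 ∧ orderOf p.2 = 2 ∧ p.1 * p.2 = x) : p.1 * x * p.1⁻¹ = x⁻¹ := by
  rw [← hp.2.2]
  exact conj_prod hp.1 hp.2.1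

omit [Finite G] in
lemma card_pairs_eq_zero (x : G) (h : ¬ IsConj x x⁻¹) :
    Nat.card {p : G × G // orderOf p.1 = 2 ∧ orderOf p.2 = 2 ∧ p.1 * p.2 = x} = 0 := by
  have : IsEmpty {p : G × G // orderOf p.1 = 2 ∧ orderOf p.2 = 2 ∧ p.1 * p.2 = x} :=
    ⟨fun p => h (isConj_iff.mpr ⟨_, pair_inverts p.2⟩)⟩
  exact Nat.card_of_isEmpty

lemma card_pairs_le (x : G) :
    Nat.card {p : G × G // orderOf p.1 = 2 ∧ orderOf p.2 = 2 ∧ p.1 * p.2 = x}
      ≤ Nat.card (Subgroup.centralizer ({x} : Set G)) := by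
  by_cases h : IsConj x x⁻¹
  · rw [← card_inverting x h]
    refine Nat.card_le_card_of_injective (fun p => ⟨p.1.1, pair_inverts p.2⟩) ?_
    rintro ⟨⟨u, v⟩, hu, hv, huv⟩ ⟨⟨u', v'⟩, hu', hv', huv'⟩ he
    simp only [Subtype.mk.injEq] at he
    subst he
    simp only at huv huv'
    rw [← huv'] at huv
    simp only [Subtype.mk.injEq, Prod.mk.injEq, true_and]
    exact mul_left_cancel huv
  · rw [card_pairs_eq_zero x h]; exact Nat.zero_le _

omit [Finite G] in
lemma pair_commute {x : G} (hx : orderOf x = 2) {p : G × G}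
    (hp : orderOf p.1 = 2 ∧ orderOf p.2 = 2 ∧ p.1 * p.2 = x) : Commute p.1 x := by
  have h := pair_inverts hp
  rw [inv_self hx, mul_inv_eq_iff_eq_mul] at h
  exact h

lemma card_pairs_le_involution {x : G} (hx : orderOf x = 2) :
    Nat.card {p : G × G // orderOf p.1 = 2 ∧ orderOf p.2 = 2 ∧ p.1 * p.2 = x} + 2
      ≤ Nat.card (Subgroup.centralizer ({x} : Set G)) := by
  classical
  let C := Subgroup.centralizer ({x} : Set G)
  rw [show 2 = 1 + 1 from rfl, ← add_assoc, ← Finite.card_option, ← Finite.card_option]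
  refine Nat.card_le_card_of_injective
    (fun o : Option (Option {p : G × G // orderOf p.1 = 2 ∧ orderOf p.2 = 2 ∧ p.1 * p.2 = x}) =>
      (o.elim (1 : C) (fun o' => o'.elim ⟨x, Subgroup.mem_centralizer_singleton_iff.mpr rfl⟩
        (fun p => ⟨p.1.1, Subgroup.mem_centralizer_singleton_iff.mpr (pair_commute hx p.2)⟩)))) ?_
  have hne : ∀ p : {p : G × G // orderOf p.1 = 2 ∧ orderOf p.2 = 2 ∧ p.1 * p.2 = x}, p.1.1 ≠ x := by
    intro p h
    exact ne_one p.2.2.1 (mul_eq_left.mp (p.2.2.2.trans h.symm))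
  rintro (_ | _ | p) (_ | _ | q) h <;>
    simp only [Option.elim_none, Option.elim_some, Subtype.ext_iff, OneMemClass.coe_one] at h
  · rfl
  · exact absurd h.symm (ne_one hx)
  · exact absurd h.symm (ne_one q.2.1)
  · exact absurd h (ne_one hx)
  · rfl
  · exact absurd h.symm (hne q)
  · exact absurd h (ne_one p.2.1)
  · exact absurd h (hne p)
  · have h2 : p.1.2 = q.1.2 := mul_left_cancel ((p.2.2.2.trans q.2.2.2.symm).trans (h ▸ rfl))
    rw [Subtype.ext (Prod.ext h h2)]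

end Cfsg.Agent.Lib.Involution
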