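import Mathlib.Algebra.BigOperators.Fin
import Mathlib.GroupTheory.Index
import Cfsg.Agent.Lib.Involution.Counting

/-!
The counting argument of Brauer and Fowler.
-/

set_option autoImplicit false

namespace Cfsg.Agent.Lib.Involution

open Subgroup

variable {G : Type*} [Group G] [Finite G]

/-- Number of involutions. -/
noncomputable abbrev numInv (G : Type*) [Group G] : ℕ := Nat.card {t : G // orderOf t = 2}

/-- Number of pairs of involutions with product `x`. -/
noncomputable abbrev numPairs (x : G) : ℕ :=
  Nat.card {p : G × G // orderOf p.1 = 2 ∧ orderOf p.2 = 2 ∧ p.1 * p.2 = x}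

lemma sum_numPairs [Fintype G] : ∑ x : G, numPairs x = numInv G ^ 2 := by
  classical
  rw [pow_two, ← Nat.card_prod, ← Nat.card_sigma]
  refine Nat.card_congr
    { toFun := fun s => (⟨s.2.1.1, s.2.2.1⟩, ⟨s.2.1.2, s.2.2.2.1⟩)
      invFun := fun p => ⟨p.1.1 * p.2.1, ⟨(p.1.1, p.2.1), p.1.2, p.2.2, rfl⟩⟩
      left_inv := ?_
      right_inv := fun p => rfl }
  rintro ⟨x, ⟨⟨u, v⟩, hu, hv, rfl⟩⟩
  rfl

lemma numPairs_one : numPairs (1 : G) = numInv G := by
  refine Nat.card_congr
    { toFun := fun p => ⟨p.1.1, p.2.1⟩
      invFun := fun t => ⟨(t.1, t.1), t.2, t.2, mul_self t.2⟩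
      left_inv := ?_
      right_inv := fun t => rfl }
  rintro ⟨⟨u, v⟩, hu, hv, huv⟩
  simp only [Subtype.mk.injEq, Prod.mk.injEq, true_and]
  exact (inv_self hu).symm.trans (inv_eq_of_mul_eq_one_right huv)

/-- A subgroup of largest order among the proper subgroups. -/
lemma exists_max_proper (h : Nat.card G ≠ 1) :
    ∃ H : Subgroup G, H ≠ ⊤ ∧ ∀ K : Subgroup G, K ≠ ⊤ → Nat.card K ≤ Nat.card H := by
  have hne : ({K : Subgroup G | K ≠ ⊤}).Nonempty := by
    refine ⟨⊥, fun hbt => h ?_⟩
    rw [← Subgroup.card_top, ← hbt, Subgroup.card_bot]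
  exact Set.exists_max_image _ (fun K : Subgroup G => Nat.card K) (Set.toFinite _) hne

lemma center_ne_top_elem {x : G} (hx : centralizer ({x} : Set G) = ⊤) : x ∈ center G := by
  rw [mem_center_iff]
  intro g
  have : g ∈ centralizer ({x} : Set G) := by rw [hx]; trivial
  exact mem_centralizer_singleton_iff.mp this

/-- Without subgroups of index two, the centraliser of a noninvolution real element is at most
half of a proper subgroup. -/
lemma two_numPairs_le {x : G} (hx2 : x ^ 2 ≠ 1) (hidx : ∀ K : Subgroup G, K.index ≠ 2)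
    {h : ℕ} (hmax : ∀ K : Subgroup G, K ≠ ⊤ → Nat.card K ≤ h) : 2 * numPairs x ≤ h := by
  by_cases hreal : IsConj x x⁻¹
  · obtain ⟨g₀, hg₀⟩ := isConj_iff.mp hreal
    let E : Subgroup G :=
      { carrier := {g | g * x * g⁻¹ = x ∨ g * x * g⁻¹ = x⁻¹}
        one_mem' := Or.inl (by simp)
        mul_mem' := by
          intro a b ha hb
          have e : a * b * x * (a * b)⁻¹ = a * (b * x * b⁻¹) * a⁻¹ := by group
          simp only [Set.mem_setOf_eq] at *
          rw [e]
          rcases hb with hb | hb
          · rw [hb]; exact ha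
          · rw [hb, ← conj_inv]
            rcases ha with ha | ha
            · rw [ha]; exact Or.inr rfl
            · rw [ha, inv_inv]; exact Or.inl rfl
        inv_mem' := by
          intro a ha
          simp only [Set.mem_setOf_eq, inv_inv] at *
          rcases ha with ha | ha
          · refine Or.inl ?_
            conv_lhs => rw [← ha]
            group
          · refine Or.inr ?_
            have e : a * x⁻¹ * a⁻¹ = x := by rw [← conj_inv, ha, inv_inv]
            conv_lhs => rw [← e]
            group }
    have hCE : centralizer ({x} : Set G) ≤ E := fun g hg =>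
      Or.inl (mul_inv_eq_iff_eq_mul.mpr (mem_centralizer_singleton_iff.mp hg))
    have hg₀C : g₀ ∉ centralizer ({x} : Set G) := by
      intro hg
      apply hx2
      rw [mul_inv_eq_iff_eq_mul.mpr (mem_centralizer_singleton_iff.mp hg)] at hg₀
      rw [pow_two]
      exact mul_eq_one_iff_eq_inv.mpr hg₀
    have hne : (centralizer ({x} : Set G)).subgroupOf E ≠ ⊤ := fun ht =>
      hg₀C (subgroupOf_eq_top.mp ht (Or.inr hg₀))
    have h2 : 2 * Nat.card (centralizer ({x} : Set G)) ≤ Nat.card E := by
      have h1 := ((centralizer ({x} : Set G)).subgroupOf E).card_mul_index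
      rw [Nat.card_congr (subgroupOfEquivOfLe hCE).toEquiv] at h1
      have hi : 2 ≤ ((centralizer ({x} : Set G)).subgroupOf E).index :=
        one_lt_index_of_ne_top hne
      rw [← h1, mul_comm]
      exact Nat.mul_le_mul_left _ hi
    by_cases hE : E = ⊤
    · exfalso
      apply hidx (centralizer ({x} : Set G))
      have hle : (centralizer ({x} : Set G)).index ≤ 2 := by
        rw [Subgroup.centralizer_eq_comap_stabilizer x]
        refine (index_comap_of_surjective _ ConjAct.toConjAct.surjective).trans_le ?_
        rw [MulAction.index_stabilizer]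
        refine (Set.ncard_le_ncard (t := {x, x⁻¹}) ?_ (Set.toFinite _)).trans ?_
        · rintro w ⟨c, rfl⟩
          have : ConjAct.ofConjAct c ∈ E := by rw [hE]; trivial
          rcases this with h' | h'
          · exact Or.inl h'
          · exact Or.inr h'
        · exact (Set.ncard_insert_le _ _).trans (by rw [Set.ncard_singleton])
      have h2' : 2 ≤ (centralizer ({x} : Set G)).index := one_lt_index_of_ne_top fun ht =>
        hg₀C (by rw [ht]; trivial)
      omega
    · calc 2 * numPairs x ≤ 2 * Nat.card (centralizer ({x} : Set G)) :=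
            Nat.mul_le_mul_left 2 (card_pairs_le x)
        _ ≤ Nat.card E := h2
        _ ≤ h := hmax E hE
  · simp [numPairs, card_pairs_eq_zero x hreal]

/-- The fundamental inequality. -/
theorem bf_inequality (hidx : ∀ K : Subgroup G, K.index ≠ 2)
    (hcen : ∀ t : G, orderOf t = 2 → t ∉ center G)
    {h : ℕ} (hmax : ∀ K : Subgroup G, K ≠ ⊤ → Nat.card K ≤ h) :
    2 * numInv G ^ 2 + 2 * numInv G + h ≤ numInv G * h + Nat.card G * h := by
  classical
  have := Fintype.ofFinite G
  have hpt : ∀ x : G, 2 * numPairs x + (if x = 1 then h else 0) + (if orderOf x = 2 then 4 else 0)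
      ≤ (if orderOf x = 2 then h else 0) + h + (if x = 1 then 2 * numInv G else 0) := by
    intro x
    by_cases h1 : x = 1
    · subst h1
      simp only [if_true, orderOf_one, numPairs_one]
      norm_num
      omega
    by_cases h2 : orderOf x = 2
    · simp only [if_neg h1, if_pos h2]
      have := card_pairs_le_involution h2
      have := hmax _ (fun ht => hcen x h2 (center_ne_top_elem ht))
      simp only [numPairs]
      omega
    · simp only [if_neg h1, if_neg h2, add_zero, zero_add]
      refine two_numPairs_le (fun h3 => h2 (orderOf_eq_prime h3 h1)) hidx hmax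
  have hs := Finset.sum_le_sum (s := Finset.univ) (fun x _ => hpt x)
  simp only [Finset.sum_add_distrib, ← Finset.mul_sum, sum_numPairs, Finset.sum_ite_eq',
    Finset.mem_univ, if_true, Finset.sum_const, Finset.card_univ, smul_eq_mul] at hs
  have hn : (Finset.univ.filter fun x : G => orderOf x = 2).card = numInv G := by
    rw [numInv, Nat.card_eq_fintype_card, Fintype.card_subtype]
  simp only [← Finset.sum_filter, Finset.sum_const, smul_eq_mul, hn] at hs
  rw [← Nat.card_eq_fintype_card] at hs
  linarith

lemma card_le_numInv_mul {t : G} (ht : orderOf t = 2) :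
    Nat.card G ≤ numInv G * Nat.card (centralizer ({t} : Set G)) := by
  rw [← (centralizer ({t} : Set G)).card_mul_index, mul_comm]
  refine Nat.mul_le_mul_right _ ?_
  rw [Subgroup.centralizer_eq_comap_stabilizer t]
  refine (index_comap_of_surjective _ ConjAct.toConjAct.surjective).trans_le ?_
  rw [MulAction.index_stabilizer, numInv, ← Nat.card_coe_set_eq]
  refine Nat.card_le_card_of_injective (fun w => ⟨w.1, ?_⟩) ?_
  · obtain ⟨c, hc⟩ := w.2
    rw [← hc]
    exact (orderOf_conj (ConjAct.ofConjAct c) t).trans ht
  · intro a b hab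
    exact Subtype.ext (congrArg (fun z : {t : G // orderOf t = 2} => z.1) hab)

theorem exists_subgroup_index_lt (hidx : ∀ K : Subgroup G, K.index ≠ 2)
    (hcen : ∀ t : G, orderOf t = 2 → t ∉ center G) (h1 : Nat.card G ≠ 1) :
    ∃ H : Subgroup G, H ≠ ⊤ ∧
      2 * H.index * numInv G ^ 2 < Nat.card G * (Nat.card G + numInv G) := by
  obtain ⟨H, hH, hmax⟩ := exists_max_proper h1
  refine ⟨H, hH, ?_⟩
  have hb := bf_inequality hidx hcen hmax
  have hc := H.card_mul_index
  have hl : 0 < H.index := Nat.pos_of_ne_zero index_ne_zero_of_finite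
  have hh : 0 < Nat.card H := Nat.card_pos
  nlinarith

theorem exists_subgroup_cube (hidx : ∀ K : Subgroup G, K.index ≠ 2)
    (hcen : ∀ t : G, orderOf t = 2 → t ∉ center G) {t : G} (ht : orderOf t = 2) :
    ∃ H : Subgroup G, H ≠ ⊤ ∧ Nat.card G < Nat.card H ^ 3 := by
  have h1 : Nat.card G ≠ 1 := by
    intro h
    have := orderOf_dvd_natCard t
    rw [ht, h] at this
    norm_num at this
  obtain ⟨H, hH, hmax⟩ := exists_max_proper h1
  refine ⟨H, hH, ?_⟩
  have hb := bf_inequality hidx hcen hmax
  have hG := card_le_numInv_mul ht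
  have hc2 : Nat.card (centralizer ({t} : Set G)) ≤ Nat.card H :=
    hmax _ fun htop => hcen t ht (center_ne_top_elem htop)
  have hh2 : 2 ≤ Nat.card H := by
    refine le_trans ?_ hc2
    refine Nat.le_of_dvd Nat.card_pos ?_
    rw [← ht]
    exact orderOf_dvd_natCard _ (mem_centralizer_singleton_iff.mpr rfl)
  have hG' : Nat.card G ≤ numInv G * Nat.card H := hG.trans (Nat.mul_le_mul_left _ hc2)
  have hn : 0 < numInv G := by
    rcases Nat.eq_zero_or_pos (numInv G) with h | h
    · rw [h, zero_mul] at hG'; have := Nat.card_pos (α := G); omega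
    · exact h
  set h := Nat.card H
  set n := numInv G
  have h2n : 2 * n < h + h * h := by
    by_contra hle
    push Not at hle
    have : Nat.card G * h ≤ n * h * h := Nat.mul_le_mul_right _ hG'
    nlinarith
  nlinarith [Nat.mul_lt_mul_of_pos_right h2n (show 0 < h by omega)]

end Cfsg.Agent.Lib.Involution
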