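import Cfsg.Agent.S0948
import Cfsg.Agent.S0992
import Cfsg.Agent.Lib.Block.Exist
import Cfsg.Agent.Lib.Char.KleinTriple
import Cfsg.Agent.Lib.SmallSimple.Basic

/-!
Simple groups with a Klein four Sylow 2-subgroup whose centralizer is an involution centralizer.
-/

set_option autoImplicit false
set_option linter.style.haveILetI false

open Cfsg Subgroup

namespace Cfsg.Agent.Lib.Involution

universe u

lemma klein_bound_pos {n a b : ℕ} (ha : 0 < a) (hb : 0 < b)
    (h : 3 * n * ((a + 1) * (b + 1) * (a + b)) = 8 * (a * b * (a + b + 1))) : n ≤ 5 := by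
  by_contra hn
  push_neg at hn
  have h1 : 18 * ((a + 1) * (b + 1) * (a + b)) ≤ 3 * n * ((a + 1) * (b + 1) * (a + b)) :=
    Nat.mul_le_mul_right _ (by omega)
  have h2 : a * b * (a + b + 1) ≤ (a + 1) * (b + 1) * (2 * (a + b)) :=
    Nat.mul_le_mul (Nat.mul_le_mul (by omega) (by omega)) (by omega)
  have h3 : 0 < (a + 1) * (b + 1) * (a + b) := by positivity
  linarith

lemma klein_bound_neg {n b d : ℕ} (hb : 3 ≤ b) (hd : 3 ≤ d)
    (h : 3 * n * ((b + d) * ((b - 1) * (d - 1))) = 8 * (b * d * (b + d - 1))) : n ≤ 5 := by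
  by_contra hn
  push_neg at hn
  obtain ⟨p, rfl⟩ : ∃ p, b = p + 1 := ⟨b - 1, by omega⟩
  obtain ⟨q, rfl⟩ : ∃ q, d = q + 1 := ⟨d - 1, by omega⟩
  simp only [Nat.add_sub_cancel, show p + 1 + (q + 1) - 1 = p + q + 1 by omega] at h
  have h1 : 18 * ((p + 1 + (q + 1)) * (p * q)) ≤ 3 * n * ((p + 1 + (q + 1)) * (p * q)) :=
    Nat.mul_le_mul_right _ (by omega)
  have e1 : 2 * (p + 1) ≤ 3 * p := by omega
  have e2 : 2 * (q + 1) ≤ 3 * q := by omega
  have h3 : 4 * ((p + 1) * (q + 1)) ≤ 9 * (p * q) := by nlinarith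
  have h4 : 4 * ((p + 1) * (q + 1) * (p + q + 1)) ≤ 9 * (p * q) * (p + q + 1) := by
    rw [← mul_assoc]; exact Nat.mul_le_mul_right _ h3
  have h5 : 0 < (p + 1 + (q + 1)) * (p * q) := by
    have : 0 < p := by omega
    have : 0 < q := by omega
    positivity
  have h6 : p * q * (p + q + 1) ≤ (p + 1 + (q + 1)) * (p * q) := by nlinarith
  nlinarith

/-- A simple group with Sylow subgroup a four group `T` and `C(x) = C(T)` for an involution `x` in `T`
has order sixty. -/
theorem card_eq_sixty {G : Type u} [Group G] [Finite G] [IsSimpleGroup G]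
    (hG : ¬ IsMulCommutative G) (T : Sylow 2 G) (hT : IsKleinFour (T : Subgroup G))
    (hone : ∀ s t : G, orderOf s = 2 → orderOf t = 2 → IsConj s t)
    {x : G} (hx : orderOf x = 2) (hxT : x ∈ T)
    (hC : centralizer ({x} : Set G) = centralizer ((T : Subgroup G) : Set G)) :
    Nat.card G = 60 := by
  classical
  haveI := Fintype.ofFinite G
  haveI : Fact (Nat.Prime 2) := ⟨Nat.prime_two⟩
  obtain ⟨M, hM⟩ := Block.exists_isPModular Nat.prime_two
  obtain ⟨ζ₂, ζ₃, ζ₄, ε, hε, h2, h3, h23, h24, h34, hB, hval, -, -, -, -⟩ :=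
    Cfsg.Agent.S0948.result M hM T hT hone
  obtain ⟨v2, v3, v4⟩ := hval x hx
  have h4 : (ζ₄ : G → ℂ) ≠ fun _ => 1 := by
    intro h; rw [h] at v4; norm_num at v4
  have hT4 : Nat.card (T : Subgroup G) = 4 := hT.card_four
  have hidx := (T : Subgroup G).card_mul_index
  rw [hT4] at hidx
  have hodd : Odd (T : Subgroup G).index := Nat.odd_iff.mpr (by
    have := T.not_dvd_index; omega)
  have hnc : ¬ ∃ N : Subgroup G, N.Normal ∧ Nat.card N = (T : Subgroup G).index := by
    rintro ⟨N, hN, hc⟩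
    rcases hN.eq_bot_or_eq_top with rfl | rfl
    · rw [Subgroup.card_bot] at hc
      exact hG (SmallSimple.isMulCommutative_of_card_prime_sq (p := 2) (⊤ : Subgroup G)
        (by rw [Subgroup.card_top, ← hidx, ← hc]; rfl) |> fun h =>
          ⟨⟨fun a b => congrArg Subtype.val (h.is_comm.comm ⟨a, mem_top a⟩ ⟨b, mem_top b⟩)⟩⟩)
    · rw [Subgroup.card_top, ← hidx] at hc
      have h0 : 0 < Nat.card G := Nat.card_pos
      rw [← hidx] at h0
      omega
  obtain ⟨o, c, hc0, hco, ho0, hCJ, hCP, ⟨oa, ob, od⟩, hrel, hmain, -, -⟩ :=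
    Lib.Char.klein_triple hM hodd hidx.symm hnc T hxT hx hB ⟨h2, h3, h4, h23, h24, h34⟩
      ⟨Or.inl rfl, hε, Or.inr rfl⟩ ⟨by simpa using v2, v3, by simpa using v4⟩
  have hoc : o = c := by rw [hC, hCP] at hCJ; omega
  subst hoc
  have heven : Even (Nat.card G) := by rw [← hidx]; exact ⟨2 * (T : Subgroup G).index, by ring⟩
  have h8 : ¬ 8 ∣ Nat.card G := by
    rw [← hidx]; intro h
    have := Nat.odd_iff.mp hodd; omega
  obtain ⟨-, hrelN⟩ := Cfsg.Agent.S0992.result hG heven h8 T
  set C := centralizer ((T : Subgroup G) : Set G) with hCdef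
  set N := normalizer ((T : Subgroup G) : Set G) with hNdef
  have hCN : C ≤ N := by
    intro g hg
    rw [hNdef, mem_normalizer_iff]
    intro t
    have hc : ∀ t ∈ (T : Subgroup G), g * t * g⁻¹ = t := fun t ht => by
      rw [← mem_centralizer_iff.mp hg t ht, mul_inv_cancel_right]
    constructor
    · intro ht; rw [hc t ht]; exact ht
    · intro ht
      have h1 := hc _ ht
      have h2 : g * t * g⁻¹ = t := mul_left_cancel (mul_right_cancel h1)
      rwa [h2] at ht
  have hNC : C.index = 3 * N.index := by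
    rw [← Subgroup.relIndex_mul_index hCN, hrelN]
  have hcardG : Nat.card G = 12 * o * N.index := by
    rw [← C.card_mul_index, hCP, hNC]; ring
  have hNtop : N ≠ ⊤ := by
    intro h
    haveI : ((T : Subgroup G)).Normal := normalizer_eq_top_iff.mp h
    rcases (inferInstance : (T : Subgroup G).Normal).eq_bot_or_eq_top with h1 | h1
    · rw [h1, Subgroup.card_bot] at hT4; omega
    · rw [h1, Subgroup.index_top] at hidx
      exact hnc ⟨⊥, inferInstance, by rw [Subgroup.card_bot, h1, Subgroup.index_top]⟩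
  have hfac := SmallSimple.two_mul_card_dvd_factorial hG N hNtop
  have fa := Lib.Char.charDegree_pos ζ₂.2
  have fb := Lib.Char.charDegree_pos ζ₃.2
  have fd := Lib.Char.charDegree_pos ζ₄.2
  set a := Cfsg.charDegree (ζ₂ : G → ℂ)
  set b := Cfsg.charDegree (ζ₃ : G → ℂ)
  set d := Cfsg.charDegree (ζ₄ : G → ℂ)
  have hn : N.index ≤ 5 := by
    have hmain' : (3 * N.index : ℤ) * (((a : ℤ) + 1) * ((b : ℤ) + ε) * ((d : ℤ) + -1)) =
        8 * ((a : ℤ) * b * d) := by
      rw [hcardG] at hmain
      push_cast at hmain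
      have hne : (4 : ℤ) * (o : ℤ) ^ 3 ≠ 0 := by
        have : (0 : ℤ) < o := by exact_mod_cast ho0
        positivity
      apply mul_left_cancel₀ hne
      linear_combination hmain
    rcases hε with rfl | rfl
    · have hd : (d : ℤ) = a + b + 1 := by linarith
      rw [hd] at hmain'
      refine klein_bound_pos (a := a) (b := b) fa fb ?_
      zify
      linear_combination hmain'
    · have ha : (a : ℤ) + 1 = b + d := by linarith
      have hb1 : b ≠ 1 := by
        intro h; rw [h] at hmain'; simp at hmain'; omega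
      have hd1 : d ≠ 1 := by
        intro h; rw [h] at hmain'; simp at hmain'; omega
      have hb3 : 3 ≤ b := by obtain ⟨k, hk⟩ := ob; omega
      have hd3 : 3 ≤ d := by obtain ⟨k, hk⟩ := od; omega
      refine klein_bound_neg hb3 hd3 ?_
      have ha' : a = b + d - 1 := by omega
      rw [← ha']
      zify [show 1 ≤ b by omega, show 1 ≤ d by omega]
      rw [ha] at hmain'
      linear_combination hmain'
  rw [hcardG] at hfac ⊢
  interval_cases hi : N.index
  · exact absurd hi Subgroup.index_ne_zero_of_finite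
  · exact absurd (Subgroup.index_eq_one.mp hi) hNtop
  all_goals
    norm_num [Nat.factorial] at hfac
    have := Nat.le_of_dvd (by norm_num) hfac
    omega

end Cfsg.Agent.Lib.Involution
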