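import Mathlib.LinearAlgebra.Matrix.SpecialLinearGroup
import Mathlib.LinearAlgebra.Matrix.Adjugate
import Mathlib.FieldTheory.Finite.Basic
import Mathlib.GroupTheory.OrderOfElement

/-!
Elements of order four in `SL₂` over a finite field of odd order, and what this says about
two commuting copies of `SL₂` sharing their central involution.
-/

set_option autoImplicit false

open Matrix Polynomial

namespace Cfsg.Agent.Lib.Involution.SLTwoPair

section SL

variable {F : Type*} [Field F]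

local notation "S" => Matrix.SpecialLinearGroup (Fin 2) F

lemma sl_det (u : S) :
    (u : Matrix (Fin 2) (Fin 2) F) 0 0 * (u : Matrix (Fin 2) (Fin 2) F) 1 1 -
      (u : Matrix (Fin 2) (Fin 2) F) 0 1 * (u : Matrix (Fin 2) (Fin 2) F) 1 0 = 1 := by
  rw [← Matrix.det_fin_two]
  exact u.2

lemma sl_sq_one (h2 : (2 : F) ≠ 0) (u : S) (h : u * u = 1) : u = 1 ∨ u = -1 := by
  have hi : (↑(u⁻¹) : Matrix (Fin 2) (Fin 2) F) = ↑u := by rw [inv_eq_of_mul_eq_one_right h]
  rw [Matrix.SpecialLinearGroup.coe_inv, Matrix.adjugate_fin_two] at hi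
  have e00 := congrFun (congrFun hi 0) 0
  have e01 := congrFun (congrFun hi 0) 1
  have e10 := congrFun (congrFun hi 1) 0
  simp at e00 e01 e10
  have hd := sl_det u
  have h01 : (u : Matrix (Fin 2) (Fin 2) F) 0 1 = 0 := by
    have : (2 : F) * (u : Matrix (Fin 2) (Fin 2) F) 0 1 = 0 := by linear_combination -e01
    exact (mul_eq_zero.mp this).resolve_left h2
  have h10 : (u : Matrix (Fin 2) (Fin 2) F) 1 0 = 0 := by
    have : (2 : F) * (u : Matrix (Fin 2) (Fin 2) F) 1 0 = 0 := by linear_combination -e10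
    exact (mul_eq_zero.mp this).resolve_left h2
  rw [e00, h01, h10, mul_zero, sub_zero] at hd
  rcases mul_self_eq_one_iff.mp hd with hs | hs
  · left
    ext i k
    fin_cases i <;> fin_cases k <;> simp [h01, h10, hs, e00 ▸ hs, e00]
  · right
    ext i k
    fin_cases i <;> fin_cases k <;> simp [h01, h10, hs, e00]

lemma sq_neg_one_iff (h2 : (2 : F) ≠ 0) (u : S) :
    u * u = -1 ↔ (u : Matrix (Fin 2) (Fin 2) F) 1 1 = -(u : Matrix (Fin 2) (Fin 2) F) 0 0 := by
  constructor
  · intro h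
    have hi : u⁻¹ = -u := inv_eq_of_mul_eq_one_right (by rw [mul_neg, h, neg_neg])
    have hi' := congrArg (fun x : S => (x : Matrix (Fin 2) (Fin 2) F)) hi
    simp only [Matrix.SpecialLinearGroup.coe_inv, Matrix.adjugate_fin_two] at hi'
    have e00 := congrFun (congrFun hi' 0) 0
    simpa using e00
  · intro h
    have hd := sl_det u
    rw [h] at hd
    ext i k
    fin_cases i <;> fin_cases k <;> simp [Matrix.mul_apply, Fin.sum_univ_two, h] <;>
      first | ring1 | linear_combination (-hd) | linear_combination hd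

/-- The standard element of order four. -/
def slJ : S := ⟨!![0, -1; 1, 0], by simp [Matrix.det_fin_two]⟩

variable [Fintype F]

lemma exists_norm (h2 : Fintype.card F % 2 = 1) (x : F) : ∃ a b : F, a * a + b * b = x := by
  obtain ⟨a, b, hab⟩ := FiniteField.exists_root_sum_quadratic (R := F) (f := (X : F[X]) ^ 2)
    (g := (X : F[X]) ^ 2 - C x) (degree_X_pow 2) (degree_X_pow_sub_C two_pos x) h2
  refine ⟨a, b, ?_⟩
  simp at hab
  linear_combination hab

lemma conj_slJ (h2 : (2 : F) ≠ 0) (hodd : Fintype.card F % 2 = 1) (a : S) (ha : a * a = -1) :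
    ∃ w : S, w * slJ * w⁻¹ = a := by
  have hd := sl_det a
  have htr := (sq_neg_one_iff h2 a).mp ha
  rw [htr] at hd
  set p := (a : Matrix (Fin 2) (Fin 2) F) 0 0 with hp
  set q := (a : Matrix (Fin 2) (Fin 2) F) 0 1 with hq
  set r := (a : Matrix (Fin 2) (Fin 2) F) 1 0 with hr
  obtain ⟨x, y, hxy⟩ : ∃ x y : F, x * (r * x - p * y) - y * (p * x + q * y) ≠ 0 := by
    by_cases hr0 : r = 0
    · by_cases hq0 : q = 0
      · refine ⟨1, 1, fun h0 => ?_⟩
        have hp0 : (2 : F) * p = 0 := by linear_combination (-1 : F) * h0 + hr0 - hq0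
        have := (mul_eq_zero.mp hp0).resolve_left h2
        rw [this, hq0] at hd
        simp at hd
      · exact ⟨0, 1, by simpa using hq0⟩
    · exact ⟨1, 0, by simpa using hr0⟩
  set d := x * (r * x - p * y) - y * (p * x + q * y) with hdd
  obtain ⟨α, β, hab⟩ := exists_norm hodd d⁻¹
  have hdet : (!![x * α + (p * x + q * y) * β, -x * β + (p * x + q * y) * α;
      y * α + (r * x - p * y) * β, -y * β + (r * x - p * y) * α]).det = 1 := by
    rw [Matrix.det_fin_two]
    simp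
    have : d * (α * α + β * β) = 1 := by rw [hab, mul_inv_cancel₀ hxy]
    rw [hdd] at this
    linear_combination this
  refine ⟨⟨_, hdet⟩, mul_inv_eq_iff_eq_mul.mpr (Subtype.ext ?_)⟩
  show (!![x * α + (p * x + q * y) * β, -x * β + (p * x + q * y) * α;
      y * α + (r * x - p * y) * β, -y * β + (r * x - p * y) * α] : Matrix (Fin 2) (Fin 2) F) *
    !![0, -1; 1, 0] = (a : Matrix (Fin 2) (Fin 2) F) * _
  ext i k
  fin_cases i <;> fin_cases k <;>
    simp [slJ, Matrix.mul_apply, Fin.sum_univ_two, ← hp, ← hq, ← hr, htr]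
  · first | ring1 | linear_combination (x * β) * hd | linear_combination (-(x * β)) * hd
  · first | ring1 | linear_combination (x * α) * hd | linear_combination (-(x * α)) * hd
  · first | ring1 | linear_combination (y * β) * hd | linear_combination (-(y * β)) * hd
  · first | ring1 | linear_combination (y * α) * hd | linear_combination (-(y * α)) * hd

lemma sl_conj (h2 : (2 : F) ≠ 0) (hodd : Fintype.card F % 2 = 1) (a b : S) (ha : a * a = -1)
    (hb : b * b = -1) : ∃ w : S, w * a * w⁻¹ = b := by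
  obtain ⟨u, hu⟩ := conj_slJ h2 hodd a ha
  obtain ⟨v, hv⟩ := conj_slJ h2 hodd b hb
  refine ⟨v * u⁻¹, ?_⟩
  rw [← hu, ← hv]
  group

lemma sl_anti_sq (h2 : (2 : F) ≠ 0) (hodd : Fintype.card F % 2 = 1) (a u : S) (ha : a * a = -1)
    (hu : u * a * u⁻¹ = a * -1) : u * u = -1 := by
  obtain ⟨w, hw⟩ := conj_slJ h2 hodd a ha
  have h1 : (w⁻¹ * u * w) * slJ = -(slJ * (w⁻¹ * u * w)) := by
    have h3 : u * a = -(a * u) := by rw [← neg_mul, ← mul_neg_one, ← hu]; group
    rw [← hw] at h3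
    calc (w⁻¹ * u * w) * slJ = w⁻¹ * (u * (w * slJ * w⁻¹)) * w := by group
      _ = -(w⁻¹ * ((w * slJ * w⁻¹) * u) * w) := by rw [h3, mul_neg, neg_mul]
      _ = -(slJ * (w⁻¹ * u * w)) := by group
  have h5 : (w⁻¹ * u * w) * (w⁻¹ * u * w) = -1 := by
    revert h1
    generalize w⁻¹ * u * w = z
    intro h1
    have h4 : (z : Matrix (Fin 2) (Fin 2) F) * !![0, -1; 1, 0] =
        -(!![0, -1; 1, 0] * (z : Matrix (Fin 2) (Fin 2) F)) :=
      congrArg (fun t : S => (t : Matrix (Fin 2) (Fin 2) F)) h1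
    replace h4 := congrFun (congrFun h4 0) 1
    simp [Matrix.mul_apply, Matrix.vecMul, dotProduct, Fin.sum_univ_two] at h4
    rw [sq_neg_one_iff h2]
    first
      | linear_combination h4
      | linear_combination -h4
  calc u * u = w * ((w⁻¹ * u * w) * (w⁻¹ * u * w)) * w⁻¹ := by group
    _ = -1 := by rw [h5, mul_neg, mul_one, neg_mul, mul_inv_cancel]

lemma sl_exists_anti (h2 : (2 : F) ≠ 0) (hodd : Fintype.card F % 2 = 1) (a : S) (ha : a * a = -1) :
    ∃ u : S, u * a * u⁻¹ = a * -1 :=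
  sl_conj h2 hodd a (a * -1) ha (by rw [mul_neg_one, neg_mul_neg, ha])

end SL

/-- What is needed of a copy of `SL₂(q)` with central involution `j`. -/
structure PairFacts {G : Type*} [Group G] (L : Subgroup G) (j : G) : Prop where
  jmem : j ∈ L
  sq_one : ∀ u ∈ L, u * u = 1 → u = 1 ∨ u = j
  conj_four : ∀ a ∈ L, ∀ b ∈ L, a * a = j → b * b = j → ∃ w ∈ L, w * a * w⁻¹ = b
  anti_exists : ∀ a ∈ L, a * a = j → ∃ u ∈ L, u * a * u⁻¹ = a * j
  anti_sq : ∀ a ∈ L, ∀ u ∈ L, a * a = j → u * a * u⁻¹ = a * j → u * u = j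
  exists_four : ∃ a ∈ L, a * a = j

theorem pairFacts {G : Type*} [Group G] {F : Type*} [Field F] [Fintype F] (hF : Odd (Fintype.card F))
    {L : Subgroup G} (e : ↥L ≃* Matrix.SpecialLinearGroup (Fin 2) F) {j : G} (hj : orderOf j = 2)
    (hjL : j ∈ L) : PairFacts L j := by
  have hodd : Fintype.card F % 2 = 1 := Nat.odd_iff.mp hF
  have h2 : (2 : F) ≠ 0 := by
    refine Ring.two_ne_zero (fun h => ?_)
    exact Nat.not_even_iff_odd.mpr hF (even_iff_two_dvd.mpr (Nat.dvd_of_mod_eq_zero (FiniteField.even_card_of_char_two h)))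
  have hjj : j * j = 1 := by rw [← pow_two, ← hj, pow_orderOf_eq_one]
  have hej : e ⟨j, hjL⟩ = -1 := by
    refine ((sl_sq_one h2 _ (by rw [← map_mul, show (⟨j, hjL⟩ : L) * ⟨j, hjL⟩ = 1 from Subtype.ext hjj, map_one]))).resolve_left ?_
    intro h
    have h' : (⟨j, hjL⟩ : L) = 1 := e.injective (h.trans (map_one e).symm)
    have : j = 1 := congrArg Subtype.val h'
    rw [this, orderOf_one] at hj
    omega
  have sq : ∀ {a : G} (ha : a ∈ L), a * a = j → e ⟨a, ha⟩ * e ⟨a, ha⟩ = -1 := fun {a} ha h => by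
    rw [← map_mul, ← hej]; exact congrArg e (Subtype.ext h)
  have back : ∀ {x y : L}, e x = e y → (x : G) = y := fun h => congrArg Subtype.val (e.injective h)
  refine ⟨hjL, ?_, ?_, ?_, ?_, ?_⟩
  · intro u hu h
    rcases sl_sq_one h2 (e ⟨u, hu⟩)
      (by rw [← map_mul, show (⟨u, hu⟩ : L) * ⟨u, hu⟩ = 1 from Subtype.ext h, map_one]) with h' | h'
    · exact Or.inl (back (h'.trans (map_one e).symm))
    · exact Or.inr (back (h'.trans hej.symm))
  · intro a ha b hb h h'
    obtain ⟨w, hw⟩ := sl_conj h2 hodd _ _ (sq ha h) (sq hb h')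
    refine ⟨e.symm w, (e.symm w).2, ?_⟩
    exact back (x := e.symm w * ⟨a, ha⟩ * (e.symm w)⁻¹) (y := ⟨b, hb⟩) (by simpa using hw)
  · intro a ha h
    obtain ⟨u, hu⟩ := sl_exists_anti h2 hodd _ (sq ha h)
    refine ⟨e.symm u, (e.symm u).2, ?_⟩
    refine back (x := e.symm u * ⟨a, ha⟩ * (e.symm u)⁻¹) (y := ⟨a, ha⟩ * ⟨j, hjL⟩) ?_
    rw [map_mul, map_mul, map_mul, map_inv, MulEquiv.apply_symm_apply, hej, hu]
  · intro a ha u hu h h'
    have h1 : e ⟨u, hu⟩ * e ⟨a, ha⟩ * (e ⟨u, hu⟩)⁻¹ = e ⟨a, ha⟩ * -1 := by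
      rw [← hej, ← map_inv, ← map_mul, ← map_mul, ← map_mul]
      exact congrArg e (Subtype.ext h')
    refine back (x := ⟨u, hu⟩ * ⟨u, hu⟩) (y := ⟨j, hjL⟩) ?_
    rw [map_mul, hej]
    exact sl_anti_sq h2 hodd _ _ (sq ha h) h1
  · refine ⟨e.symm slJ, (e.symm slJ).2, ?_⟩
    refine back (x := e.symm slJ * e.symm slJ) (y := ⟨j, hjL⟩) ?_
    rw [map_mul, MulEquiv.apply_symm_apply, hej, sq_neg_one_iff h2]
    simp [slJ]

end Cfsg.Agent.Lib.Involution.SLTwoPair
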