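import Cfsg.Prelude.Def_TwoFusion
import Cfsg.Agent.Lib.Involution.SLTwoPair
import Mathlib.GroupTheory.Index
import Mathlib.SetTheory.Cardinal.Finite

/-!
Two commuting copies of `SL₂` interchanged by an element squaring to their common involution `j`:
counting square roots in the centralizer of a four-group shows that `j` is isolated.
-/

set_option autoImplicit false

namespace Cfsg.Agent.Lib.Involution.SLTwoPair

open Subgroup

variable {G : Type*} [Group G] {L₁ L₂ : Subgroup G} {j : G}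

lemma exists_mul_of_mem_sup (hc : ∀ x ∈ L₁, ∀ y ∈ L₂, x * y = y * x) {g : G} (hg : g ∈ L₁ ⊔ L₂) :
    ∃ u ∈ L₁, ∃ v ∈ L₂, u * v = g := by
  let P : Subgroup G :=
    { carrier := {g | ∃ u ∈ L₁, ∃ v ∈ L₂, u * v = g}
      mul_mem' := by
        rintro _ _ ⟨u, hu, v, hv, rfl⟩ ⟨u', hu', v', hv', rfl⟩
        refine ⟨u * u', mul_mem hu hu', v * v', mul_mem hv hv', ?_⟩
        calc u * u' * (v * v') = u * (u' * v) * v' := by group
          _ = u * (v * u') * v' := by rw [hc u' hu' v hv]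
          _ = u * v * (u' * v') := by group
      one_mem' := ⟨1, one_mem _, 1, one_mem _, one_mul 1⟩
      inv_mem' := by
        rintro _ ⟨u, hu, v, hv, rfl⟩
        refine ⟨u⁻¹, inv_mem hu, v⁻¹, inv_mem hv, ?_⟩
        rw [mul_inv_rev, hc u⁻¹ (inv_mem hu) v⁻¹ (inv_mem hv)] }
  have hle : L₁ ⊔ L₂ ≤ P := sup_le (fun u hu => ⟨u, hu, 1, one_mem _, mul_one u⟩)
    (fun v hv => ⟨1, one_mem _, v, hv, one_mul v⟩)
  exact hle hg

lemma mem_inf_cases (hj : orderOf j = 2) (hm : L₁ ⊓ L₂ = zpowers j) {z : G} (h1 : z ∈ L₁) (h2 : z ∈ L₂) :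
    z = 1 ∨ z = j := by
  have h : z ∈ zpowers j := hm ▸ mem_inf.mpr ⟨h1, h2⟩
  obtain ⟨i, rfl⟩ := mem_zpowers_iff.mp h
  have hjj : j ^ (2 : ℤ) = 1 := by
    rw [show (2 : ℤ) = ((2 : ℕ) : ℤ) from rfl, zpow_natCast, ← hj, pow_orderOf_eq_one]
  rcases Int.even_or_odd i with ⟨m, rfl⟩ | ⟨m, rfl⟩
  · left; rw [← two_mul, zpow_mul, hjj, one_zpow]
  · right; rw [zpow_add, zpow_mul, hjj, one_zpow, one_mul, zpow_one]

/-- Involutions of a product of two such groups. -/
theorem two_classes (h₁ : PairFacts L₁ j) (h₂ : PairFacts L₂ j) (hj : orderOf j = 2)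
    (hc : ∀ x ∈ L₁, ∀ y ∈ L₂, x * y = y * x) (hm : L₁ ⊓ L₂ = zpowers j)
    {a b : G} (ha : a ∈ L₁) (haa : a * a = j) (hb : b ∈ L₂) (hbb : b * b = j) :
    (a * b ∈ L₁ ⊔ L₂ ∧ orderOf (a * b) = 2 ∧ a * b ≠ j) ∧
      ∀ y ∈ L₁ ⊔ L₂, orderOf y = 2 → y = j ∨ ∃ g ∈ L₁ ⊔ L₂, g * (a * b) * g⁻¹ = y := by
  have hj1 : j ≠ 1 := fun h => by rw [h, orderOf_one] at hj; omega
  have hjj : j * j = 1 := by rw [← pow_two, ← hj, pow_orderOf_eq_one]
  have hnb : ∀ {z : G}, z * z = 1 → b ≠ z := fun {z} hz h => by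
    subst h; exact hj1 (hbb.symm.trans hz)
  have hx1 : a * b ≠ 1 := fun h => by
    have e : b = a⁻¹ := eq_inv_of_mul_eq_one_right h
    rcases mem_inf_cases hj hm (e ▸ inv_mem ha) hb with h' | h'
    · exact hnb (one_mul 1) h'
    · exact hnb hjj h'
  refine ⟨⟨mul_mem_sup ha hb, ?_, fun h => ?_⟩, fun y hy hy2 => ?_⟩
  · refine orderOf_eq_prime ?_ hx1
    rw [pow_two]
    calc a * b * (a * b) = a * (b * a) * b := by group
      _ = a * a * (b * b) := by rw [← hc a ha b hb]; group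
      _ = 1 := by rw [haa, hbb, hjj]
  · have e : b = a⁻¹ * j := by rw [← h, inv_mul_cancel_left]
    rcases mem_inf_cases hj hm (e ▸ mul_mem (inv_mem ha) h₁.jmem) hb with h' | h'
    · exact hnb (one_mul 1) h'
    · exact hnb hjj h'
  · obtain ⟨u, hu, v, hv, rfl⟩ := exists_mul_of_mem_sup hc hy
    have huv : u * u * (v * v) = 1 := by
      have h2 : (u * v) ^ 2 = 1 := by rw [← hy2, pow_orderOf_eq_one]
      rw [← h2, pow_two]
      symm
      calc u * v * (u * v) = u * (v * u) * v := by group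
        _ = u * (u * v) * v := by rw [← hc u hu v hv]
        _ = u * u * (v * v) := by group
    have hv2 : v * v = (u * u)⁻¹ := eq_inv_of_mul_eq_one_right huv
    rcases mem_inf_cases hj hm (mul_mem hu hu)
      (by have := inv_mem (mul_mem hv hv); rwa [hv2, inv_inv] at this) with h' | h'
    · left
      have hvv : v * v = 1 := by rw [hv2, h', inv_one]
      rcases h₁.sq_one u hu h' with rfl | rfl <;> rcases h₂.sq_one v hv hvv with rfl | rfl
      · rw [one_mul, orderOf_one] at hy2; omega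
      · rw [one_mul]
      · rw [mul_one]
      · rw [hjj, orderOf_one] at hy2; omega
    · right
      have hvv : v * v = j := by rw [hv2, h', inv_eq_of_mul_eq_one_right hjj]
      obtain ⟨w₁, hw₁, e₁⟩ := h₁.conj_four a ha u hu haa h'
      obtain ⟨w₂, hw₂, e₂⟩ := h₂.conj_four b hb v hv hbb hvv
      refine ⟨w₁ * w₂, mul_mem_sup hw₁ hw₂, ?_⟩
      rw [← e₁, ← e₂]
      calc w₁ * w₂ * (a * b) * (w₁ * w₂)⁻¹ = w₁ * (w₂ * a) * b * w₂⁻¹ * w₁⁻¹ := by group
        _ = w₁ * a * (w₂ * b * w₂⁻¹) * w₁⁻¹ := by rw [← hc a ha w₂ hw₂]; group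
        _ = w₁ * a * ((w₂ * b * w₂⁻¹) * w₁⁻¹) := by group
        _ = w₁ * a * w₁⁻¹ * (w₂ * b * w₂⁻¹) := by
          rw [← hc w₁⁻¹ (inv_mem hw₁) _ (mul_mem (mul_mem hw₂ hb) (inv_mem hw₂))]; group

section swap

variable {n : G}

/-- The map interchanging the two factors. -/
abbrev sw (n v : G) : G := n * v * n⁻¹

lemma sw_mul (u v : G) : sw n (u * v) = sw n u * sw n v := by simp [sw, mul_assoc]

lemma sw_inv (v : G) : sw n v⁻¹ = (sw n v)⁻¹ := by simp [sw, mul_assoc]

variable (hc : ∀ x ∈ L₁, ∀ y ∈ L₂, x * y = y * x) (hswap : ∀ v : G, v ∈ L₁ → sw n v ∈ L₂)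
  (hn2 : n * n = j) (hcen : ∀ v ∈ L₁, j * v = v * j)

include hn2 hcen in
lemma sw_sw {v : G} (hv : v ∈ L₁) : sw n (sw n v) = v := by
  show n * (n * v * n⁻¹) * n⁻¹ = v
  rw [show n * (n * v * n⁻¹) * n⁻¹ = n * n * v * (n * n)⁻¹ by group, hn2, hcen v hv, mul_inv_cancel_right]

include hn2 in
lemma sw_j (hjn : Commute n j) : sw n j = j := by
  show n * j * n⁻¹ = j
  rw [hjn.eq, mul_inv_cancel_right]

include hc hswap in
lemma conj_pair {u v p q : G} (hu : u ∈ L₁) (hv : v ∈ L₁) (hp : p ∈ L₁) (hq : q ∈ L₁) :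
    u * sw n v * (p * sw n q) * (u * sw n v)⁻¹ = u * p * u⁻¹ * sw n (v * q * v⁻¹) := by
  calc u * sw n v * (p * sw n q) * (u * sw n v)⁻¹
      = u * (sw n v * p) * sw n q * (sw n v)⁻¹ * u⁻¹ := by group
    _ = u * p * ((sw n v * sw n q * (sw n v)⁻¹) * u⁻¹) := by rw [← hc p hp _ (hswap v hv)]; group
    _ = u * p * (sw n (v * q * v⁻¹) * u⁻¹) := by rw [sw_mul, sw_mul, sw_inv]
    _ = u * p * u⁻¹ * sw n (v * q * v⁻¹) := by
      rw [← hc u⁻¹ (inv_mem hu) _ (hswap _ (mul_mem (mul_mem hv hq) (inv_mem hv)))]; group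

include hc hswap in
lemma mul_pair {u v p q : G} (hv : v ∈ L₁) (hp : p ∈ L₁) :
    u * sw n v * (p * sw n q) = u * p * sw n (v * q) := by
  calc u * sw n v * (p * sw n q) = u * (sw n v * p) * sw n q := by group
    _ = u * p * (sw n v * sw n q) := by rw [← hc p hp _ (hswap v hv)]; group
    _ = u * p * sw n (v * q) := by rw [sw_mul]

end swap

/-- `j` is isolated in a finite group with centralizer of this shape. -/
theorem isolated_of_swap [Finite G] (h₁ : PairFacts L₁ j) (h₂ : PairFacts L₂ j) (hj : orderOf j = 2)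
    (hc : ∀ x ∈ L₁, ∀ y ∈ L₂, x * y = y * x) (hm : L₁ ⊓ L₂ = zpowers j)
    (hle : L₁ ⊔ L₂ ≤ centralizer ({j} : Set G))
    (hi : (L₁ ⊔ L₂).relIndex (centralizer ({j} : Set G)) = 2) {n : G}
    (hn : n ∈ centralizer ({j} : Set G)) (hn2 : n * n = j)
    (hswap : L₁.map (MulAut.conj n).toMonoidHom = L₂) : Cfsg.IsIsolatedInvolution j := by
  classical
  have hjj : j * j = 1 := by rw [← pow_two, ← hj, pow_orderOf_eq_one]
  have hjinv : j⁻¹ = j := inv_eq_of_mul_eq_one_right hjj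
  have hj1 : j ≠ 1 := fun h => by rw [h, orderOf_one] at hj; omega
  have comJ : ∀ {g : G}, g ∈ centralizer ({j} : Set G) → g * j = j * g := fun hg =>
    mem_centralizer_singleton_iff.mp hg
  have hcen : ∀ v ∈ L₁, j * v = v * j := fun v hv => (comJ (hle (mem_sup_left hv))).symm
  have hjn : Commute n j := comJ hn
  have hs : ∀ v : G, v ∈ L₁ → sw n v ∈ L₂ := fun v hv => hswap ▸ ⟨v, hv, rfl⟩
  have hs' : ∀ w : G, w ∈ L₂ → ∃ v ∈ L₁, sw n v = w := fun w hw => by
    rw [← hswap] at hw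
    obtain ⟨v, hv, e⟩ := hw
    exact ⟨v, hv, e⟩
  have hswj : sw n j = j := sw_j hn2 hjn
  have hsw1 : sw n (1 : G) = 1 := by simp [sw]
  have hinj : ∀ {p q : G}, sw n p = sw n q → p = q := fun h => mul_left_cancel (mul_right_cancel h)
  -- uniqueness of the expression `p * sw n q`
  have sep : ∀ {p q p' q' : G}, p ∈ L₁ → q ∈ L₁ → p' ∈ L₁ → q' ∈ L₁ → p * sw n q = p' * sw n q' →
      (p = p' ∧ q = q') ∨ (p = p' * j ∧ q = q' * j) := by
    intro p q p' q' hp hq hp' hq' h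
    have h' : p'⁻¹ * p = sw n q' * (sw n q)⁻¹ := by
      rw [eq_mul_inv_iff_mul_eq, mul_assoc, h, inv_mul_cancel_left]
    rcases mem_inf_cases hj hm (mul_mem (inv_mem hp') hp)
      (h' ▸ mul_mem (hs q' hq') (inv_mem (hs q hq))) with e | e
    · left
      rw [e] at h'
      exact ⟨(inv_mul_eq_one.mp e).symm, hinj (mul_inv_eq_one.mp h'.symm).symm⟩
    · right
      rw [e] at h'
      refine ⟨eq_mul_of_inv_mul_eq e, ?_⟩
      have h3 : sw n q' = sw n (j * q) := by rw [sw_mul, hswj]; exact mul_inv_eq_iff_eq_mul.mp h'.symm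
      rw [hinj h3, hcen q hq, mul_assoc, hjj, mul_one]
  obtain ⟨a, ha, haa⟩ := h₁.exists_four
  obtain ⟨w, hw, hwa⟩ := h₁.anti_exists a ha haa
  have haj : a * j ≠ a := fun h => hj1 (mul_eq_left.mp h)
  have hbb : sw n a * sw n a = j := by rw [← sw_mul, haa, hswj]
  obtain ⟨⟨hxY, hx2, hxj⟩, hclass⟩ := two_classes h₁ h₂ hj hc hm ha haa (hs a ha) hbb
  set x := a * sw n a with hx
  have hnx : n * x * n⁻¹ = x := by
    calc n * x * n⁻¹ = sw n a * sw n (sw n a) := by rw [← sw_mul]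
      _ = x := by rw [sw_sw hn2 hcen ha, ← hc a ha _ (hs a ha)]
  -- the cosets
  have hnY : n ∉ L₁ ⊔ L₂ := by
    intro h
    obtain ⟨u, hu, v, hv, rfl⟩ := exists_mul_of_mem_sup hc h
    have h1 : u * v * a * (u * v)⁻¹ ∈ L₁ := by
      rw [show u * v * a * (u * v)⁻¹ = u * (v * a) * v⁻¹ * u⁻¹ by group, ← hc a ha v hv,
        show u * (a * v) * v⁻¹ * u⁻¹ = u * a * u⁻¹ by group]
      exact mul_mem (mul_mem hu ha) (inv_mem hu)
    rcases mem_inf_cases hj hm h1 (hs a ha) with e | e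
    · rw [show sw (u * v) a = 1 from e, mul_one] at hbb; exact hj1 hbb.symm
    · rw [show sw (u * v) a = j from e, hjj] at hbb; exact hj1 hbb.symm
  have shapeY : ∀ y ∈ L₁ ⊔ L₂, ∃ u ∈ L₁, ∃ v ∈ L₁, y = u * sw n v := by
    intro y hy
    obtain ⟨u, hu, v', hv', rfl⟩ := exists_mul_of_mem_sup hc hy
    obtain ⟨v, hv, rfl⟩ := hs' v' hv'
    exact ⟨u, hu, v, hv, rfl⟩
  have shape : ∀ g ∈ centralizer ({j} : Set G),
      (∃ u ∈ L₁, ∃ v ∈ L₁, g = u * sw n v) ∨ (∃ u ∈ L₁, ∃ v ∈ L₁, g = u * sw n v * n) := by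
    intro g hg
    by_cases hgY : g ∈ L₁ ⊔ L₂
    · exact Or.inl (shapeY g hgY)
    · right
      have h := (Subgroup.mul_mem_iff_of_index_two hi (a := (⟨g, hg⟩ : centralizer ({j} : Set G)))
        (b := (⟨n, hn⟩ : centralizer ({j} : Set G))⁻¹)).mpr
        (iff_of_false hgY (fun h => hnY ((inv_mem_iff (H := L₁ ⊔ L₂)).mp h)))
      obtain ⟨u, hu, v, hv, e⟩ := shapeY _ (show g * n⁻¹ ∈ L₁ ⊔ L₂ from h)
      exact ⟨u, hu, v, hv, by rw [← e, inv_mul_cancel_right]⟩
  have sqn : ∀ {u v : G}, u ∈ L₁ → v ∈ L₁ →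
      u * sw n v * n * (u * sw n v * n) = u * v * sw n (v * u) * j := by
    intro u v hu hv
    calc u * sw n v * n * (u * sw n v * n) = u * sw n v * (sw n u * sw n (sw n v)) * (n * n) := by
          simp only [sw]; group
      _ = u * sw n v * (v * sw n u) * j := by
          rw [sw_sw hn2 hcen hv, hn2, ← hc v hv _ (hs u hu)]
      _ = u * v * sw n (v * u) * j := by rw [mul_pair hc hs hv hv]
  -- involutions centralizing `j`
  have invol : ∀ y : G, orderOf y = 2 → y * j = j * y → y ≠ j → ∃ k ∈ L₁ ⊔ L₂, k * x * k⁻¹ = y := by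
    intro y hy hyj hne
    rcases shape y (mem_centralizer_singleton_iff.mpr hyj) with ⟨u, hu, v, hv, rfl⟩ | ⟨u, hu, v, hv, rfl⟩
    · exact (hclass _ (mul_mem_sup hu (hs v hv)) hy).resolve_left hne
    · exfalso
      have h2 : u * v * sw n (v * u) * j = 1 := by
        rw [← sqn hu hv, ← pow_two, ← hy, pow_orderOf_eq_one]
      have h3 : u * v * sw n (v * u) = j * sw n 1 := by
        rw [hsw1, mul_one, eq_inv_of_mul_eq_one_left h2, hjinv]
      rcases sep (mul_mem hu hv) (mul_mem hv hu) h₁.jmem (one_mem _) h3 with ⟨e1, e2⟩ | ⟨e1, e2⟩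
      · rw [show v = u⁻¹ from eq_inv_of_mul_eq_one_left e2, mul_inv_cancel] at e1
        exact hj1 e1.symm
      · rw [one_mul] at e2
        rw [hjj] at e1
        rw [show v = u⁻¹ from eq_inv_of_mul_eq_one_right e1, inv_mul_cancel] at e2
        exact hj1 e2.symm
  -- the centralizer of `a` in `L₁`
  have hinvT : ∀ {t r : G}, t ∈ L₁ → r ∈ L₁ → t * a * t⁻¹ = a → r * a * r⁻¹ = a * j →
      r * t * r⁻¹ = t⁻¹ := by
    intro t r ht hr hta hra
    have htr : t * r * a * (t * r)⁻¹ = a * j := by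
      rw [show t * r * a * (t * r)⁻¹ = t * (r * a * r⁻¹) * t⁻¹ by group, hra, mul_assoc t,
        mul_assoc a j, hcen _ (inv_mem ht)]
      rw [show t * (a * (t⁻¹ * j)) = t * a * t⁻¹ * j by group, hta]
    have h1 : t * r * (t * r) = r * r :=
      (h₁.anti_sq a ha _ (mul_mem ht hr) haa htr).trans (h₁.anti_sq a ha _ hr haa hra).symm
    refine eq_inv_of_mul_eq_one_right ?_
    calc t * (r * t * r⁻¹) = t * r * (t * r) * (r * r)⁻¹ := by group
      _ = 1 := by rw [h1, mul_inv_cancel]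
  have hTab : ∀ {t t' : G}, t ∈ L₁ → t' ∈ L₁ → t * a * t⁻¹ = a → t' * a * t'⁻¹ = a → t * t' = t' * t := by
    intro t t' ht ht' hta ht'a
    have htt : t * t' * a * (t * t')⁻¹ = a := by
      rw [show t * t' * a * (t * t')⁻¹ = t * (t' * a * t'⁻¹) * t⁻¹ by group, ht'a, hta]
    have h1 := hinvT (mul_mem ht ht') hw htt hwa
    rw [show w * (t * t') * w⁻¹ = w * t * w⁻¹ * (w * t' * w⁻¹) by group, hinvT ht hw hta hwa,
      hinvT ht' hw ht'a hwa] at h1
    have h2 := congrArg (·⁻¹) h1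
    simp at h2
    exact h2.symm
  -- the two ways of centralizing `x`
  have cases : ∀ {u v : G}, u ∈ L₁ → v ∈ L₁ → u * sw n v * x * (u * sw n v)⁻¹ = x →
      (u * a * u⁻¹ = a ∧ v * a * v⁻¹ = a) ∨ (u * a * u⁻¹ = a * j ∧ v * a * v⁻¹ = a * j) := by
    intro u v hu hv h
    rw [hx, conj_pair hc hs hu hv ha ha] at h
    exact sep (mul_mem (mul_mem hu ha) (inv_mem hu)) (mul_mem (mul_mem hv ha) (inv_mem hv)) ha ha h
  have conjA : ∀ {u v : G}, u ∈ L₁ → v ∈ L₁ → u * sw n v * a * (u * sw n v)⁻¹ = u * a * u⁻¹ := by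
    intro u v hu hv
    rw [show u * sw n v * a * (u * sw n v)⁻¹ = u * (sw n v * a) * (sw n v)⁻¹ * u⁻¹ by group,
      ← hc a ha _ (hs v hv)]
    group
  have conjAn : ∀ {u v : G}, u ∈ L₁ → v ∈ L₁ →
      u * sw n v * n * a * (u * sw n v * n)⁻¹ = sw n (v * a * v⁻¹) := by
    intro u v hu hv
    have hm' : sw n (v * a * v⁻¹) ∈ L₂ := hs _ (mul_mem (mul_mem hv ha) (inv_mem hv))
    rw [show u * sw n v * n * a * (u * sw n v * n)⁻¹ = u * sw n (v * a * v⁻¹) * u⁻¹ by simp [sw, mul_assoc],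
      hc u hu _ hm', mul_inv_cancel_right]
  have hRcases : ∀ g ∈ centralizer ({j} : Set G), g * x = x * g → g * g = j * x →
      (g * a * g⁻¹ = a ∧ ∃ u ∈ L₁, ∃ v ∈ L₁, u * a * u⁻¹ = a ∧ v * a * v⁻¹ = a ∧ g = u * sw n v) ∨
        g * a * g⁻¹ = sw n a := by
    intro g hgC hgx hg2
    rcases shape g hgC with ⟨u, hu, v, hv, rfl⟩ | ⟨u, hu, v, hv, rfl⟩
    · rcases cases hu hv (mul_inv_eq_iff_eq_mul.mpr hgx) with ⟨hua, hva⟩ | ⟨hua, hva⟩
      · exact Or.inl ⟨(conjA hu hv).trans hua, u, hu, v, hv, hua, hva, rfl⟩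
      · exfalso
        rw [mul_pair hc hs hv hu, h₁.anti_sq a ha u hu haa hua, h₁.anti_sq a ha v hv haa hva, hswj, hjj] at hg2
        exact hxj (by rw [eq_inv_of_mul_eq_one_right hg2.symm, hjinv])
    · have hyx : u * sw n v * x * (u * sw n v)⁻¹ = x := by
        have h := mul_inv_eq_iff_eq_mul.mpr hgx
        rwa [show u * sw n v * n * x * (u * sw n v * n)⁻¹ = u * sw n v * (n * x * n⁻¹) * (u * sw n v)⁻¹ by group,
          hnx] at h
      rcases cases hu hv hyx with ⟨hua, hva⟩ | ⟨hua, hva⟩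
      · exact Or.inr (by rw [conjAn hu hv, hva])
      · exfalso
        have hu' : u⁻¹ * a * u = a * j := by
          conv_rhs => rw [show a = u⁻¹ * (u * a * u⁻¹) * u by group, hua]
          rw [show u⁻¹ * (a * j) * u * j = u⁻¹ * a * (j * u) * j by group, hcen u hu,
            show u⁻¹ * a * (u * j) * j = u⁻¹ * a * u * (j * j) by group, hjj, mul_one]
        have ht : u * v * a * (u * v)⁻¹ = a := by
          rw [show u * v * a * (u * v)⁻¹ = u * (v * a * v⁻¹) * u⁻¹ by group, hva,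
            show u * (a * j) * u⁻¹ = u * a * (j * u⁻¹) by group, hcen _ (inv_mem hu),
            show u * a * (u⁻¹ * j) = u * a * u⁻¹ * j by group, hua, mul_assoc, hjj, mul_one]
        have hvu : v * u = (u * v)⁻¹ := by
          have h := hinvT (mul_mem hu hv) (inv_mem hu) ht (by rwa [inv_inv])
          rwa [inv_inv, inv_mul_cancel_left] at h
        have h3 : u * v * sw n (u * v)⁻¹ = a * sw n a := by
          rw [sqn hu hv, hvu] at hg2
          have h4 : u * v * sw n (u * v)⁻¹ = j * x * j := by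
            rw [← hg2, mul_assoc _ j j, hjj, mul_one]
          rw [h4, ← comJ (hle hxY), mul_assoc, hjj, mul_one]
        rcases sep (mul_mem hu hv) (inv_mem (mul_mem hu hv)) ha ha h3 with ⟨e1, e2⟩ | ⟨e1, e2⟩
        · rw [e1] at e2
          exact hj1 (haa.symm.trans (by conv_lhs => arg 1; rw [← e2]
                                        rw [inv_mul_cancel]))
        · rw [e1] at e2
          have : a * j * (a * j) = 1 := by
            conv_lhs => arg 1; rw [← e2]
            rw [inv_mul_cancel]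
          rw [show a * j * (a * j) = a * (j * a) * j by group, hcen a ha,
            show a * (a * j) * j = a * a * (j * j) by group, hjj, mul_one, haa] at this
          exact hj1 this
  -- counting
  let R : G → Type _ := fun z => {g : G // g * j = j * g ∧ g * x = x * g ∧ g * g = z}
  have hlt : Nat.card (R (j * x)) < Nat.card (R j) := by
    have haC : a * j = j * a := (hcen a ha).symm
    have hax : a * x = x * a := by
      rw [hx, mul_assoc a (sw n a) a, ← hc a ha _ (hs a ha)]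
    let P : Prop := ∃ r : R (j * x), r.1 * a * r.1⁻¹ = a
    let r₀ : G := if h : P then h.choose.1 else 1
    have hr₀ : ∀ g : R (j * x), g.1 * a * g.1⁻¹ = a →
        r₀ * j = j * r₀ ∧ r₀ * x = x * r₀ ∧ r₀ * r₀ = j * x ∧ r₀ * a = a * r₀ ∧ g.1 * r₀ = r₀ * g.1 := by
      intro g hg
      have hP : P := ⟨g, hg⟩
      have e : r₀ = hP.choose.1 := dif_pos hP
      obtain ⟨p1, p2, p3⟩ := hP.choose.2
      rw [e]
      refine ⟨p1, p2, p3, mul_inv_eq_iff_eq_mul.mp hP.choose_spec, ?_⟩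
      rcases hRcases _ (mem_centralizer_singleton_iff.mpr g.2.1) g.2.2.1 g.2.2.2 with
        ⟨-, u, hu, v, hv, hua, hva, eg⟩ | hbad
      · rcases hRcases _ (mem_centralizer_singleton_iff.mpr p1) p2 p3 with
          ⟨-, u', hu', v', hv', hua', hva', er⟩ | hbad
        · rw [eg, er, mul_pair hc hs hv hu', mul_pair hc hs hv' hu, hTab hu hu' hua hua', hTab hv hv' hva hva']
        · exfalso
          rw [hP.choose_spec] at hbad
          rcases mem_inf_cases hj hm ha (hbad ▸ hs a ha) with e' | e' <;> rw [e'] at haa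
          · exact hj1 (haa.symm.trans (one_mul 1))
          · exact hj1 (haa.symm.trans hjj)
      · exfalso
        rw [hg] at hbad
        rcases mem_inf_cases hj hm ha (hbad ▸ hs a ha) with e' | e' <;> rw [e'] at haa
        · exact hj1 (haa.symm.trans (one_mul 1))
        · exact hj1 (haa.symm.trans hjj)
    let f : R (j * x) → G := fun g => if g.1 * a * g.1⁻¹ = a then g.1 * r₀⁻¹ * a else g.1 * a⁻¹
    have hf : ∀ g, f g * j = j * f g ∧ f g * x = x * f g ∧ f g * f g = j ∧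
        f g * a * (f g)⁻¹ = g.1 * a * g.1⁻¹ := by
      intro g
      obtain ⟨g1, g2, g3⟩ := g.2
      by_cases hg : g.1 * a * g.1⁻¹ = a
      · simp only [f, if_pos hg]
        obtain ⟨p1, p2, p3, p4, p5⟩ := hr₀ g hg
        have ga : Commute g.1 a := mul_inv_eq_iff_eq_mul.mp hg
        have ra : Commute r₀⁻¹ a := Commute.inv_left p4
        have gr : Commute g.1 r₀⁻¹ := Commute.inv_right p5
        refine ⟨((Commute.mul_left g1 (Commute.inv_left p1)).mul_left haC : Commute _ _).eq,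
          ((Commute.mul_left g2 (Commute.inv_left p2)).mul_left hax : Commute _ _).eq, ?_, ?_⟩
        · rw [← pow_two, (ga.mul_left ra).mul_pow, gr.mul_pow, pow_two, pow_two, pow_two, g3, haa,
            show r₀⁻¹ * r₀⁻¹ = (r₀ * r₀)⁻¹ by group, p3, mul_inv_cancel, one_mul]
        · rw [hg, show g.1 * r₀⁻¹ * a * a * (g.1 * r₀⁻¹ * a)⁻¹ = g.1 * r₀⁻¹ * a * (g.1 * r₀⁻¹)⁻¹ by group,
            (ga.mul_left ra).eq, mul_inv_cancel_right]
      · simp only [f, if_neg hg]
        refine ⟨(Commute.mul_left g1 (Commute.inv_left haC) : Commute _ _).eq,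
          (Commute.mul_left g2 (Commute.inv_left hax) : Commute _ _).eq, ?_, by group⟩
        rcases hRcases _ (mem_centralizer_singleton_iff.mpr g1) g2 g3 with ⟨h, -⟩ | h
        · exact absurd h hg
        · have hgg : g.1 * g.1 * a * (g.1 * g.1)⁻¹ = a := by
            rw [g3, show j * x * a * (j * x)⁻¹ = j * (x * a * x⁻¹) * j⁻¹ by group, ← hax,
              mul_inv_cancel_right, hcen a ha, mul_inv_cancel_right]
          have h1 : g.1⁻¹ * a * g.1 = sw n a := by
            conv_lhs => rw [← hgg]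
            rw [show g.1⁻¹ * (g.1 * g.1 * a * (g.1 * g.1)⁻¹) * g.1 = g.1 * a * g.1⁻¹ by group, h]
          calc g.1 * a⁻¹ * (g.1 * a⁻¹) = g.1 * g.1 * (g.1⁻¹ * a * g.1)⁻¹ * a⁻¹ := by group
            _ = j * x * (a * sw n a)⁻¹ := by rw [h1, g3, mul_inv_rev]; group
            _ = j := by rw [hx, mul_inv_cancel_right]
    -- the root that is missed
    set g₀ := w * sw n w⁻¹ * n with hg₀
    have hwC : w⁻¹ * a * w = a * j := by
      conv_rhs => rw [show a = w⁻¹ * (w * a * w⁻¹) * w by group, hwa]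
      rw [show w⁻¹ * (a * j) * w * j = w⁻¹ * a * (j * w) * j by group, hcen w hw,
        show w⁻¹ * a * (w * j) * j = w⁻¹ * a * w * (j * j) by group, hjj, mul_one]
    have hg₀a : g₀ * a * g₀⁻¹ = sw n (a * j) := by
      rw [hg₀, conjAn hw (inv_mem hw), inv_inv, hwC]
    have hg₀j : g₀ * j = j * g₀ :=
      comJ (mul_mem (hle (mul_mem_sup hw (hs _ (inv_mem hw)))) hn)
    have hg₀x : g₀ * x = x * g₀ := by
      refine mul_inv_eq_iff_eq_mul.mp ?_
      rw [hg₀, show w * sw n w⁻¹ * n * x * (w * sw n w⁻¹ * n)⁻¹ =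
        w * sw n w⁻¹ * (n * x * n⁻¹) * (w * sw n w⁻¹)⁻¹ by group, hnx, hx,
        conj_pair hc hs hw (inv_mem hw) ha ha, inv_inv, hwa, hwC, sw_mul, hswj,
        show a * j * (sw n a * j) = a * (j * sw n a) * j by group,
        ← comJ (hle (mem_sup_right (hs a ha))), show a * (sw n a * j) * j = a * sw n a * (j * j) by group,
        hjj, mul_one]
    have hg₀g : g₀ * g₀ = j := by
      rw [hg₀, sqn hw (inv_mem hw), mul_inv_cancel, inv_mul_cancel, hsw1, one_mul, one_mul]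
    let F : Option (R (j * x)) → R j := fun o => match o with
      | none => ⟨g₀, hg₀j, hg₀x, hg₀g⟩
      | some g => ⟨f g, (hf g).1, (hf g).2.1, (hf g).2.2.1⟩
    have hF : Function.Injective F := by
      have hne : ∀ g, f g ≠ g₀ := by
        intro g h
        have h1 := (hf g).2.2.2
        rw [h, hg₀a] at h1
        obtain ⟨g1, g2, g3⟩ := g.2
        rcases hRcases _ (mem_centralizer_singleton_iff.mpr g1) g2 g3 with ⟨h', -⟩ | h' <;> rw [h'] at h1
        · rcases mem_inf_cases hj hm ha (h1 ▸ hs _ (mul_mem ha h₁.jmem)) with e' | e' <;> rw [e'] at haa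
          · exact hj1 (haa.symm.trans (one_mul 1))
          · exact hj1 (haa.symm.trans hjj)
        · exact haj (hinj h1)
      rintro (_ | g) (_ | g') h
      · rfl
      · exact absurd (congrArg Subtype.val h).symm (hne g')
      · exact absurd (congrArg Subtype.val h) (hne g)
      · have h' : f g = f g' := congrArg Subtype.val h
        have hcon : g.1 * a * g.1⁻¹ = g'.1 * a * g'.1⁻¹ := by rw [← (hf g).2.2.2, ← (hf g').2.2.2, h']
        congr 1
        apply Subtype.ext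
        by_cases hg : g.1 * a * g.1⁻¹ = a
        · simp only [f, if_pos hg, if_pos (hcon ▸ hg)] at h'
          exact mul_right_cancel (mul_right_cancel h')
        · simp only [f, if_neg hg, if_neg (hcon ▸ hg)] at h'
          exact mul_right_cancel h'
    haveI : Finite (R j) := inferInstanceAs (Finite {g : G // _})
    have h := Nat.card_le_card_of_injective F hF
    haveI : Finite (R (j * x)) := inferInstanceAs (Finite {g : G // _})
    rw [Finite.card_option] at h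
    omega
  -- transport
  refine ⟨hj, fun g hcomm => ?_⟩
  by_contra hne
  obtain ⟨k, hk, hkx⟩ := invol (g * j * g⁻¹) (by rw [← MulAut.conj_apply, MulEquiv.orderOf_eq, hj])
    hcomm.eq.symm hne
  set p := k⁻¹ * g with hp
  have hpj : p * j * p⁻¹ = x := by
    rw [hp, show k⁻¹ * g * j * (k⁻¹ * g)⁻¹ = k⁻¹ * (g * j * g⁻¹) * k by group, ← hkx]; group
  have hjx : j * x = x * j := (comJ (hle hxY)).symm
  set y := p⁻¹ * j * p with hy
  have hyj : y * j = j * y := by
    have h := congrArg (fun z => p⁻¹ * z * p) hjx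
    rw [← hpj] at h
    simp only [hy]
    convert h using 1 <;> group
  have hyne : y ≠ j := by
    intro h
    refine hxj ?_
    rw [← hpj]
    conv_lhs => rw [← h]
    simp [hy, mul_assoc]
  have hy2 : orderOf y = 2 := by
    rw [hy, show p⁻¹ * j * p = MulAut.conj p⁻¹ j by simp, MulEquiv.orderOf_eq, hj]
  obtain ⟨k₂, hk₂, hk₂x⟩ := invol y hy2 hyj hyne
  have hwx : w * x * w⁻¹ = j * x := by
    have hmem := hs a ha
    rw [hx, show w * (a * sw n a) * w⁻¹ = w * a * (sw n a * w⁻¹) by group,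
      ← hc w⁻¹ (inv_mem hw) _ hmem, show w * a * (w⁻¹ * sw n a) = w * a * w⁻¹ * sw n a by group, hwa,
      ← hcen a ha, mul_assoc]
  set h₀ := k₂ * w * k₂⁻¹ with hh₀
  have hk₂j := comJ (hle hk₂)
  have hh₀j : h₀ * j = j * h₀ :=
    comJ (hle (mul_mem (mul_mem hk₂ (mem_sup_left hw)) (inv_mem hk₂)))
  have hh₀y : h₀ * y * h₀⁻¹ = j * y := by
    rw [hh₀, ← hk₂x, show k₂ * w * k₂⁻¹ * (k₂ * x * k₂⁻¹) * (k₂ * w * k₂⁻¹)⁻¹ =
      k₂ * (w * x * w⁻¹) * k₂⁻¹ by group, hwx, show k₂ * (j * x) * k₂⁻¹ = k₂ * j * (x * k₂⁻¹) by group,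
      hk₂j]
    group
  set h := p * h₀ * p⁻¹ with hh
  have hhx : h * x * h⁻¹ = x := by
    rw [hh, ← hpj, show p * h₀ * p⁻¹ * (p * j * p⁻¹) * (p * h₀ * p⁻¹)⁻¹ = p * (h₀ * j) * h₀⁻¹ * p⁻¹ by group,
      hh₀j]
    group
  have hhj : h * j * h⁻¹ = j * x := by
    rw [hh, show p * h₀ * p⁻¹ * j * (p * h₀ * p⁻¹)⁻¹ = p * (h₀ * (p⁻¹ * j * p) * h₀⁻¹) * p⁻¹ by group,
      ← hy, hh₀y, hy, show p * (j * (p⁻¹ * j * p)) * p⁻¹ = p * j * p⁻¹ * j by group, hpj, hjx]
  refine absurd (Nat.card_le_card_of_injective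
    (fun r : R j => (⟨h * r.1 * h⁻¹, ?_, ?_, ?_⟩ : R (j * x)))
    (fun r r' e => Subtype.ext (mul_left_cancel (mul_right_cancel (congrArg Subtype.val e))))) (not_le.mpr hlt)
  · have h1 : Commute (h * r.1 * h⁻¹) (h * (j * x) * h⁻¹) :=
      (Commute.mul_right r.2.1 r.2.2.1).map (MulAut.conj h).toMonoidHom
    have h2 : h * (j * x) * h⁻¹ = j := by
      rw [show h * (j * x) * h⁻¹ = h * j * h⁻¹ * (h * x * h⁻¹) by group, hhx, hhj, mul_assoc,
        ← pow_two, ← hx2, pow_orderOf_eq_one, mul_one]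
    rw [h2] at h1
    exact h1.eq
  · have h1 : Commute (h * r.1 * h⁻¹) (h * x * h⁻¹) :=
      Commute.map (show Commute r.1 x from r.2.2.1) (MulAut.conj h).toMonoidHom
    rw [hhx] at h1
    exact h1.eq
  · rw [show h * r.1 * h⁻¹ * (h * r.1 * h⁻¹) = h * (r.1 * r.1) * h⁻¹ by group, r.2.2.2, hhj]

end Cfsg.Agent.Lib.Involution.SLTwoPair
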