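import Cfsg.Agent.Lib.Transfer.Fusion
import Cfsg.Prelude.Def_TwoFusion

/-!
Frobenius' criterion relative to a strongly closed subgroup: a group has a normal p-complement as
soon as the normalizers of the centric subgroups of a strongly closed subgroup have one.
-/

set_option autoImplicit false
set_option linter.style.haveILetI false

open Subgroup Cfsg Cfsg.Agent.Lib.Transfer
open scoped Pointwise

namespace Cfsg.Agent.Lib.Involution

universe u

variable {G : Type u} [Group G] [Finite G] {p : ℕ} [Fact p.Prime]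

omit [Finite G] [Fact p.Prime] in
lemma mul_pow_mem_of_normalizes {C : Subgroup G} {c m : G} (hc : c ∈ C)
    (hm : m ∈ normalizer (C : Set G)) (j : ℕ) : (c * m) ^ j * (m ^ j)⁻¹ ∈ C := by
  induction j with
  | zero => simp
  | succ j ih =>
    have h1 : m ^ j * c * (m ^ j)⁻¹ ∈ C := (mem_normalizer_iff.mp (pow_mem hm j) c).mp hc
    rw [show (c * m) ^ (j + 1) * (m ^ (j + 1))⁻¹ =
      ((c * m) ^ j * (m ^ j)⁻¹) * (m ^ j * c * (m ^ j)⁻¹) by rw [pow_succ, pow_succ]; group]
    exact mul_mem ih h1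

omit [Finite G] in
lemma mem_of_pow_prime_pow_mem {C : Subgroup G} {x : G} {k : ℕ} (hx : (orderOf x).Coprime p)
    (h : x ^ p ^ k ∈ C) : x ∈ C := by
  obtain ⟨n, hn⟩ := exists_pow_eq_self_of_coprime (x := x) (n := p ^ k) (hx.pow_right k).symm
  rw [← hn]
  exact pow_mem h n

/-- In a group with a normal `p`-complement high powers centralize a normal `p`-subgroup. -/
lemma exists_pow_centralizes {H R : Subgroup G} (hH : HasNormalPComplement p H)
    (hR : IsPGroup p R) (hRH : R ≤ H) (hn : H ≤ normalizer (R : Set G)) {m : G} (hm : m ∈ H) :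
    ∃ k : ℕ, m ^ p ^ k ∈ centralizer (R : Set G) := by
  obtain ⟨k, hk⟩ := isPGroup_quotient_pResidual (p := p) (QuotientGroup.mk' (pResidual p H) ⟨m, hm⟩)
  refine ⟨k, mem_centralizer_iff.mpr fun r hr => ?_⟩
  rw [← map_pow] at hk
  have hmem := (QuotientGroup.eq_one_iff _).mp hk
  haveI hRn : (R.subgroupOf H).Normal := normal_subgroupOf_of_le_normalizer hn
  have hdis : pResidual p H ⊓ R.subgroupOf H = ⊥ :=
    inf_eq_bot_of_not_dvd (hasNormalPComplement_iff.mp hH) (hR.comap_subtype (K := H))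
  have h := commute_of_normal_of_disjoint (pResidual p H) (R.subgroupOf H) inferInstance hRn
    (disjoint_iff.mpr hdis) _ _ hmem (mem_subgroupOf.mpr hr : (⟨r, hRH hr⟩ : H) ∈ R.subgroupOf H)
  exact (congrArg Subtype.val h.eq).symm

/-- An element of order prime to `p` in a group with a normal complement centralizes. -/
lemma centralizes_of_complement {H R : Subgroup G} (hH : HasNormalPComplement p H)
    (hR : IsPGroup p R) (hRH : R ≤ H) {x : G} (hxH : x ∈ H) (hxR : x ∈ normalizer (R : Set G))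
    (hxo : (orderOf x).Coprime p) : x ∈ centralizer (R : Set G) := by
  obtain ⟨k, hk⟩ := exists_pow_centralizes (H := H ⊓ normalizer (R : Set G))
    (HasNormalPComplement.of_injective (inclusion inf_le_left) (inclusion_injective _) hH)
    hR (le_inf hRH le_normalizer) inf_le_right (mem_inf.mpr ⟨hxH, hxR⟩)
  exact mem_of_pow_prime_pow_mem hxo hk

/-- The elements fused into `D`. -/
def FusedInto (D : Subgroup G) (x : G) : Prop := ∃ g : G, g * x * g⁻¹ ∈ D

omit [Finite G] in
lemma fusedInto_conj {D : Subgroup G} {x : G} (c : G) :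
    FusedInto D (c * x * c⁻¹) ↔ FusedInto D x := by
  constructor
  · rintro ⟨g, hg⟩
    exact ⟨g * c, by rwa [show g * c * x * (g * c)⁻¹ = g * (c * x * c⁻¹) * g⁻¹ by group]⟩
  · rintro ⟨g, hg⟩
    exact ⟨g * c⁻¹, by rwa [show g * c⁻¹ * (c * x * c⁻¹) * (g * c⁻¹)⁻¹ = g * x * g⁻¹ by group]⟩

/-- The trace of a strongly closed subgroup on a `p`-subgroup. -/
lemma exists_trace (S : Sylow p G) {D : Subgroup G} (hD : IsStronglyClosed D (S : Subgroup G))
    (P : Subgroup G) (hP : IsPGroup p P) :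
    ∃ W : Subgroup G, W ≤ P ∧ (∀ x ∈ P, x ∈ W ↔ FusedInto D x) ∧
      (∃ g : G, ∀ w ∈ W, g * w * g⁻¹ ∈ D) ∧
      normalizer (P : Set G) ≤ normalizer (W : Set G) := by
  obtain ⟨R, hR⟩ := hP.exists_le_sylow
  obtain ⟨g, hg⟩ := MulAction.exists_smul_eq G R S
  have hPS : ∀ x ∈ P, g * x * g⁻¹ ∈ (S : Subgroup G) := fun x hx => by
    rw [← hg]; exact mem_smul_sylow.mpr (by simpa [mul_assoc] using hR hx)
  set W := P ⊓ D.comap (MulAut.conj g).toMonoidHom with hW
  have hiff : ∀ x ∈ P, x ∈ W ↔ FusedInto D x := by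
    intro x hx
    constructor
    · exact fun h => ⟨g, h.2⟩
    · rintro ⟨h, hh⟩
      refine ⟨hx, ?_⟩
      have := hD.2 _ hh (g * h⁻¹) (by
        rw [show g * h⁻¹ * (h * x * h⁻¹) * (g * h⁻¹)⁻¹ = g * x * g⁻¹ by group]; exact hPS x hx)
      rwa [show g * h⁻¹ * (h * x * h⁻¹) * (g * h⁻¹)⁻¹ = g * x * g⁻¹ by group] at this
  refine ⟨W, inf_le_left, hiff, ⟨g, fun w hw => hw.2⟩, fun c hc => mem_normalizer_iff.mpr fun x => ?_⟩
  have hP' := mem_normalizer_iff.mp hc x
  constructor
  · intro hx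
    exact (hiff _ (hP'.mp hx.1)).mpr ((fusedInto_conj c).mpr ((hiff x hx.1).mp hx))
  · intro hx
    exact (hiff _ (hP'.mpr hx.1)).mpr ((fusedInto_conj c).mp ((hiff _ hx.1).mp hx))

omit [Fact p.Prime] in
lemma card_lt_of_lt {A B : Subgroup G} (h : A < B) : Nat.card A < Nat.card B :=
  Set.ncard_lt_ncard (SetLike.coe_ssubset_coe.mpr h) (Set.toFinite _)

/-- The normalizers of all subgroups fused into `D` have normal complements. -/
theorem normalizer_complement (S : Sylow p G) {D : Subgroup G}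
    (hD : IsStronglyClosed D (S : Subgroup G))
    (h : ∀ U : Subgroup G, U ≤ D → D ⊓ centralizer (U : Set G) ≤ U →
      HasNormalPComplement p (normalizer (U : Set G)))
    (U : Subgroup G) (hU : ∃ g : G, ∀ u ∈ U, g * u * g⁻¹ ∈ D) :
    HasNormalPComplement p (normalizer (U : Set G)) := by
  suffices H : ∀ n, ∀ U : Subgroup G, Nat.card G - Nat.card U = n →
      (∃ g : G, ∀ u ∈ U, g * u * g⁻¹ ∈ D) → HasNormalPComplement p (normalizer (U : Set G)) from
    H _ U rfl hU
  intro n
  induction n using Nat.strong_induction_on with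
  | _ n ih =>
  intro U hn ⟨g, hg⟩
  have up : ∀ W : Subgroup G, U < W → (∃ g : G, ∀ w ∈ W, g * w * g⁻¹ ∈ D) →
      HasNormalPComplement p (normalizer (W : Set G)) := by
    intro W hW hWg
    refine ih _ ?_ W rfl hWg
    have h1 := card_lt_of_lt hW
    have h2 := W.card_le_card_group
    omega
  by_cases hc : ∀ d ∈ D, (∀ u ∈ U, d * (g * u * g⁻¹) = g * u * g⁻¹ * d) → g⁻¹ * d * g ∈ U
  · -- the centric case is the hypothesis
    set f := (MulAut.conj g).toMonoidHom with hf
    have hU' : U.map f ≤ D := by rintro - ⟨u, hu, rfl⟩; exact hg u hu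
    have hcen : D ⊓ centralizer ((U.map f : Subgroup G) : Set G) ≤ U.map f := by
      intro d hd
      refine ⟨g⁻¹ * d * g, hc d hd.1 fun u hu => ((mem_centralizer_iff.mp hd.2) _ ⟨u, hu, rfl⟩).symm, ?_⟩
      simp [hf, mul_assoc]
    have hN := h _ hU' hcen
    have hmap : ∀ x ∈ normalizer (U : Set G), f x ∈ normalizer ((U.map f : Subgroup G) : Set G) := by
      intro x hx
      rw [← map_equiv_normalizer_eq]
      exact mem_map_of_mem _ hx
    exact HasNormalPComplement.of_injective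
      ((f.comp (normalizer (U : Set G)).subtype).codRestrict _ fun x => hmap x x.2)
      (fun a b hab => Subtype.ext ((MulAut.conj g).injective (congrArg Subtype.val hab))) hN
  push_neg at hc
  obtain ⟨d0, hd0, hd0c, hd0U⟩ := hc
  set d := g⁻¹ * d0 * g with hddef
  have hgd : g * d * g⁻¹ = d0 := by rw [hddef]; group
  have hdF : FusedInto D d := ⟨g, by rw [hgd]; exact hd0⟩
  have hdc : d ∈ centralizer (U : Set G) := mem_centralizer_iff.mpr fun u hu => by
    have := hd0c u hu
    rw [← hgd, conj_mul, conj_mul] at this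
    exact (mul_left_cancel (mul_right_cancel this)).symm
  have hUp : IsPGroup p U := by
    refine (S.2.comap_of_injective (MulAut.conj g).toMonoidHom (MulAut.conj g).injective).to_le ?_
    intro u hu
    exact hD.1 (hg u hu)
  have hdo : IsPGroup p (zpowers d) := by
    refine (S.2.comap_of_injective (MulAut.conj g).toMonoidHom (MulAut.conj g).injective).to_le ?_
    rw [zpowers_le]
    show g * d * g⁻¹ ∈ (S : Subgroup G)
    rw [hgd]; exact hD.1 hd0
  set N := normalizer (U : Set G) with hNdef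
  haveI hUn : (U.subgroupOf N).Normal := normal_in_normalizer
  have hdN : d ∈ N := centralizer_le_normalizer _ hdc
  -- the automizer of `U`
  have stepA : ∀ x ∈ N, (orderOf x).Coprime p → x ∈ centralizer (U : Set G) := by
    intro x hx hxo
    set C := (centralizer (U : Set G)).subgroupOf N with hC
    haveI hCn : C.Normal := ⟨fun c hc m => by
      rw [hC, mem_subgroupOf, mem_centralizer_iff] at hc ⊢
      intro u hu
      have hu' : (m : G)⁻¹ * u * m ∈ U := by
        have := (mem_normalizer_iff.mp (inv_mem m.2) u).mp hu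
        simpa using this
      have e := hc _ hu'
      simp only [Subgroup.coe_mul, InvMemClass.coe_inv]
      calc u * ((m : G) * c * (m : G)⁻¹) = m * (((m : G)⁻¹ * u * m) * c) * (m : G)⁻¹ := by group
        _ = m * (c * ((m : G)⁻¹ * u * m)) * (m : G)⁻¹ := by rw [e]
        _ = (m : G) * c * (m : G)⁻¹ * u := by group⟩
    have hdC : (⟨⟨d, hdN⟩, hdc⟩ : C) ∈ (⊤ : Subgroup C) := mem_top _
    have hzp : IsPGroup p (zpowers (⟨⟨d, hdN⟩, hdc⟩ : C)) := by
      obtain ⟨i, hi⟩ := IsPGroup.iff_card.mp hdo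
      rw [Nat.card_zpowers] at hi
      exact IsPGroup.of_card (n := i) (by rw [Nat.card_zpowers, ← Subgroup.orderOf_coe, ← Subgroup.orderOf_coe]; exact hi)
    obtain ⟨PC, hPC⟩ := hzp.exists_le_sylow
    have htop := Sylow.normalizer_sup_eq_top PC
    set A := (PC : Subgroup C).map C.subtype with hA
    obtain ⟨m, hm, c, hcC, hmc⟩ := mem_sup_of_normal_right.mp
      (htop ▸ mem_top (⟨x, hx⟩ : N) : (⟨x, hx⟩ : N) ∈ normalizer (A : Set N) ⊔ C)
    set A' := A.map N.subtype with hA'
    have hA'c : A' ≤ centralizer (U : Set G) := by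
      rintro - ⟨a, ⟨b, -, rfl⟩, rfl⟩; exact b.2
    have hA'p : IsPGroup p A' := (PC.2.map _).map _
    have hmA : (m : G) ∈ normalizer (A' : Set G) := by
      rw [mem_normalizer_iff]
      intro y
      constructor
      · rintro ⟨a, ha, rfl⟩
        exact ⟨m * a * m⁻¹, (mem_normalizer_iff.mp hm a).mp ha, by simp⟩
      · rintro ⟨a, ha, e⟩
        refine ⟨m⁻¹ * a * m, ?_, ?_⟩
        · exact (mem_normalizer_iff.mp hm _).mpr (by rwa [show m * (m⁻¹ * a * m) * m⁻¹ = a by group])
        · simp only [Subgroup.coe_subtype] at e ⊢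
          simp only [Subgroup.coe_mul, InvMemClass.coe_inv, e]; group
    obtain ⟨W, hWle, hWiff, hWg, hWn⟩ := exists_trace S hD (U ⊔ A')
      (hUp.to_sup_of_normal_left' hA'p (hA'c.trans (centralizer_le_normalizer _)))
    have hdA : d ∈ A' := ⟨⟨d, hdN⟩, ⟨⟨⟨d, hdN⟩, hdc⟩, hPC (mem_zpowers _), rfl⟩, rfl⟩
    have hUW : U ≤ W := fun u hu => (hWiff u (mem_sup_left hu)).mpr ⟨g, hg u hu⟩
    have hlt : U < W := lt_of_le_of_ne hUW fun e =>
      hd0U (e ▸ (hWiff d (mem_sup_right hdA)).mpr hdF)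
    have hmn : (m : G) ∈ normalizer (((U ⊔ A' : Subgroup G)) : Set G) :=
      normalizer_inf_normalizer_le_normalizer_sup U A' ⟨m.2, hmA⟩
    obtain ⟨k, hk⟩ := exists_pow_centralizes (H := normalizer (W : Set G) ⊓ N)
      (HasNormalPComplement.of_injective (inclusion inf_le_left) (inclusion_injective _) (up W hlt hWg))
      hUp (le_inf (hUW.trans le_normalizer) le_normalizer) inf_le_right
      (mem_inf.mpr ⟨hWn hmn, m.2⟩)
    have hmc' : (⟨x, hx⟩ : N) = (m * c * m⁻¹) * m := by rw [← hmc]; group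
    have h3 := mul_pow_mem_of_normalizes (C := C) (hCn.conj_mem c hcC m)
      (by rw [normalizer_eq_top]; exact mem_top m) (p ^ k)
    rw [← hmc'] at h3
    have h4 : (⟨x, hx⟩ : N) ^ p ^ k ∈ C := by
      have := mul_mem h3 (show m ^ p ^ k ∈ C from mem_subgroupOf.mpr (by
        rw [SubgroupClass.coe_pow]; exact hk))
      rwa [inv_mul_cancel_right] at this
    exact mem_subgroupOf.mp (mem_of_pow_prime_pow_mem (C := C) (by rwa [Subgroup.orderOf_mk]) h4)
  -- all automizers in `N`
  refine frobenius_criterion fun Q hQ => ?_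
  intro x hxQ hxo
  have hxo' : (orderOf (x : G)).Coprime p := by rwa [Subgroup.orderOf_coe]
  set R := U ⊔ Q.map N.subtype with hRdef
  have hQN : Q.map N.subtype ≤ N := map_subtype_le Q
  have hRN : R ≤ N := sup_le le_normalizer hQN
  have hRp : IsPGroup p R := hUp.to_sup_of_normal_left' (hQ.map _) hQN
  have hxR : (x : G) ∈ normalizer (R : Set G) := by
    refine normalizer_inf_normalizer_le_normalizer_sup U _ ⟨x.2, ?_⟩
    refine mem_normalizer_iff.mpr fun y => ?_
    constructor
    · rintro ⟨a, ha, rfl⟩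
      exact ⟨x * a * x⁻¹, (mem_normalizer_iff.mp hxQ a).mp ha, by simp⟩
    · rintro ⟨a, ha, e⟩
      refine ⟨x⁻¹ * a * x, ?_, ?_⟩
      · exact (mem_normalizer_iff.mp hxQ _).mpr (by rwa [show x * (x⁻¹ * a * x) * x⁻¹ = a by group])
      · simp only [Subgroup.coe_subtype] at e ⊢
        simp only [Subgroup.coe_mul, InvMemClass.coe_inv, e]; group
  suffices hxc : (x : G) ∈ centralizer (R : Set G) by
    rw [mem_centralizer_iff]
    intro q hq
    exact Subtype.ext (mem_centralizer_iff.mp hxc _ (mem_sup_right (mem_map_of_mem _ hq)))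
  obtain ⟨W, hWle, hWiff, hWg, hWn⟩ := exists_trace S hD R hRp
  have hUW : U ≤ W := fun u hu => (hWiff u (mem_sup_left hu)).mpr ⟨g, hg u hu⟩
  by_cases hlt : U < W
  · exact centralizes_of_complement (up W hlt hWg) hRp (le_normalizer.trans hWn) (hWn hxR) hxR hxo'
  have hWU : W = U := (eq_of_le_of_not_lt hUW hlt).symm
  -- a Sylow subgroup of `N` containing `R` meets the fused elements outside `U`
  obtain ⟨T, hT⟩ := (hRp.comap_subtype (K := N)).exists_le_sylow
  set H := (T : Subgroup N).map N.subtype with hHdef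
  have hRH : R ≤ H := fun r hr => ⟨⟨r, hRN hr⟩, hT (mem_subgroupOf.mpr hr), rfl⟩
  have hUH : U ≤ H := le_sup_left.trans hRH
  have hHp : IsPGroup p H := T.2.map _
  obtain ⟨E, hEle, hEiff, -, hEn⟩ := exists_trace S hD H hHp
  obtain ⟨e0, he0, he0U⟩ : ∃ e ∈ E, e ∉ U := by
    have hdP : IsPGroup p (zpowers (⟨d, hdN⟩ : N)) := by
      obtain ⟨i, hi⟩ := IsPGroup.iff_card.mp hdo
      rw [Nat.card_zpowers] at hi
      exact IsPGroup.of_card (n := i) (by rw [Nat.card_zpowers, Subgroup.orderOf_mk, hi])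
    obtain ⟨T', hT'⟩ := hdP.exists_le_sylow
    obtain ⟨c, hc⟩ := MulAction.exists_smul_eq N T' T
    have hm : (c : G) * d * (c : G)⁻¹ ∈ H := by
      refine ⟨c * ⟨d, hdN⟩ * c⁻¹, ?_, by simp⟩
      rw [← hc]
      exact mem_smul_sylow.mpr (by simpa [mul_assoc] using hT' (mem_zpowers _))
    refine ⟨_, (hEiff _ hm).mpr ((fusedInto_conj _).mpr hdF), fun hh => hd0U ?_⟩
    exact (mem_normalizer_iff.mp c.2 d).mpr hh
  have he0R : e0 ∉ R := fun hh => he0U (hWU ▸ (hWiff e0 hh).mpr ((hEiff e0 (hEle he0)).mp he0))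
  set H2 := R ⊔ E with hH2
  have hH2p : IsPGroup p H2 := hHp.to_le (sup_le hRH hEle)
  have hltR : R.subgroupOf H2 < ⊤ := lt_top_iff_ne_top.mpr fun e =>
    he0R (subgroupOf_eq_top.mp e (mem_sup_right he0))
  haveI := hH2p.isNilpotent
  obtain ⟨a, haN, haR⟩ := SetLike.exists_of_lt (Group.normalizerCondition_of_isNilpotent _ hltR)
  have hRE : R ≤ normalizer (E : Set G) := hRH.trans (le_normalizer.trans hEn)
  have haRE : (a : G) ∈ (R : Set G) * (E : Set G) := by
    rw [← coe_mul_of_left_le_normalizer_right R E hRE]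
    exact a.2
  obtain ⟨r, hr, e, he, hre⟩ := Set.mem_mul.mp haRE
  have haNR : (a : G) ∈ normalizer (R : Set G) := by
    rw [mem_normalizer_iff]
    intro y
    by_cases hy : y ∈ H2
    · simpa [mem_subgroupOf] using mem_normalizer_iff.mp haN ⟨y, hy⟩
    · refine iff_of_false (fun hh => hy (le_sup_left (a := R) hh)) fun hh => hy ?_
      have := mul_mem (mul_mem (inv_mem a.2) (le_sup_left (b := E) hh)) a.2
      simpa [mul_assoc] using this
  have heR : e ∈ normalizer (R : Set G) := by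
    have : e = r⁻¹ * a := by rw [← hre]; group
    rw [this]
    exact mul_mem (inv_mem (le_normalizer hr)) haNR
  have heU : e ∉ U := fun hh => haR (by
    rw [mem_subgroupOf, ← hre]; exact mul_mem hr (mem_sup_left hh))
  have heN : e ∈ N := (hEle.trans (map_subtype_le (T : Subgroup N))) he
  -- the group of the normalizer
  set M := normalizer (R : Set G) ⊓ N with hMdef
  let C0 : Subgroup M :=
    { carrier := {m | ∀ r ∈ R, (m : G) * r * (m : G)⁻¹ * r⁻¹ ∈ U}
      one_mem' := fun r _ => by simp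
      mul_mem' := fun {a b} ha hb r hr => by
        have hb' : (b : G) * r * (b : G)⁻¹ ∈ R := (mem_normalizer_iff.mp b.2.1 r).mp hr
        have e : ((a * b : M) : G) * r * ((a * b : M) : G)⁻¹ * r⁻¹ =
            ((a : G) * ((b : G) * r * (b : G)⁻¹) * (a : G)⁻¹ * ((b : G) * r * (b : G)⁻¹)⁻¹) *
              ((b : G) * r * (b : G)⁻¹ * r⁻¹) := by
          simp only [Subgroup.coe_mul]; group
        rw [e]
        exact mul_mem (ha _ hb') (hb r hr)
      inv_mem' := fun {a} ha r hr => by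
        have hr' : (a : G)⁻¹ * r * (a : G) ∈ R := by
          simpa using (mem_normalizer_iff.mp (inv_mem a.2.1) r).mp hr
        have h1 := inv_mem (ha _ hr')
        have h2 := (mem_normalizer_iff.mp (one_mem (normalizer (U : Set G))) _).mp h1
        simp only [InvMemClass.coe_inv, inv_inv]
        simpa [mul_assoc] using h2 }
  haveI hC0n : C0.Normal := ⟨fun c hc m r hr => by
    have hr' : (m : G)⁻¹ * r * (m : G) ∈ R := by
      simpa using (mem_normalizer_iff.mp (inv_mem m.2.1) r).mp hr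
    have h1 := (mem_normalizer_iff.mp m.2.2 _).mp (hc _ hr')
    simpa [mul_assoc] using h1⟩
  set B := R ⊔ zpowers e with hB
  have hBM : B ≤ M := sup_le (le_inf le_normalizer hRN) (zpowers_le.mpr ⟨heR, heN⟩)
  have hBp : IsPGroup p B := hHp.to_le (sup_le hRH (zpowers_le.mpr (hEle he)))
  obtain ⟨H0, hH0⟩ := (hBp.comap_subtype (K := M)).exists_le_sylow
  obtain ⟨PC, hPC⟩ := exists_sylow_inf H0 C0
  have htop := Sylow.normalizer_sup_eq_top PC
  rw [hPC, subgroupOf_map_subtype] at htop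
  set A := (H0 : Subgroup M) ⊓ C0 with hA
  have heC0 : (⟨e, heR, heN⟩ : M) ∈ C0 := by
    intro r hr
    show e * r * e⁻¹ * r⁻¹ ∈ U
    have hE' : e * r * e⁻¹ * r⁻¹ ∈ E := by
      rw [show e * r * e⁻¹ * r⁻¹ = e * (r * e⁻¹ * r⁻¹) by group]
      exact mul_mem he ((mem_normalizer_iff.mp (hRE hr) _).mp (inv_mem he))
    have hR' : e * r * e⁻¹ * r⁻¹ ∈ R :=
      mul_mem ((mem_normalizer_iff.mp heR r).mp hr) (inv_mem hr)
    rw [← hWU]
    exact (hWiff _ hR').mpr ((hEiff _ (hEle hE')).mp hE')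
  have heA : (⟨e, heR, heN⟩ : M) ∈ A := ⟨hH0 (mem_subgroupOf.mpr (mem_sup_right (mem_zpowers e))), heC0⟩
  obtain ⟨m, hm, c, hcC, hmc⟩ := mem_sup_of_normal_right.mp
    (htop ▸ mem_top (⟨x, hxR, x.2⟩ : M) : (⟨x, hxR, x.2⟩ : M) ∈ normalizer (A : Set M) ⊔ C0)
  set A' := A.map M.subtype with hA'
  have hA'N : A' ≤ N := (map_subtype_le A).trans inf_le_right
  have hnormA : ∀ y : M, y ∈ normalizer (A : Set M) → (y : G) ∈ normalizer (A' : Set G) := by
    intro y hy
    rw [mem_normalizer_iff]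
    intro z
    constructor
    · rintro ⟨b, hb, rfl⟩
      exact ⟨y * b * y⁻¹, (mem_normalizer_iff.mp hy b).mp hb, by simp⟩
    · rintro ⟨b, hb, eb⟩
      refine ⟨y⁻¹ * b * y, ?_, ?_⟩
      · exact (mem_normalizer_iff.mp hy _).mpr (by rwa [show y * (y⁻¹ * b * y) * y⁻¹ = b by group])
      · simp only [Subgroup.coe_subtype] at eb ⊢
        simp only [Subgroup.coe_mul, InvMemClass.coe_inv, eb]; group
  obtain ⟨W', hW'le, hW'iff, hW'g, hW'n⟩ := exists_trace S hD (U ⊔ A')
    (hUp.to_sup_of_normal_left' ((H0.2.to_le inf_le_left).map _) hA'N)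
  have hUW' : U ≤ W' := fun u hu => (hW'iff u (mem_sup_left hu)).mpr ⟨g, hg u hu⟩
  have hlt' : U < W' := lt_of_le_of_ne hUW' fun h' => heU (h' ▸
    (hW'iff e (mem_sup_right ⟨_, heA, rfl⟩)).mpr ((hEiff e (hEle he)).mp he))
  have hRA : R ≤ normalizer (W' : Set G) := by
    intro r hr
    refine hW'n (normalizer_inf_normalizer_le_normalizer_sup U A' ⟨hRN hr, ?_⟩)
    refine hnormA ⟨r, le_normalizer hr, hRN hr⟩ ?_
    have hrH : (⟨r, le_normalizer hr, hRN hr⟩ : M) ∈ (H0 : Subgroup M) :=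
      hH0 (mem_subgroupOf.mpr (mem_sup_left hr))
    refine mem_normalizer_iff.mpr fun z => ?_
    rw [hA, Subgroup.mem_inf, Subgroup.mem_inf]
    refine and_congr (mem_normalizer_iff.mp (le_normalizer hrH) z) ⟨fun hz => hC0n.conj_mem z hz _, fun hz => ?_⟩
    simpa [mul_assoc] using hC0n.conj_mem _ hz (⟨r, le_normalizer hr, hRN hr⟩ : M)⁻¹
  have hmW : (m : G) ∈ normalizer (W' : Set G) :=
    hW'n (normalizer_inf_normalizer_le_normalizer_sup U A' ⟨m.2.2, hnormA m hm⟩)
  obtain ⟨k, hk⟩ := exists_pow_centralizes (H := normalizer (W' : Set G) ⊓ M)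
    (HasNormalPComplement.of_injective (inclusion inf_le_left) (inclusion_injective _) (up W' hlt' hW'g))
    hRp (le_inf hRA (le_inf le_normalizer hRN)) (inf_le_right.trans inf_le_left)
    (mem_inf.mpr ⟨hmW, m.2⟩)
  have hmk : m ^ p ^ k ∈ C0 := by
    intro r hr
    rw [SubgroupClass.coe_pow, ← mem_centralizer_iff.mp hk r hr]
    simp
  have hmc' : (⟨x, hxR, x.2⟩ : M) = (m * c * m⁻¹) * m := by rw [← hmc]; group
  have h3 := mul_pow_mem_of_normalizes (C := C0) (hC0n.conj_mem c hcC m)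
    (by rw [normalizer_eq_top]; exact mem_top m) (p ^ k)
  rw [← hmc'] at h3
  have hxC0 : (⟨x, hxR, x.2⟩ : M) ∈ C0 := by
    refine mem_of_pow_prime_pow_mem (p := p) (k := k) (by rw [← Subgroup.orderOf_coe]; exact hxo') ?_
    have := mul_mem h3 hmk
    rwa [inv_mul_cancel_right] at this
  -- stabilizing the chain
  have hxU := mem_centralizer_iff.mp (stepA x x.2 hxo')
  rw [mem_centralizer_iff]
  intro r hr
  set u := (x : G) * r * (x : G)⁻¹ * r⁻¹ with hu
  have huU : u ∈ U := hxC0 r hr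
  have hpow : ∀ j : ℕ, (x : G) ^ j * r * ((x : G) ^ j)⁻¹ = u ^ j * r := by
    intro j
    induction j with
    | zero => simp
    | succ j ihj =>
      have hcom : Commute (x : G) (u ^ j) := Commute.pow_right (hxU u huU).symm j
      calc (x : G) ^ (j + 1) * r * ((x : G) ^ (j + 1))⁻¹
          = x * ((x : G) ^ j * r * ((x : G) ^ j)⁻¹) * (x : G)⁻¹ := by rw [pow_succ']; group
        _ = x * (u ^ j * r) * (x : G)⁻¹ := by rw [ihj]
        _ = (x * u ^ j) * r * (x : G)⁻¹ := by group
        _ = u ^ j * ((x : G) * r * (x : G)⁻¹) := by rw [hcom.eq]; group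
        _ = u ^ (j + 1) * r := by rw [pow_succ, hu]; group
  have h1 := hpow (orderOf (x : G))
  rw [pow_orderOf_eq_one, one_mul, inv_one, mul_one, eq_comm, mul_eq_right] at h1
  obtain ⟨i, hi⟩ := IsPGroup.iff_orderOf.mp hUp ⟨u, huU⟩
  rw [Subgroup.orderOf_mk] at hi
  have hu1 : u = 1 := orderOf_eq_one_iff.mp (Nat.Coprime.eq_one_of_dvd
    (hi ▸ (hxo'.pow_right i).symm) (orderOf_dvd_of_pow_eq_one h1))
  rw [hu, mul_inv_eq_one, mul_inv_eq_iff_eq_mul] at hu1
  exact hu1.symm

/-- Frobenius' criterion relative to a strongly closed subgroup. -/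
theorem relative_frobenius (S : Sylow p G) {D : Subgroup G}
    (hD : IsStronglyClosed D (S : Subgroup G))
    (h : ∀ U : Subgroup G, U ≤ D → D ⊓ centralizer (U : Set G) ≤ U →
      HasNormalPComplement p (normalizer (U : Set G))) : HasNormalPComplement p G := by
  have h1 := normalizer_complement S hD h ⊥ ⟨1, fun u hu => by
    rw [mem_bot] at hu; simp [hu]⟩
  haveI : (⊥ : Subgroup G).Normal := inferInstance
  let f : G →* normalizer ((⊥ : Subgroup G) : Set G) :=
    (MonoidHom.id G).codRestrict _ fun x => by rw [normalizer_eq_top]; exact mem_top x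
  exact HasNormalPComplement.of_injective f (fun a b hab => congrArg Subtype.val hab) h1

end Cfsg.Agent.Lib.Involution
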