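import Cfsg.Agent.Lib.Involution.StronglyEmbedded
import Mathlib.Data.Fintype.Card
import Mathlib.GroupTheory.GroupAction.Quotient

/-!
Counting involutions in the cosets of a strongly embedded subgroup.
-/

set_option autoImplicit false

open Cfsg Subgroup

namespace Cfsg.Agent.Lib.Involution

variable {G : Type*} [Group G] [Finite G] {H : Subgroup G}

/-- An involution inside and one outside have a product of odd order. -/
lemma se_odd_prod (hH : Cfsg.IsStronglyEmbedded H) {v u : G} (hv : orderOf v = 2) (hvH : v ∈ H)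
    (hu : orderOf u = 2) (huH : u ∉ H) : Odd (orderOf (v * u)) := by
  by_contra h
  obtain ⟨w, hw, -, hwv, hwu⟩ := exists_involution_commute hv hu h
  exact huH (se_centralizer hH hw (se_centralizer hH hv hvH hwv) hwu.symm)

/-- There is an involution outside. -/
lemma se_exists_outside (hH : Cfsg.IsStronglyEmbedded H) : ∃ u : G, orderOf u = 2 ∧ u ∉ H := by
  obtain ⟨⟨s, hsH⟩, hs⟩ := exists_involution_of_even hH.2.1
  rw [orderOf_mk] at hs
  obtain ⟨g, -, hg⟩ := SetLike.exists_of_lt (lt_top_iff_ne_top.mpr hH.1)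
  exact ⟨g * s * g⁻¹, (orderOf_conj g s).trans hs, fun h => hg (se_mem' hH hs hsH h)⟩

/-- A strongly embedded subgroup forces one class of involutions. -/
theorem se_all_conj (hH : Cfsg.IsStronglyEmbedded H) (a b : G) (ha : orderOf a = 2) (hb : orderOf b = 2) :
    IsConj a b := by
  obtain ⟨u, hu, huH⟩ := se_exists_outside hH
  obtain ⟨⟨s, hsH⟩, hs⟩ := exists_involution_of_even hH.2.1
  rw [orderOf_mk] at hs
  have hsu := se_conj_of_inside_outside hH hs hsH hu huH
  have key : ∀ c : G, orderOf c = 2 → IsConj c s := fun c hc => by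
    by_cases hcH : c ∈ H
    · exact (se_conj_of_inside_outside hH hc hcH hu huH).trans hsu.symm
    · exact (se_conj_of_inside_outside hH hs hsH hc hcH).symm
  exact (key a ha).trans (key b hb).symm

/-- An element of odd order of `H` inverted by an involution outside centralizes no involution of `H`. -/
lemma se_inv_cent (hH : Cfsg.IsStronglyEmbedded H) {u e v : G} (hu : orderOf u = 2) (huH : u ∉ H)
    (he : Odd (orderOf e)) (hinv : u * e * u⁻¹ = e⁻¹) (hv : orderOf v = 2) (hvH : v ∈ H)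
    (hev : e * v = v * e) : e = 1 := by
  obtain ⟨k, hk⟩ := conj_of_odd hv hu (se_odd_prod hH hv hvH hu huH)
  have hfix : v * e * v⁻¹ = e := by rw [← hev, mul_inv_cancel_right]
  have hstep : (v * u) * e * (v * u)⁻¹ = e⁻¹ := by
    rw [show (v * u) * e * (v * u)⁻¹ = v * (u * e * u⁻¹) * v⁻¹ by group, hinv, ← conj_inv, hfix]
  have hpow : ∀ j : ℕ, (v * u) ^ j * e * ((v * u) ^ j)⁻¹ = e ∨ (v * u) ^ j * e * ((v * u) ^ j)⁻¹ = e⁻¹ := by
    intro j
    induction j with
    | zero => simp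
    | succ j ih =>
      have h1 : (v * u) ^ (j + 1) * e * ((v * u) ^ (j + 1))⁻¹
          = v * u * ((v * u) ^ j * e * ((v * u) ^ j)⁻¹) * (v * u)⁻¹ := by
        rw [pow_succ', mul_inv_rev]; simp only [mul_assoc]
      rw [h1]
      rcases ih with h | h <;> rw [h]
      · exact Or.inr hstep
      · exact Or.inl (by rw [← conj_inv, hstep, inv_inv])
  set d := (v * u) ^ k with hd
  have h2 : u * (d * e * d⁻¹) * u⁻¹ = d * e * d⁻¹ := by
    rw [← hk, show d * v * d⁻¹ * (d * e * d⁻¹) * (d * v * d⁻¹)⁻¹ = d * (v * e * v⁻¹) * d⁻¹ by group, hfix]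
  refine eq_one_of_mul_self_of_odd he ?_
  rcases hpow k with h | h <;> rw [← hd] at h <;> rw [h] at h2
  · exact mul_eq_one_iff_eq_inv.mpr (h2.symm.trans hinv)
  · rw [← conj_inv, hinv, inv_inv] at h2
    exact mul_eq_one_iff_eq_inv.mpr h2

/-- The involutions in the coset of `u`. -/
abbrev SwapInv (H : Subgroup G) (u : G) : Type _ := {w : G // orderOf w = 2 ∧ u⁻¹ * w ∈ H}

omit [Finite G] in
lemma swap_elem {u w : G} (hu : orderOf u = 2) (hw : orderOf w = 2) (h : u⁻¹ * w ∈ H) :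
    u * w ∈ H ⊓ H.map (MulAut.conj u).toMonoidHom ∧ u * (u * w) * u⁻¹ = (u * w)⁻¹ := by
  rw [inv_self hu] at h
  have h2 : u * (u * w) * u⁻¹ = (u * w)⁻¹ := by
    rw [mul_inv_rev, inv_self hu, inv_self hw, mul_mul_self_left hu]
  refine ⟨mem_inf.mpr ⟨h, mem_map_conj.mpr ?_⟩, h2⟩
  rw [show u⁻¹ * (u * w) * u = u * (u * w) * u⁻¹ by rw [inv_self hu], h2]
  exact inv_mem h

/-- The coset of `u` meets the involutions at most as often as `H`. -/
lemma swap_map_inj (hH : Cfsg.IsStronglyEmbedded H) {u z : G} (hu : orderOf u = 2) (huH : u ∉ H)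
    (hz : orderOf z = 2) (hzH : z ∈ H) {w w' : G} (hw : orderOf w = 2) (hwH : u⁻¹ * w ∈ H)
    (hw' : orderOf w' = 2) (hwH' : u⁻¹ * w' ∈ H)
    (heq : u * w * z * (u * w)⁻¹ = u * w' * z * (u * w')⁻¹) : w = w' := by
  obtain ⟨ha, hai⟩ := swap_elem hu hw hwH
  obtain ⟨hb, hbi⟩ := swap_elem hu hw' hwH'
  set a := u * w with haa
  set b := u * w' with hbb
  suffices a = b from mul_left_cancel this
  set D := H ⊓ H.map (MulAut.conj u).toMonoidHom with hD
  have hodd : ∀ x ∈ D, Odd (orderOf x) := fun x hx =>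
    (hH.2.2 u huH).of_dvd_nat (Subgroup.orderOf_dvd_natCard D hx)
  obtain ⟨k, hk⟩ := exists_sqrt_of_odd (hodd a ha)
  set s := a ^ k with hs
  have hsD : s ∈ D := pow_mem ha k
  have hsi : u * s * u⁻¹ = s⁻¹ := by rw [hs, ← conj_pow, hai, inv_pow]
  rw [pow_two] at hk
  have heD : s⁻¹ * b * s⁻¹ ∈ D := mul_mem (mul_mem (inv_mem hsD) hb) (inv_mem hsD)
  have hei : u * (s⁻¹ * b * s⁻¹) * u⁻¹ = (s⁻¹ * b * s⁻¹)⁻¹ := by
    rw [show u * (s⁻¹ * b * s⁻¹) * u⁻¹ = (u * s * u⁻¹)⁻¹ * (u * b * u⁻¹) * (u * s * u⁻¹)⁻¹ by group, hsi, hbi]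
    group
  have hsH : s ∈ H := (mem_inf.mp hsD).1
  have hv : orderOf (s * z * s⁻¹) = 2 := (orderOf_conj s z).trans hz
  have hc : s⁻¹ * b * s⁻¹ * (s * z * s⁻¹) = s * z * s⁻¹ * (s⁻¹ * b * s⁻¹) := by
    calc s⁻¹ * b * s⁻¹ * (s * z * s⁻¹) = s⁻¹ * (b * z * b⁻¹) * b * s⁻¹ := by group
      _ = s⁻¹ * (s * s * z * (s * s)⁻¹) * b * s⁻¹ := by rw [← heq, hk]
      _ = s * z * s⁻¹ * (s⁻¹ * b * s⁻¹) := by group
  have h1 := se_inv_cent hH hu huH (hodd _ heD) hei hv (mul_mem (mul_mem hsH hzH) (inv_mem hsH)) hc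
  rw [← hk]
  calc s * s = s * (s⁻¹ * b * s⁻¹) * s := by rw [h1, mul_one]
    _ = b := by group

lemma swap_le (hH : Cfsg.IsStronglyEmbedded H) (g : G) (hg : g ∉ H) :
    Nat.card (SwapInv H g) ≤ Nat.card {t : G // orderOf t = 2 ∧ t ∈ H} := by
  rcases isEmpty_or_nonempty (SwapInv H g) with h | ⟨⟨u, hu, hgu⟩⟩
  · simp [Nat.card_of_isEmpty]
  have huH : u ∉ H := fun h => hg ((inv_mem_iff (H := H)).mp ((Subgroup.mul_mem_cancel_right H h).mp hgu))
  obtain ⟨⟨z, hzH⟩, hz⟩ := exists_involution_of_even hH.2.1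
  rw [orderOf_mk] at hz
  have hmem : ∀ w : SwapInv H g, u⁻¹ * (w : G) ∈ H := fun w => by
    rw [show u⁻¹ * (w : G) = (g⁻¹ * u)⁻¹ * (g⁻¹ * w) by group]
    exact mul_mem (inv_mem hgu) w.2.2
  refine Nat.card_le_card_of_injective (fun w => ⟨u * w * z * (u * w)⁻¹, (orderOf_conj _ z).trans hz, ?_⟩) ?_
  · have := (mem_inf.mp (swap_elem hu w.2.1 (hmem w)).1).1
    exact mul_mem (mul_mem this hzH) (inv_mem this)
  · intro w w' h
    exact Subtype.ext (swap_map_inj hH hu huH hz hzH w.2.1 (hmem w) w'.2.1 (hmem w') (congrArg Subtype.val h))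

/-- All involutions, sorted by their fixed coset. -/
lemma card_involutions (hH : Cfsg.IsStronglyEmbedded H) :
    Nat.card {w : G // orderOf w = 2} = Nat.card (G ⧸ H) * Nat.card {t : G // orderOf t = 2 ∧ t ∈ H} := by
  rw [← Nat.card_prod]
  symm
  refine Nat.card_eq_of_bijective (fun p => ⟨p.1.out * p.2.1 * p.1.out⁻¹, (orderOf_conj _ _).trans p.2.2.1⟩) ⟨?_, ?_⟩
  · rintro ⟨q, t, ht, htH⟩ ⟨q', t', ht', htH'⟩ h
    have h' : q.out * t * q.out⁻¹ = q'.out * t' * q'.out⁻¹ := congrArg Subtype.val h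
    have hq : q = q' := by
      rw [← q.out_eq', ← q'.out_eq', QuotientGroup.eq]
      refine se_mem hH ht htH ?_
      convert htH' using 1
      calc (q.out⁻¹ * q'.out)⁻¹ * t * (q.out⁻¹ * q'.out) = q'.out⁻¹ * (q.out * t * q.out⁻¹) * q'.out := by group
        _ = t' := by rw [h']; group
    subst hq
    exact Prod.ext rfl (Subtype.ext (mul_left_cancel (mul_right_cancel h')))
  · rintro ⟨w, hw⟩
    obtain ⟨⟨z, hzH⟩, hz⟩ := exists_involution_of_even hH.2.1
    rw [orderOf_mk] at hz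
    obtain ⟨g, rfl⟩ := isConj_iff.mp (se_all_conj hH z w hz hw)
    obtain ⟨h, hh⟩ := QuotientGroup.mk_out_eq_mul H g
    refine ⟨(QuotientGroup.mk g, ⟨(h : G)⁻¹ * z * h, ?_, mul_mem (mul_mem (inv_mem h.2) hzH) h.2⟩), ?_⟩
    · rw [show (h : G)⁻¹ * z * h = (h : G)⁻¹ * z * ((h : G)⁻¹)⁻¹ by group, orderOf_conj, hz]
    · apply Subtype.ext
      show (QuotientGroup.mk g : G ⧸ H).out * _ * (QuotientGroup.mk g : G ⧸ H).out⁻¹ = _
      rw [hh]
      group

/-- Each other coset contains exactly as many involutions as `H`. -/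
theorem swap_eq (hH : Cfsg.IsStronglyEmbedded H) (g : G) (hg : g ∉ H) :
    Nat.card (SwapInv H g) = Nat.card {t : G // orderOf t = 2 ∧ t ∈ H} := by
  classical
  haveI := Fintype.ofFinite (G ⧸ H)
  set i := Nat.card {t : G // orderOf t = 2 ∧ t ∈ H} with hi
  let f : G ⧸ H → ℕ := fun q => Nat.card {w : {w : G // orderOf w = 2} // (QuotientGroup.mk w.1 : G ⧸ H) = q}
  have hf : ∀ q : G ⧸ H, f q = Nat.card (SwapInv H q.out) := by
    intro q
    refine Nat.card_congr ((Equiv.subtypeSubtypeEquivSubtypeInter (fun w : G => orderOf w = 2)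
      (fun w => (QuotientGroup.mk w : G ⧸ H) = q)).trans (Equiv.subtypeEquivRight fun w => ?_))
    refine and_congr_right fun _ => ?_
    conv_lhs => rhs; rw [← q.out_eq']
    rw [eq_comm, QuotientGroup.eq]
  have hf1 : f (QuotientGroup.mk 1) = i := by
    refine Nat.card_congr ((Equiv.subtypeSubtypeEquivSubtypeInter (fun w : G => orderOf w = 2)
      (fun w => (QuotientGroup.mk w : G ⧸ H) = QuotientGroup.mk 1)).trans (Equiv.subtypeEquivRight fun w => ?_))
    refine and_congr_right fun _ => ?_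
    rw [eq_comm, QuotientGroup.eq, inv_one, one_mul]
  have hle : ∀ q : G ⧸ H, f q ≤ i := by
    intro q
    by_cases hq : q = QuotientGroup.mk 1
    · rw [hq, hf1]
    · rw [hf]
      refine swap_le hH _ fun h => hq ?_
      rw [← q.out_eq', QuotientGroup.eq, mul_one]
      exact inv_mem h
  have hsum : ∑ q, f q = Fintype.card (G ⧸ H) * i := by
    rw [← Nat.card_eq_fintype_card, ← card_involutions hH,
      ← Nat.card_congr (Equiv.sigmaFiberEquiv fun w : {w : G // orderOf w = 2} => (QuotientGroup.mk w.1 : G ⧸ H)),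
      Nat.card_sigma]
  have hall : ∀ q ∈ (Finset.univ : Finset (G ⧸ H)), f q = i := by
    refine (Finset.sum_eq_sum_iff_of_le fun q _ => hle q).mp ?_
    rw [hsum, Finset.sum_const, Finset.card_univ, smul_eq_mul]
  rw [← hall (QuotientGroup.mk g) (Finset.mem_univ _)]
  refine Nat.card_congr (Equiv.symm ((Equiv.subtypeSubtypeEquivSubtypeInter (fun w : G => orderOf w = 2)
    (fun w => (QuotientGroup.mk w : G ⧸ H) = QuotientGroup.mk g)).trans (Equiv.subtypeEquivRight fun w => ?_)))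
  refine and_congr_right fun _ => ?_
  rw [eq_comm, QuotientGroup.eq]

/-- `H ∩ uHu⁻¹` is transitive on the involutions of `H`. -/
theorem se_conj_by_inf (hH : Cfsg.IsStronglyEmbedded H) {u s t : G} (hu : orderOf u = 2) (huH : u ∉ H)
    (hs : orderOf s = 2) (hsH : s ∈ H) (ht : orderOf t = 2) (htH : t ∈ H) :
    ∃ d ∈ H ⊓ H.map (MulAut.conj u).toMonoidHom, d * s * d⁻¹ = t := by
  let φ : SwapInv H u → {t : G // orderOf t = 2 ∧ t ∈ H} := fun w =>
    ⟨u * w * s * (u * w)⁻¹, (orderOf_conj _ s).trans hs, by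
      have := (mem_inf.mp (swap_elem hu w.2.1 w.2.2).1).1
      exact mul_mem (mul_mem this hsH) (inv_mem this)⟩
  have hinj : Function.Injective φ := fun w w' h =>
    Subtype.ext (swap_map_inj hH hu huH hs hsH w.2.1 w.2.2 w'.2.1 w'.2.2 (congrArg Subtype.val h))
  obtain ⟨w, hw⟩ := (hinj.bijective_of_nat_card_le (swap_eq hH u huH).ge).2 ⟨t, ht, htH⟩
  exact ⟨u * w, (swap_elem hu w.2.1 w.2.2).1, congrArg Subtype.val hw⟩

end Cfsg.Agent.Lib.Involution
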