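import Cfsg.Agent.Lib.Involution.WeightZero
import Cfsg.Agent.Lib.Involution.StronglyThree

/-!
# The even part of `Sym 3 × Sym 3 × Sym 3` as a strongly three-embedded subgroup
-/

set_option autoImplicit false

open Subgroup

namespace Cfsg.Agent.Lib.Involution.SignThree

abbrev P : Type := Equiv.Perm (Fin 3) × Equiv.Perm (Fin 3) × Equiv.Perm (Fin 3)

/-- The three projections. -/
def blk : Fin 3 → (P →* Equiv.Perm (Fin 3)) :=
  ![MonoidHom.fst _ _, (MonoidHom.fst _ _).comp (MonoidHom.snd _ _),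
    (MonoidHom.snd _ _).comp (MonoidHom.snd _ _)]

/-- The product of the three signs. -/
def sgn : P →* ℤˣ :=
  Equiv.Perm.sign.comp (blk 0) * Equiv.Perm.sign.comp (blk 1) * Equiv.Perm.sign.comp (blk 2)

abbrev Ev : Subgroup P := sgn.ker

theorem mem_Ev (x : P) : x ∈ Ev ↔
    Equiv.Perm.sign (blk 0 x) * Equiv.Perm.sign (blk 1 x) * Equiv.Perm.sign (blk 2 x) = 1 :=
  MonoidHom.mem_ker

/-- Three-cycle in block `j`. -/
def cyc (j : Fin 3) : P :=
  (if j = 0 then Equiv.swap 0 1 * Equiv.swap 1 2 else 1,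
   if j = 1 then Equiv.swap 0 1 * Equiv.swap 1 2 else 1,
   if j = 2 then Equiv.swap 0 1 * Equiv.swap 1 2 else 1)

/-- Transpositions outside block `i`. -/
def inv2 (i : Fin 3) : P :=
  (if i = 0 then 1 else Equiv.swap 0 1, if i = 1 then 1 else Equiv.swap 0 1,
   if i = 2 then 1 else Equiv.swap 0 1)

theorem cyc_mem : ∀ j, cyc j ∈ Ev := by
  simp only [mem_Ev]; decide

theorem inv2_mem : ∀ i, inv2 i ∈ Ev := by
  simp only [mem_Ev]; decide

theorem sign_of_pow : ∀ q : Equiv.Perm (Fin 3), q ^ 3 = 1 → Equiv.Perm.sign q = 1 := by decide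

theorem pow_of_sign : ∀ q : Equiv.Perm (Fin 3), Equiv.Perm.sign q = 1 → q ^ 3 = 1 := by decide

theorem sign_sq (q : Equiv.Perm (Fin 3)) : Equiv.Perm.sign (q ^ 2) = 1 := by
  rw [map_pow, Int.units_sq]

theorem cycle_of_sign : ∀ q : Equiv.Perm (Fin 3), Equiv.Perm.sign q = 1 →
    q = 1 ∨ q = Equiv.swap 0 1 * Equiv.swap 1 2 ∨ q = (Equiv.swap 0 1 * Equiv.swap 1 2) ^ 2 := by
  decide

theorem comm_even : ∀ a b : Equiv.Perm (Fin 3), Equiv.Perm.sign a = 1 → Equiv.Perm.sign b = 1 →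
    a * b = b * a := by decide

theorem fix_of_comm : ∀ a b : Equiv.Perm (Fin 3), Equiv.Perm.sign a = 1 →
    Equiv.Perm.sign b = -1 → a * b = b * a → a = 1 := by decide

theorem involution_type : ∀ a b c : Equiv.Perm (Fin 3),
    Equiv.Perm.sign a * Equiv.Perm.sign b * Equiv.Perm.sign c = 1 →
    (a, b, c) ^ 2 = (1 : P) → (a, b, c) ≠ (1 : P) →
    ∃ j : Fin 3, blk j (a, b, c) = 1 ∧
      ∀ i : Fin 3, i ≠ j → Equiv.Perm.sign (blk i (a, b, c)) = -1 := by decide

theorem cyc_blk : ∀ i j : Fin 3, blk j (cyc i) = 1 ↔ i ≠ j := by decide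

theorem cyc_sign : ∀ i j : Fin 3, Equiv.Perm.sign (blk j (cyc i)) = 1 := by decide

theorem cyc_comm_inv2 : ∀ i : Fin 3, cyc i * inv2 i = inv2 i * cyc i := by decide

theorem inv2_sq : ∀ i : Fin 3, inv2 i ^ 2 = 1 ∧ inv2 i ≠ 1 ∧ blk i (inv2 i) = 1 := by decide

theorem commutator_ne : ∀ i j : Fin 3, i ≠ j → inv2 i * cyc j * (inv2 i)⁻¹ * (cyc j)⁻¹ ≠ 1 ∧
    ∀ k : Fin 3, Equiv.Perm.sign (blk k (inv2 i * cyc j * (inv2 i)⁻¹ * (cyc j)⁻¹)) = 1 := by
  decide

theorem blk_surj (i : Fin 3) (q : Equiv.Perm (Fin 3)) : ∃ x ∈ Ev, blk i x = q := by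
  have : ∀ i : Fin 3, ∀ q : Equiv.Perm (Fin 3), ∃ r : Equiv.Perm (Fin 3),
      Equiv.Perm.sign q * Equiv.Perm.sign r = 1 := by decide
  obtain ⟨r, hr⟩ := this i q
  fin_cases i
  · exact ⟨(q, r, 1), (mem_Ev _).mpr (by simpa [blk] using hr), rfl⟩
  · exact ⟨(r, q, 1), (mem_Ev _).mpr (by simpa [blk, mul_comm] using hr), rfl⟩
  · exact ⟨(r, 1, q), (mem_Ev _).mpr (by simpa [blk, mul_comm] using hr), rfl⟩

theorem ext_blk {x y : P} (h : ∀ i, blk i x = blk i y) : x = y :=
  Prod.ext (h 0) (Prod.ext (h 1) (h 2))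

universe u

variable {G : Type u} [Group G] [Finite G]

/-- The main theorem. -/
theorem main (f : Ev →* G) (hf : Function.Injective f) (T : Subgroup G)
    (hT : ∀ x : G, x ∈ T ↔ ∃ m : Ev, (∀ i, Equiv.Perm.sign (blk i (m : P)) = 1) ∧ f m = x)
    (hN : normalizer (T : Set G) = f.range)
    (hC : ∀ t ∈ T, t ≠ 1 → centralizer ({t} : Set G) ≤ f.range) : f.range = ⊤ := by
  classical
  haveI : Fact (Nat.Prime 3) := ⟨Nat.prime_three⟩
  have hA3 : ∀ m : Ev, (∀ i, Equiv.Perm.sign (blk i (m : P)) = 1) → m ^ 3 = 1 := fun m hm =>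
    Subtype.ext (ext_blk fun i => by
      rw [Subgroup.coe_pow, map_pow, pow_of_sign _ (hm i)]; simp)
  have hpow : ∀ (m : Ev) (k : ℕ), m ^ 3 ^ k = 1 → ∀ i, Equiv.Perm.sign (blk i (m : P)) = 1 := by
    intro m k hk i
    have h1 : (Equiv.Perm.sign (blk i (m : P))) ^ 3 ^ k = 1 := by
      rw [← map_pow, ← map_pow, ← Subgroup.coe_pow, hk]; simp
    have hodd : Odd (3 ^ k) := (show Odd 3 by decide).pow
    rcases Int.units_eq_one_or (Equiv.Perm.sign (blk i (m : P))) with h | h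
    · exact h
    · rw [h, hodd.neg_one_pow] at h1; exact absurd h1 (by decide)
  have D : PLocalTI 3 f.range T := by
    refine ⟨fun x hx => ?_, fun x => ?_, ⟨⟨fun a b => ?_⟩⟩, ?_, hC, hN⟩
    · obtain ⟨m, -, rfl⟩ := (hT x).mp hx; exact ⟨m, rfl⟩
    · obtain ⟨m, hm, he⟩ := (hT x).mp x.2
      exact ⟨1, Subtype.ext (by simp [← he, ← map_pow, hA3 m hm])⟩
    · obtain ⟨m, hm, he⟩ := (hT a).mp a.2
      obtain ⟨n, hn, he'⟩ := (hT b).mp b.2
      refine Subtype.ext ?_
      rw [Subgroup.coe_mul, Subgroup.coe_mul, ← he, ← he', ← map_mul, ← map_mul]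
      exact congrArg f (Subtype.ext (ext_blk fun i => by
        simp only [Subgroup.coe_mul, map_mul]; exact comm_even _ _ (hm i) (hn i)))
    · rintro _ ⟨m, rfl⟩ ⟨k, hk⟩
      exact (hT _).mpr ⟨m, hpow m k (hf (by rw [map_pow, hk, map_one])), rfl⟩
  let u : Fin 3 → G := fun i => f ⟨inv2 i, inv2_mem i⟩
  have hu2 : ∀ i, u i ^ 2 = 1 := fun i => by
    simp only [u, ← map_pow]
    rw [show (⟨inv2 i, inv2_mem i⟩ : Ev) ^ 2 = 1 from Subtype.ext (inv2_sq i).1, map_one]
  -- conjugates of `u i` in the subgroup are trivial in block `i`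
  have htype : ∀ (i : Fin 3) (m : Ev), IsConj (f m) (u i) → blk i (m : P) = 1 := by
    intro i m hm
    obtain ⟨g, hg⟩ := isConj_iff.mp hm.symm
    have hm2 : m ^ 2 = 1 := hf (by rw [map_pow, ← hg, conj_pow, hu2, map_one]; group)
    have hm1 : m ≠ 1 := by
      intro e
      rw [e, map_one] at hg
      have : u i = 1 := by simpa using hg
      exact (inv2_sq i).2.1 (congrArg Subtype.val (hf (this.trans (map_one f).symm)))
    obtain ⟨j, hj, hjs⟩ := involution_type (m : P).1 (m : P).2.1 (m : P).2.2 ((mem_Ev _).mp m.2)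
      (congrArg Subtype.val hm2) (fun e => hm1 (Subtype.ext e))
    replace hj : blk j (m : P) = 1 := hj
    replace hjs : ∀ k, k ≠ j → Equiv.Perm.sign (blk k (m : P)) = -1 := hjs
    set C := centralizer ({f m} : Set G)
    set s : G := f ⟨cyc j, cyc_mem j⟩ with hs
    set t : G := f ⟨cyc i, cyc_mem i⟩ with ht
    have hs3 : s ^ 3 = 1 := by
      rw [hs, ← map_pow, hA3 _ (cyc_sign j), map_one]
    have ht3 : t ^ 3 = 1 := by
      rw [ht, ← map_pow, hA3 _ (cyc_sign i), map_one]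
    have hsC : s ∈ C := by
      rw [mem_centralizer_singleton_iff, hs, ← map_mul, ← map_mul]
      refine congrArg f (Subtype.ext (ext_blk fun k => ?_))
      simp only [Subgroup.coe_mul, map_mul]
      by_cases hk : k = j
      · subst hk; rw [hj, mul_one, one_mul]
      · rw [(cyc_blk j k).mpr (Ne.symm hk), mul_one, one_mul]
    have htC : g * t * g⁻¹ ∈ C := by
      rw [mem_centralizer_singleton_iff, ← hg]
      have : t * u i = u i * t := by
        simp only [ht, u, ← map_mul]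
        exact congrArg f (Subtype.ext (cyc_comm_inv2 i))
      calc g * t * g⁻¹ * (g * u i * g⁻¹) = g * (t * u i) * g⁻¹ := by group
        _ = g * (u i * t) * g⁻¹ := by rw [this]
        _ = g * u i * g⁻¹ * (g * t * g⁻¹) := by group
    have hp3 : ∀ x : C, x ^ 3 = 1 → IsPGroup 3 (zpowers x) := fun x hx y => ⟨1, by
      obtain ⟨y, k, rfl⟩ := y
      refine Subtype.ext ?_
      show (x ^ k) ^ 3 ^ 1 = 1
      rw [pow_one, ← zpow_natCast, ← zpow_mul, mul_comm, zpow_mul, zpow_natCast, hx, one_zpow]⟩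
    obtain ⟨Q, hQ⟩ := (hp3 ⟨s, hsC⟩ (Subtype.ext hs3)).exists_le_sylow
    obtain ⟨Q', hQ'⟩ := (hp3 ⟨g * t * g⁻¹, htC⟩ (Subtype.ext (show (g * t * g⁻¹) ^ 3 = 1 by
      rw [conj_pow, ht3]; group))).exists_le_sylow
    have hsne : s ≠ 1 := fun e => by
      have : cyc j = 1 := congrArg Subtype.val (hf (e.trans (map_one f).symm))
      have h2 := (cyc_blk j j).mp (by rw [this]; simp)
      exact h2 rfl
    have hsT : s ∈ T := (hT s).mpr ⟨_, cyc_sign j, rfl⟩
    have hQT : (Q : Subgroup C).map C.subtype ≤ T :=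
      D.pgroup_le (Q.isPGroup'.map C.subtype) hsT hsne ⟨⟨s, hsC⟩, hQ (mem_zpowers _), rfl⟩
    obtain ⟨c, hc⟩ := MulAction.exists_smul_eq C Q' Q
    have hcQ : (c * ⟨g * t * g⁻¹, htC⟩ * c⁻¹ : C) ∈ (Q : Subgroup C) := by
      rw [← hc, Sylow.coe_subgroup_smul]
      exact Subgroup.smul_mem_pointwise_smul _ (MulAut.conj c) _ (hQ' (mem_zpowers _))
    have hT' : (c : G) * g * t * ((c : G) * g)⁻¹ ∈ T := by
      convert hQT ⟨_, hcQ, rfl⟩ using 1
      simp [mul_assoc]
    obtain ⟨a, ha, hae⟩ := (hT _).mp hT'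
    have hcm : a * m = m * a := by
      refine hf ?_
      rw [map_mul, map_mul, hae]
      have := mem_centralizer_singleton_iff.mp (c * ⟨g * t * g⁻¹, htC⟩ * c⁻¹ : C).2
      convert this using 2 <;> simp [mul_assoc]
    have htT : t ∈ T := (hT t).mpr ⟨_, cyc_sign i, rfl⟩
    have htne : t ≠ 1 := fun e => by
      have : cyc i = 1 := congrArg Subtype.val (hf (e.trans (map_one f).symm))
      exact (cyc_blk i i).mp (by rw [this]; simp) rfl
    obtain ⟨n, hn⟩ := D.control htT htne (D.le hT')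
    have hna : n * ⟨cyc i, cyc_mem i⟩ * n⁻¹ = a := by
      refine hf ?_
      rw [map_mul, map_mul, map_inv, hn, hae, ht]
    by_contra hne
    have hij : i ≠ j := fun e => hne (e ▸ hj)
    have h0 : blk i (a : P) = 1 := by
      refine fix_of_comm _ _ (ha i) (hjs i hij) ?_
      simpa using congrArg (fun x : Ev => blk i (x : P)) hcm
    rw [← hna] at h0
    simp only [Subgroup.coe_mul, Subgroup.coe_inv, map_mul, map_inv, mul_inv_eq_one] at h0
    exact (cyc_blk i i).mp (by simpa using h0) rfl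
  let e : Ev ≃* f.range := MonoidHom.ofInjective hf
  let π : Fin 3 → (f.range →* Equiv.Perm (Fin 3)) := fun i =>
    (blk i).comp (Ev.subtype.comp e.symm.toMonoidHom)
  have hπ : ∀ (i : Fin 3) (m : Ev), π i ⟨f m, ⟨m, rfl⟩⟩ = blk i (m : P) := fun i m => by
    show blk i ((e.symm ⟨f m, ⟨m, rfl⟩⟩ : Ev) : P) = _
    rw [show (⟨f m, ⟨m, rfl⟩⟩ : f.range) = e m from rfl, e.symm_apply_apply]
  cases nonempty_fintype G
  have hlift : ∀ i j : Fin 3, i ≠ j → ∃ l : G →* ℂˣ, ∀ m : Ev, l (f m) = 1 ↔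
      Equiv.Perm.sign (blk i (m : P)) = 1 := by
    intro i j hij
    have hsurj : Function.Surjective (π i) := fun q => by
      obtain ⟨x, hx, rfl⟩ := blk_surj i q
      exact ⟨_, hπ i ⟨x, hx⟩⟩
    have hkey : ∀ x : f.range, orderOf (π i x) = 3 → ((x : G) ^ 2 ∈ T ∧ (x : G) ^ 2 ≠ 1) := by
      rintro ⟨_, m, rfl⟩ hx
      rw [hπ] at hx
      refine ⟨(hT _).mpr ⟨m ^ 2, fun k => ?_, map_pow f m 2⟩, fun h => ?_⟩
      · rw [Subgroup.coe_pow, map_pow]; exact sign_sq _
      · rw [← map_pow] at h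
        have := congrArg (fun x : Ev => blk i (x : P)) (hf (h.trans (map_one f).symm))
        simp only [Subgroup.coe_pow, map_pow, OneMemClass.coe_one, map_one] at this
        have h3 := orderOf_dvd_of_pow_eq_one this
        rw [hx] at h3; norm_num at h3
    have hsq : ∀ x : G, IsConj x (u i) → x * x = 1 := fun x hx => by
      obtain ⟨g, hg⟩ := isConj_iff.mp hx.symm
      rw [← pow_two, ← hg, conj_pow, hu2]; group
    obtain ⟨l, -, hl⟩ := exists_sign_lift (π i) hsurj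
      (fun x hx g hg => D.control (hkey x hx).1 (hkey x hx).2 (by
        rw [← conj_pow]; exact pow_mem hg 2))
      (u i) (fun x hx hc => (hkey x hx).2 (by rw [pow_two]; exact hsq _ hc))
      (fun x y h hx hy hord => by
        have k := hkey ⟨x * y, h⟩ hord
        have hxH : x ∈ f.range := by
          refine D.control k.1 k.2 (D.le ?_)
          have hxi : x⁻¹ = x := inv_eq_of_mul_eq_one_right (hsq x hx)
          have hyi : y⁻¹ = y := inv_eq_of_mul_eq_one_right (hsq y hy)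
          have e1 : x * (x * y) * x⁻¹ = (x * y)⁻¹ := by
            rw [← mul_assoc, hsq x hx, one_mul, mul_inv_rev, hxi, hyi]
          rw [← conj_pow, e1, inv_pow]
          exact inv_mem k.1
        have hyH : y ∈ f.range := by simpa using mul_mem (inv_mem hxH) h
        obtain ⟨a, rfl⟩ := hxH
        obtain ⟨b, rfl⟩ := hyH
        rw [show (⟨f a * f b, h⟩ : f.range) = ⟨f (a * b), ⟨_, rfl⟩⟩ from Subtype.ext (map_mul f a b).symm,
          hπ, Subgroup.coe_mul, map_mul, htype i a hx, htype i b hy, one_mul, orderOf_one] at hord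
        exact absurd hord (by norm_num))
      (fun K hK hKu => by
        obtain ⟨hne, hsg⟩ := commutator_ne i j hij
        let w : Ev := ⟨inv2 i, inv2_mem i⟩ * ⟨cyc j, cyc_mem j⟩ * ⟨inv2 i, inv2_mem i⟩⁻¹ *
          ⟨cyc j, cyc_mem j⟩⁻¹
        have hwK : f w ∈ K := by
          simp only [w, map_mul, map_inv]
          rw [mul_assoc, mul_assoc, ← mul_assoc (f ⟨cyc j, cyc_mem j⟩)]
          exact mul_mem hKu (hK.conj_mem _ (inv_mem hKu) _)
        exact D.sup_eq_top ((hT _).mpr ⟨w, hsg, rfl⟩)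
          (fun h => hne (congrArg Subtype.val (hf (h.trans (map_one f).symm)))) hwK)
    refine ⟨l, fun m => ?_⟩
    rw [show l (f m) = _ from hl ⟨f m, ⟨m, rfl⟩⟩, hπ]
    rcases Int.units_eq_one_or (Equiv.Perm.sign (blk i (m : P))) with h | h <;> rw [h]
    · simp
    · simp only [show (-1 : ℤˣ) ≠ 1 by decide, iff_false]
      intro h'
      have := congrArg Units.val h'
      norm_num at this
  obtain ⟨l₀, hl₀⟩ := hlift 0 1 (by decide)
  obtain ⟨l₁, hl₁⟩ := hlift 1 0 (by decide)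
  refine D.eq_top_of_kernel (K := l₀.ker ⊓ l₁.ker) (fun hcyc => ?_) ?_
  · obtain ⟨z, hz⟩ := hcyc.exists_generator
    have hsub : ∀ x : T, x = 1 ∨ x = z ∨ x = z ^ 2 := by
      intro x
      obtain ⟨m, hm, he⟩ := (hT z).mp z.2
      have hz3 : z ^ 3 = 1 := Subtype.ext (by simp [← he, ← map_pow, hA3 m hm])
      obtain ⟨k, rfl⟩ := (mem_zpowers_iff.mp (hz x))
      rw [zpow_eq_zpow_emod' k hz3]
      have h1 := Int.emod_nonneg k (show ((3 : ℕ) : ℤ) ≠ 0 by norm_num)
      have h2 := Int.emod_lt_of_pos k (show (0 : ℤ) < ((3 : ℕ) : ℤ) by norm_num)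
      rcases (show k % ((3 : ℕ) : ℤ) = 0 ∨ k % ((3 : ℕ) : ℤ) = 1 ∨ k % ((3 : ℕ) : ℤ) = 2 by omega)
        with h | h | h <;> rw [h] <;> simp [zpow_ofNat]
    let c : Fin 3 → T := fun k => ⟨f ⟨cyc k, cyc_mem k⟩, (hT _).mpr ⟨_, cyc_sign k, rfl⟩⟩
    have hne : ∀ k, c k ≠ 1 := fun k h => by
      have : cyc k = 1 := congrArg Subtype.val (hf ((congrArg Subtype.val h).trans (map_one f).symm))
      exact (cyc_blk k k).mp (by rw [this]; simp) rfl
    have hinj : Function.Injective c := fun a b h => by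
      by_contra hab
      have : cyc a = cyc b := congrArg Subtype.val (hf (congrArg Subtype.val h))
      exact (cyc_blk a a).mp (by rw [this]; exact (cyc_blk b a).mpr (Ne.symm hab)) rfl
    rcases hsub (c 0) with h0 | h0 | h0 <;> rcases hsub (c 1) with h1 | h1 | h1 <;>
      rcases hsub (c 2) with h2 | h2 | h2 <;>
      first
        | exact hne 0 h0
        | exact hne 1 h1
        | exact hne 2 h2
        | exact absurd (hinj (h0.trans h1.symm)) (by decide)
        | exact absurd (hinj (h0.trans h2.symm)) (by decide)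
        | exact absurd (hinj (h1.trans h2.symm)) (by decide)
  · ext x
    simp only [mem_inf, MonoidHom.mem_ker]
    constructor
    · rintro ⟨⟨h0, h1⟩, m, rfl⟩
      refine (hT _).mpr ⟨m, fun i => ?_, rfl⟩
      have e0 := (hl₀ m).mp h0
      have e1 := (hl₁ m).mp h1
      have e2 := (mem_Ev _).mp m.2
      rw [e0, e1, one_mul, one_mul] at e2
      fin_cases i <;> assumption
    · intro hx
      obtain ⟨m, hm, rfl⟩ := (hT x).mp hx
      exact ⟨⟨(hl₀ m).mpr (hm 0), (hl₁ m).mpr (hm 1)⟩, m, rfl⟩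

end Cfsg.Agent.Lib.Involution.SignThree
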