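import Cfsg.Agent.Lib.Involution.SignThree

/-!
# The block embedding of `Sym 3 × Sym 3 × Sym 3` in `Sym 9`
-/

set_option autoImplicit false

open Subgroup

namespace Cfsg.Agent.Lib.Involution.SignThree

/-- The action of three permutations on three blocks. -/
def emb : P →* Equiv.Perm (Fin 9) where
  toFun x := (finProdFinEquiv : Fin 3 × Fin 3 ≃ Fin (3 * 3)).permCongr
    (Equiv.prodCongrRight fun b => blk b x)
  map_one' := by ext i; simp [Equiv.prodCongrRight]
  map_mul' x y := by ext i; simp [Equiv.prodCongrRight, Equiv.Perm.mul_apply]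

theorem emb_injective : Function.Injective emb := by
  intro x y h
  refine ext_blk fun i => Equiv.ext fun a => ?_
  have := congrArg Prod.snd (Equiv.congr_fun ((Equiv.permCongr _).injective h) (i, a))
  simpa using this

theorem emb_gen0 : emb (cyc 0) = Equiv.swap (0 : Fin 9) 1 * Equiv.swap 1 2 := by decide
theorem emb_gen1 : emb (cyc 1) = Equiv.swap (3 : Fin 9) 4 * Equiv.swap 4 5 := by decide
theorem emb_gen2 : emb (cyc 2) = Equiv.swap (6 : Fin 9) 7 * Equiv.swap 7 8 := by decide
theorem emb_gen3 : emb (inv2 2) = Equiv.swap (0 : Fin 9) 1 * Equiv.swap 3 4 := by decide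
theorem emb_gen4 : emb (inv2 1) = Equiv.swap (0 : Fin 9) 1 * Equiv.swap 6 7 := by decide

theorem factor_blk : ∀ q : Equiv.Perm (Fin 3), ∃ j : Fin 3, ∃ a : Fin 2,
    q = (Equiv.swap 0 1 * Equiv.swap 1 2) ^ (j : ℕ) * Equiv.swap 0 1 ^ (a : ℕ) ∧
      Equiv.Perm.sign q = (-1) ^ (a : ℕ) := by decide

theorem factor_head : ∀ q : Equiv.Perm (Fin 3), ∀ a b : Fin 2,
    Equiv.Perm.sign q * (-1) ^ (a : ℕ) * (-1) ^ (b : ℕ) = 1 → ∃ i : Fin 3,
    q = (Equiv.swap 0 1 * Equiv.swap 1 2) ^ (i : ℕ) * Equiv.swap 0 1 ^ (a : ℕ) *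
      Equiv.swap 0 1 ^ (b : ℕ) := by decide

theorem Ev_le_closure :
    Ev ≤ Subgroup.closure ({cyc 0, cyc 1, cyc 2, inv2 2, inv2 1} : Set P) := by
  intro x hx
  rw [mem_Ev] at hx
  obtain ⟨j, a, hj, hsj⟩ := factor_blk (blk 1 x)
  obtain ⟨k, b, hk, hsk⟩ := factor_blk (blk 2 x)
  rw [hsj, hsk] at hx
  obtain ⟨i, hi⟩ := factor_head (blk 0 x) a b hx
  have e : x = cyc 0 ^ (i : ℕ) * cyc 1 ^ (j : ℕ) * cyc 2 ^ (k : ℕ) * inv2 2 ^ (a : ℕ) *
      inv2 1 ^ (b : ℕ) := ext_blk fun l => by
    simp only [map_mul, map_pow]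
    fin_cases l
    · simpa [blk, cyc, inv2] using hi
    · simpa [blk, cyc, inv2] using hj
    · simpa [blk, cyc, inv2] using hk
  rw [e]
  refine mul_mem (mul_mem (mul_mem (mul_mem ?_ ?_) ?_) ?_) ?_ <;>
    exact pow_mem (Subgroup.subset_closure (by simp)) _

theorem closure_eq_range :
    Subgroup.closure ({Equiv.swap (0 : Fin 9) 1 * Equiv.swap 1 2,
      Equiv.swap (3 : Fin 9) 4 * Equiv.swap 4 5, Equiv.swap (6 : Fin 9) 7 * Equiv.swap 7 8,
      Equiv.swap (0 : Fin 9) 1 * Equiv.swap 3 4, Equiv.swap (0 : Fin 9) 1 * Equiv.swap 6 7} :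
        Set (Equiv.Perm (Fin 9))) = (emb.comp Ev.subtype).range := by
  rw [MonoidHom.range_comp, Subgroup.range_subtype, ← emb_gen0, ← emb_gen1, ← emb_gen2, ← emb_gen3,
    ← emb_gen4]
  apply le_antisymm
  · rw [Subgroup.closure_le]
    intro y hy
    simp only [Set.mem_insert_iff, Set.mem_singleton_iff] at hy
    rcases hy with rfl | rfl | rfl | rfl | rfl
    · exact Subgroup.mem_map_of_mem emb (cyc_mem 0)
    · exact Subgroup.mem_map_of_mem emb (cyc_mem 1)
    · exact Subgroup.mem_map_of_mem emb (cyc_mem 2)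
    · exact Subgroup.mem_map_of_mem emb (inv2_mem 2)
    · exact Subgroup.mem_map_of_mem emb (inv2_mem 1)
  · refine (Subgroup.map_mono Ev_le_closure).trans ?_
    rw [MonoidHom.map_closure]
    simp [Set.image_insert_eq]

theorem card_even : Fintype.card {x : P // ∀ i : Fin 3, Equiv.Perm.sign (blk i x) = 1} = 27 := by
  decide

universe u

variable {G : Type u} [Group G] [Finite G]

/-- The main theorem, with `T` described by its order. -/
theorem main_of_card (f : Ev →* G) (hf : Function.Injective f) (T : Subgroup G)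
    (hTH : T ≤ f.range) (hT : Nat.card T = 27) (hN : normalizer (T : Set G) = f.range)
    (hC : ∀ t ∈ T, t ≠ 1 → centralizer ({t} : Set G) ≤ f.range) : f.range = ⊤ := by
  refine main f hf T ?_ hN hC
  have hsub : ∀ m : Ev, f m ∈ T → ∀ i, Equiv.Perm.sign (blk i (m : P)) = 1 := by
    intro m hm i
    have h1 : (⟨f m, hm⟩ : T) ^ 27 = 1 := by rw [← hT]; exact pow_card_eq_one'
    have h2 : m ^ 27 = 1 := hf (by rw [map_pow, map_one]; simpa using congrArg Subtype.val h1)
    have h3 : (Equiv.Perm.sign (blk i (m : P))) ^ 27 = 1 := by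
      rw [← map_pow, ← map_pow, ← Subgroup.coe_pow, h2]; simp
    rcases Int.units_eq_one_or (Equiv.Perm.sign (blk i (m : P))) with h | h
    · exact h
    · rw [h, (show Odd 27 by decide).neg_one_pow] at h3; exact absurd h3 (by decide)
  intro x
  constructor
  · intro hx
    obtain ⟨m, rfl⟩ := hTH hx
    exact ⟨m, hsub m hx, rfl⟩
  · rintro ⟨m, hm, rfl⟩
    by_contra hmT
    let F : T → {x : P // ∀ i : Fin 3, Equiv.Perm.sign (blk i x) = 1} := fun t =>
      ⟨((hTH t.2).choose : Ev), hsub _ (by rw [(hTH t.2).choose_spec]; exact t.2)⟩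
    have hF : Function.Injective F := fun a b h => by
      have he : (((hTH a.2).choose : Ev) : P) = (((hTH b.2).choose : Ev) : P) := Subtype.mk.inj h
      have : (hTH a.2).choose = (hTH b.2).choose := Subtype.ext he
      exact Subtype.ext (by rw [← (hTH a.2).choose_spec, ← (hTH b.2).choose_spec, this])
    have := Fintype.ofFinite T
    have hbij : Function.Bijective F := (Fintype.bijective_iff_injective_and_card F).mpr
      ⟨hF, by rw [card_even, ← Nat.card_eq_fintype_card, hT]⟩ 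
    obtain ⟨t, ht⟩ := hbij.2 ⟨(m : P), hm⟩
    have he : (((hTH t.2).choose : Ev) : P) = (m : P) := Subtype.mk.inj ht
    have : (hTH t.2).choose = m := Subtype.ext he
    exact hmT (by rw [← this, (hTH t.2).choose_spec]; exact t.2)

end Cfsg.Agent.Lib.Involution.SignThree
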