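import Cfsg.Agent.Lib.Involution.Basic
import Cfsg.Agent.Lib.Char.Integral
import Cfsg.Agent.Lib.Involution.BaerSuzuki
import Mathlib.GroupTheory.PGroup

/-!
Involutions whose centralizer is a four group inside a larger Sylow subgroup.
-/

set_option autoImplicit false
set_option linter.style.haveILetI false

open Cfsg Subgroup

namespace Cfsg.Agent.Lib.Involution

universe u

variable {G : Type u} [Group G] [Finite G]

/-- If `C(x) = {1, x, z, xz}` with `x` conjugate to `xz` but not to `z`,
then the conjugates of `z` generate a normal elementary abelian subgroup of order two or four. -/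
theorem exists_small_normal {x z : G} (hx : orderOf x = 2) (hz : orderOf z = 2) (hxz : Commute x z)
    (hC : ∀ c ∈ centralizer ({x} : Set G), c = 1 ∨ c = x ∨ c = z ∨ c = x * z)
    (hconj : IsConj x (x * z)) (hne : ¬ IsConj x z) :
    ∃ D : Subgroup G, D.Normal ∧ IsMulCommutative D ∧ (∀ d ∈ D, d ^ 2 = 1) ∧
      (Nat.card D = 2 ∨ Nat.card D = 4) := by
  classical
  haveI := Fintype.ofFinite G
  haveI : Fact (Nat.Prime 2) := ⟨Nat.prime_two⟩
  set C := centralizer ({x} : Set G) with hCdef
  set W := centralizer ({z} : Set G) with hWdef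
  set X := Finset.univ.filter fun u => IsConj u x with hX
  set Z := Finset.univ.filter fun v => IsConj v z with hZ
  set XW := X.filter fun u => Commute u z with hXW
  set ZW := Z.filter fun v => Commute v z with hZW
  have memX : ∀ {u}, u ∈ X ↔ IsConj u x := fun {u} => by simp [hX]
  have memZ : ∀ {v}, v ∈ Z ↔ IsConj v z := fun {v} => by simp [hZ]
  have ox : ∀ {u}, u ∈ X → orderOf u = 2 := fun {u} h => (isConj_orderOf (memX.mp h)).trans hx
  have oz : ∀ {v}, v ∈ Z → orderOf v = 2 := fun {v} h => (isConj_orderOf (memZ.mp h)).trans hz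
  have hzZ : z ∈ Z := memZ.mpr (IsConj.refl z)
  have hxx : x * x = 1 := mul_self hx
  have hzz : z * z = 1 := mul_self hz
  have hxzne : x ≠ z := fun h => hne (h ▸ IsConj.refl x)
  have hzC : z ∈ C := mem_centralizer_singleton_iff.mpr hxz.symm.eq
  have hxC : x ∈ C := mem_centralizer_singleton_iff.mpr rfl
  have hC4 : Nat.card C = 4 := by
    have e : C ≃ {g : G // g ∈ ({1, x, z, x * z} : Finset G)} := Equiv.subtypeEquivRight fun g => by
      simp only [Finset.mem_insert, Finset.mem_singleton]
      refine ⟨hC g, ?_⟩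
      rintro (rfl | rfl | rfl | rfl)
      exacts [one_mem C, hxC, hzC, mul_mem hxC hzC]
    rw [Nat.card_congr e, Nat.card_eq_fintype_card, Fintype.card_coe]
    have h1 : x * z ≠ 1 := fun h => hxzne (by rw [mul_eq_one_iff_eq_inv.mp h, inv_self hz])
    have h2 : x * z ≠ x := fun h => ne_one hz (mul_eq_left.mp h)
    have h3 : x * z ≠ z := fun h => ne_one hx (mul_eq_right.mp h)
    simp [Ne.symm (ne_one hx), Ne.symm (ne_one hz), hxzne, h1.symm, h2.symm, h3.symm]
  have hCW : C ≤ W := by
    intro c hc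
    rw [hWdef, mem_centralizer_singleton_iff]
    rcases hC c hc with rfl | rfl | rfl | rfl
    · rw [one_mul, mul_one]
    · exact hxz.eq
    · rfl
    · rw [mul_assoc, ← mul_assoc z x z, ← hxz.eq, mul_assoc]
  -- the conjugates in the centralizer
  have hCX : ∀ u, u ∈ X → Commute u x → u = x ∨ u = x * z := by
    intro u hu hcom
    rcases hC u (mem_centralizer_singleton_iff.mpr hcom.eq) with h | h | h | h
    · exact absurd h (ne_one (ox hu))
    · exact Or.inl h
    · exact absurd ((h ▸ memX.mp hu).symm) hne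
    · exact Or.inr h
  have hCZ : ∀ v, v ∈ Z → Commute v x → v = z := by
    intro v hv hcom
    rcases hC v (mem_centralizer_singleton_iff.mpr hcom.eq) with h | h | h | h
    · exact absurd h (ne_one (oz hv))
    · exact absurd (h ▸ memZ.mp hv) hne
    · exact h
    · exact absurd (hconj.trans (h ▸ memZ.mp hv)) hne
  have hcomm : ∀ g a b : G, Commute a b → Commute (g * a * g⁻¹) (g * b * g⁻¹) := fun g a b h => by
    rw [commute_iff_eq, conj_mul, conj_mul, h.eq]
  -- pairs and the involution they determine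
  have hex : ∀ p : G × G, p ∈ X ×ˢ Z → ∃ w : G, (w ∈ X ∨ w ∈ Z) ∧ w ∈ zpowers (p.1 * p.2) ∧
      Commute w p.1 ∧ Commute w p.2 ∧ w ≠ p.2 := by
    rintro ⟨u, v⟩ hp
    obtain ⟨hu, hv⟩ := Finset.mem_product.mp hp
    have heven : ¬ Odd (orderOf (u * v)) := fun h =>
      hne (((memX.mp hu).symm.trans (isConj_of_odd (ox hu) (oz hv) h)).trans (memZ.mp hv))
    obtain ⟨w, hw2, hwp, hwu, hwv⟩ := exists_involution_commute (ox hu) (oz hv) heven
    refine ⟨w, ?_, hwp, hwu, hwv, ?_⟩
    · obtain ⟨g, hg⟩ := isConj_iff.mp (memX.mp hu)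
      have h1 : g * w * g⁻¹ ∈ C := by
        rw [hCdef, mem_centralizer_singleton_iff, ← hg]
        exact (hcomm g w u hwu).eq
      rcases hC _ h1 with h | h | h | h
      · exact absurd (conj_eq_one_iff.mp h) (ne_one hw2)
      · exact Or.inl (memX.mpr (isConj_iff.mpr ⟨g, h⟩))
      · exact Or.inr (memZ.mpr (isConj_iff.mpr ⟨g, h⟩))
      · exact Or.inl (memX.mpr ((isConj_iff.mpr ⟨g, h⟩).trans hconj.symm))
    · intro h
      have huv : u ≠ v := fun e => hne ((memX.mp hu).symm.trans (show IsConj u z by rw [e]; exact memZ.mp hv))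
      have h2 : v * u = (u * v)⁻¹ := by rw [mul_inv_rev, inv_self (ox hu), inv_self (oz hv)]
      refine notMem_zpowers_prod (oz hv) (ox hu) huv.symm ?_
      rw [h2, zpowers_inv]
      exact h ▸ hwp
  choose! w hwmem hwpow hwu hwv hwne using hex
  set P1 := (X ×ˢ Z).filter fun p => w p ∈ X with hP1
  set P2 := (X ×ˢ Z).filter fun p => ¬ w p ∈ X with hP2
  have hsplit : P1.card + P2.card = X.card * Z.card := by
    rw [hP1, hP2, Finset.card_filter_add_card_filter_not, Finset.card_product]
  -- the pairs over a conjugate of `x`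
  have hb1 : P1.card ≤ X.card := by
    refine Finset.card_le_card_of_injOn w (fun p hp => (Finset.mem_filter.mp hp).2) ?_
    intro p hp q hq hpq
    obtain ⟨hp', hwX⟩ := Finset.mem_filter.mp hp
    obtain ⟨hq', -⟩ := Finset.mem_filter.mp hq
    obtain ⟨g, hg⟩ := isConj_iff.mp (memX.mp hwX)
    have key : ∀ r ∈ X ×ˢ Z, w r = w p → g * r.1 * g⁻¹ = x * z ∧ g * r.2 * g⁻¹ = z := by
      intro r hr he
      obtain ⟨hu, hv⟩ := Finset.mem_product.mp hr
      have hv' : g * r.2 * g⁻¹ = z := by
        refine hCZ _ (memZ.mpr ((isConj_iff.mpr ⟨g, rfl⟩ : IsConj r.2 _).symm.trans (memZ.mp hv))) ?_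
        rw [← hg]
        exact hcomm g _ _ (he ▸ hwv r hr).symm
      refine ⟨?_, hv'⟩
      have hu' : g * r.1 * g⁻¹ = x ∨ g * r.1 * g⁻¹ = x * z := by
        refine hCX _ (memX.mpr ((isConj_iff.mpr ⟨g, rfl⟩ : IsConj r.1 _).symm.trans (memX.mp hu))) ?_
        rw [← hg]
        exact hcomm g _ _ (he ▸ hwu r hr).symm
      refine hu'.resolve_left fun hux => ?_
      obtain ⟨k, hk⟩ := mem_zpowers_iff.mp (he ▸ hwpow r hr)
      have e : (x * z) ^ k = x := by
        rw [← hg]
        conv_rhs => rw [← hk, ← conj_zpow, ← conj_mul, hux, hv']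
        rw [hg]
      exact notMem_zpowers_prod hx hz hxzne (mem_zpowers_iff.mpr ⟨k, e⟩)
    obtain ⟨e1, e2⟩ := key p hp' rfl
    obtain ⟨e3, e4⟩ := key q hq' hpq.symm
    exact Prod.ext (mul_left_cancel (mul_right_cancel (e1.trans e3.symm)))
      (mul_left_cancel (mul_right_cancel (e2.trans e4.symm)))
  -- the pairs over a conjugate of `z`
  have hh : ∀ v ∈ Z, ∃ g : G, g * v * g⁻¹ = z := fun v hv => isConj_iff.mp (memZ.mp hv)
  choose! t ht using hh
  have hb2 : P2.card ≤ Z.card * (XW.card * (ZW.erase z).card) := by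
    rw [← Finset.card_product XW, ← Finset.card_product Z]
    refine Finset.card_le_card_of_injOn
      (fun p => (w p, t (w p) * p.1 * (t (w p))⁻¹, t (w p) * p.2 * (t (w p))⁻¹)) ?_ ?_
    · intro p hp
      obtain ⟨hp', hnX⟩ := Finset.mem_filter.mp hp
      obtain ⟨hu, hv⟩ := Finset.mem_product.mp hp'
      have hwZ : w p ∈ Z := (hwmem p hp').resolve_left hnX
      set g := t (w p)
      have hg : g * w p * g⁻¹ = z := ht _ hwZ
      simp only [Finset.mem_coe, Finset.mem_product, hXW, hZW, Finset.mem_erase, Finset.mem_filter]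
      refine ⟨hwZ, ⟨memX.mpr ((isConj_iff.mpr ⟨g, rfl⟩ : IsConj p.1 _).symm.trans (memX.mp hu)), ?_⟩,
        fun h => hwne p hp' (mul_left_cancel (mul_right_cancel (hg.trans h.symm))),
        memZ.mpr ((isConj_iff.mpr ⟨g, rfl⟩ : IsConj p.2 _).symm.trans (memZ.mp hv)), ?_⟩
      · rw [← hg]; exact hcomm g _ _ (hwu p hp').symm
      · rw [← hg]; exact hcomm g _ _ (hwv p hp').symm
    · intro p hp q hq he
      simp only [Prod.mk.injEq] at he
      obtain ⟨e0, e1, e2⟩ := he
      rw [e0] at e1 e2
      exact Prod.ext (mul_left_cancel (mul_right_cancel e1)) (mul_left_cancel (mul_right_cancel e2))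
  -- the class sizes
  have hXc : X.card * 4 = Nat.card G := by
    rw [hX, Char.card_conjClass_eq_index x, ← hCdef, ← hC4, Subgroup.index_mul_card]
  have hZc : Z.card * Nat.card W = Nat.card G := by
    rw [hZ, Char.card_conjClass_eq_index z, ← hWdef, Subgroup.index_mul_card]
  have hXWc : XW.card * 4 ≤ Nat.card W := by
    have hh : ∀ u ∈ XW, ∃ g : G, g ∈ W ∧ g * u * g⁻¹ = x := by
      intro u hu
      rw [hXW, Finset.mem_filter] at hu
      obtain ⟨g, hg⟩ := isConj_iff.mp (memX.mp hu.1)
      refine ⟨g, ?_, hg⟩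
      have hc : g * z * g⁻¹ = z := by
        refine hCZ _ (memZ.mpr (isConj_iff.mpr ⟨g, rfl⟩).symm) ?_
        rw [← hg]; exact hcomm g _ _ hu.2.symm
      exact mem_centralizer_singleton_iff.mpr (mul_inv_eq_iff_eq_mul.mp hc)
    choose! s hsW hs using hh
    let F : {u // u ∈ XW} × C → W := fun q =>
      ⟨(q.2 : G) * s q.1.1, mul_mem (hCW q.2.2) (hsW _ q.1.2)⟩
    have hF : Function.Injective F := by
      rintro ⟨⟨u, hu⟩, c⟩ ⟨⟨u', hu'⟩, c'⟩ he
      have e : (c : G) * s u = c' * s u' := congrArg Subtype.val he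
      have key : ∀ (d : C) v, v ∈ XW → ((d : G) * s v) * v * ((d : G) * s v)⁻¹ = x := fun d v hv => by
        rw [show ((d : G) * s v) * v * ((d : G) * s v)⁻¹ = d * (s v * v * (s v)⁻¹) * (d : G)⁻¹ by group,
          hs v hv, mem_centralizer_singleton_iff.mp d.2, mul_inv_cancel_right]
      have h1 := key c u hu
      rw [e] at h1
      obtain rfl : u = u' := mul_left_cancel (mul_right_cancel (h1.trans (key c' u' hu').symm))
      exact Prod.ext rfl (Subtype.ext (mul_right_cancel e))
    have := Nat.card_le_card_of_injective F hF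
    rwa [Nat.card_prod, hC4, Nat.card_eq_fintype_card, Fintype.card_coe] at this
  have hall : ∀ v ∈ Z, Commute v z := by
    have hzZW : z ∈ ZW := Finset.mem_filter.mpr ⟨hzZ, Commute.refl z⟩
    have hle : Z.card ≤ ZW.card := by
      rw [Finset.card_erase_of_mem hzZW] at hb2
      have hpos : 0 < ZW.card := Finset.card_pos.mpr ⟨z, hzZW⟩
      have hXpos : 0 < X.card := Finset.card_pos.mpr ⟨x, memX.mpr (IsConj.refl x)⟩
      have h1 : Z.card * XW.card ≤ X.card :=
        Nat.le_of_mul_le_mul_right (by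
          rw [hXc, ← hZc, mul_assoc]; exact Nat.mul_le_mul_left _ hXWc) (by norm_num)
      have h2 : P2.card ≤ X.card * (ZW.card - 1) := hb2.trans (by
        rw [← mul_assoc]; exact Nat.mul_le_mul_right _ h1)
      have h3 : X.card * Z.card ≤ X.card * ZW.card := by
        obtain ⟨j, hj⟩ : ∃ j, ZW.card = j + 1 := ⟨ZW.card - 1, by omega⟩
        rw [hj, Nat.add_sub_cancel] at h2
        rw [← hsplit, hj, mul_add, mul_one]
        omega
      exact Nat.le_of_mul_le_mul_left h3 hXpos
    intro v hv
    have := Finset.eq_of_subset_of_card_le (Finset.filter_subset _ Z) hle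
    rw [← hZW] at this
    rw [← this, hZW] at hv
    exact (Finset.mem_filter.mp hv).2
  -- the normal subgroup
  have hpair : ∀ v ∈ Z, ∀ v' ∈ Z, Commute v v' := by
    intro v hv v' hv'
    obtain ⟨g, hg⟩ := isConj_iff.mp (memZ.mp hv)
    have h := hall _ (memZ.mpr ((isConj_iff.mpr ⟨g, rfl⟩ : IsConj v' _).symm.trans (memZ.mp hv')))
    rw [← hg] at h
    have h' := hcomm g⁻¹ _ _ h
    simpa [mul_assoc] using h'.symm
  set D := Subgroup.closure (Z : Set G) with hD
  have hDcomm : ∀ a ∈ D, ∀ b ∈ D, a * b = b * a := by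
    have h1 : ∀ v ∈ Z, ∀ b ∈ D, Commute v b := by
      intro v hv b hb
      induction hb using Subgroup.closure_induction with
      | mem y hy => exact hpair v hv y hy
      | one => exact Commute.one_right v
      | mul a b _ _ ha hb => exact ha.mul_right hb
      | inv a _ ha => exact ha.inv_right
    intro a ha b hb
    induction ha using Subgroup.closure_induction with
    | mem y hy => exact h1 y hy b hb
    | one => rw [one_mul, mul_one]
    | mul a a' _ _ h h' => exact (Commute.mul_left h h' : Commute (a * a') b).eq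
    | inv a _ h => exact (Commute.inv_left h : Commute a⁻¹ b).eq
  have hDsq : ∀ d ∈ D, d * d = 1 := by
    intro d hd
    induction hd using Subgroup.closure_induction with
    | mem y hy => exact mul_self (oz hy)
    | one => rw [mul_one]
    | mul a b ha hb h h' =>
      rw [show a * b * (a * b) = a * (b * a) * b by group, ← hDcomm a ha b hb,
        show a * (a * b) * b = (a * a) * (b * b) by group, h, h', one_mul]
    | inv a _ h => rw [← mul_inv_rev, h, inv_one]
  haveI hDn : D.Normal := ⟨fun d hd g => by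
    induction hd using Subgroup.closure_induction with
    | mem y hy =>
      exact Subgroup.subset_closure
        (memZ.mpr ((isConj_iff.mpr ⟨g, rfl⟩ : IsConj y _).symm.trans (memZ.mp hy)))
    | one => rw [mul_one, mul_inv_cancel]; exact one_mem D
    | mul a b _ _ h h' => rw [← conj_mul]; exact mul_mem h h'
    | inv a _ h => rw [show g * a⁻¹ * g⁻¹ = (g * a * g⁻¹)⁻¹ by group]; exact inv_mem h⟩
  haveI hDab : IsMulCommutative D := ⟨⟨fun a b => Subtype.ext (hDcomm _ a.2 _ b.2)⟩⟩
  refine ⟨D, hDn, hDab, fun d hd => by rw [pow_two]; exact hDsq d hd, ?_⟩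
  have hle4 : Nat.card D ≤ 4 := by
    by_cases hxD : x ∈ D
    · refine (Subgroup.card_le_of_le (K := C) fun d hd => ?_).trans hC4.le
      exact mem_centralizer_singleton_iff.mpr (hDcomm d hd x hxD)
    set K := D.subgroupOf C with hK
    let φ : D →* D :=
      { toFun := fun d => ⟨(d : G) * (x * d * x⁻¹), mul_mem d.2 (hDn.conj_mem _ d.2 x)⟩
        map_one' := Subtype.ext (by simp)
        map_mul' := fun a b => Subtype.ext (by
          show (a : G) * b * (x * (a * b) * x⁻¹) = a * (x * a * x⁻¹) * (b * (x * b * x⁻¹))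
          rw [show x * ((a : G) * b) * x⁻¹ = (x * a * x⁻¹) * (x * b * x⁻¹) by group]
          have h := hDcomm _ (hDn.conj_mem _ a.2 x) _ b.2
          calc (a : G) * b * (x * a * x⁻¹ * (x * b * x⁻¹))
              = a * (b * (x * a * x⁻¹)) * (x * b * x⁻¹) := by group
            _ = a * ((x * a * x⁻¹) * b) * (x * b * x⁻¹) := by rw [h]
            _ = a * (x * a * x⁻¹) * (b * (x * b * x⁻¹)) := by group) }
    have hfix : ∀ d : D, Commute (d : G) x → (d : G) = 1 ∨ (d : G) = z := by
      intro d hd
      rcases hC _ (mem_centralizer_singleton_iff.mpr hd.eq) with h | h | h | h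
      · exact Or.inl h
      · exact absurd (h ▸ d.2) hxD
      · exact Or.inr h
      · refine absurd ?_ hxD
        have hzD : z ∈ D := Subgroup.subset_closure hzZ
        have := mul_mem (h ▸ d.2 : x * z ∈ D) hzD
        rwa [mul_assoc, hzz, mul_one] at this
    have hker : ∀ d : D, d ∈ φ.ker → (d : G) = 1 ∨ (d : G) = z := by
      intro d hd
      refine hfix d ?_
      have h1 : (d : G) * (x * d * x⁻¹) = 1 := congrArg Subtype.val (MonoidHom.mem_ker.mp hd)
      have h2 : x * d * x⁻¹ = d := by
        rw [eq_inv_of_mul_eq_one_right h1, inv_eq_of_mul_eq_one_right (hDsq _ d.2)]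
      exact (mul_inv_eq_iff_eq_mul.mp h2).symm
    have hran : ∀ d : D, d ∈ φ.range → (d : G) = 1 ∨ (d : G) = z := by
      rintro - ⟨d, rfl⟩
      refine hfix _ ?_
      show Commute ((d : G) * (x * d * x⁻¹)) x
      rw [inv_self hx, commute_iff_eq]
      have h := hDcomm _ d.2 _ (show x * (d : G) * x ∈ D by
        have := hDn.conj_mem _ d.2 x; rwa [inv_self hx] at this)
      calc (d : G) * (x * d * x) * x = d * (x * d) * (x * x) := by group
        _ = d * (x * d) := by rw [hxx, mul_one]
        _ = (x * x) * (d * (x * d)) := by rw [hxx, one_mul]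
        _ = x * ((x * d * x) * d) := by group
        _ = x * (d * (x * d * x)) := by rw [h]
    have hcard2 : ∀ K : Subgroup D, (∀ d ∈ K, (d : G) = 1 ∨ (d : G) = z) → Nat.card K ≤ 2 := by
      intro K hK
      let g : K → Bool := fun d => decide ((d.1 : G) = z)
      have hg : Function.Injective g := by
        intro a b he
        simp only [g, decide_eq_decide] at he
        refine Subtype.ext (Subtype.ext ?_)
        rcases hK a a.2 with ha | ha <;> rcases hK b b.2 with hb | hb
        · rw [ha, hb]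
        · rw [he.mpr hb, hb]
        · rw [ha, he.mp ha]
        · rw [ha, hb]
      simpa using Nat.card_le_card_of_injective g hg
    calc Nat.card D = φ.ker.index * Nat.card φ.ker := φ.ker.index_mul_card.symm
      _ = Nat.card φ.range * Nat.card φ.ker := by rw [Subgroup.index_ker]
      _ ≤ 2 * 2 := Nat.mul_le_mul (hcard2 _ hran) (hcard2 _ hker)
  have hDp : IsPGroup 2 D := fun d => ⟨1, Subtype.ext (by rw [pow_one, pow_two]; exact hDsq _ d.2)⟩
  obtain ⟨k, hk⟩ := IsPGroup.iff_card.mp hDp
  have h2 : 2 ≤ Nat.card D := by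
    rw [← hz, ← Nat.card_zpowers]
    exact Subgroup.card_le_of_le ((Subgroup.zpowers_le).mpr (Subgroup.subset_closure hzZ))
  rw [hk] at hle4 h2 ⊢
  rcases k with _ | _ | _ | k
  · omega
  · exact Or.inl rfl
  · exact Or.inr rfl
  · have : 2 ^ (k + 1 + 1 + 1) = 8 * 2 ^ k := by ring
    have := Nat.one_le_two_pow (n := k)
    omega

end Cfsg.Agent.Lib.Involution
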