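import Mathlib.GroupTheory.Transfer
import Mathlib.GroupTheory.Sylow
import Mathlib.GroupTheory.PGroup
import Mathlib.Tactic.Group

/-!
# Normal `p`-complements in centralizers and inverted elements
-/

set_option autoImplicit false

open Subgroup

namespace Cfsg.Agent.Lib.Involution

universe u

variable {G : Type u} [Group G] [Finite G]

/-- An element of order three acting without fixed points gives `r ↦ r⁻¹ d r d⁻¹` surjective. -/
theorem fpf_three_identity {Q : Subgroup G} {d : G} (hdQ : ∀ q ∈ Q, d * q * d⁻¹ ∈ Q)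
    (hfix : ∀ q ∈ Q, d * q = q * d → q = 1) (hd3 : d ^ 3 = 1) {p : G} (hp : p ∈ Q) :
    p * (d * p * d⁻¹) * (d ^ 2 * p * (d ^ 2)⁻¹) = 1 := by
  let m : Q → Q := fun r => ⟨(r : G)⁻¹ * (d * r * d⁻¹), mul_mem (inv_mem r.2) (hdQ _ r.2)⟩
  have hm : Function.Injective m := fun a b h => by
    have e : (a : G)⁻¹ * (d * a * d⁻¹) = (b : G)⁻¹ * (d * b * d⁻¹) := congrArg Subtype.val h
    have h2 : d * ((b : G) * (a : G)⁻¹) = (b : G) * (a : G)⁻¹ * d := by
      have e2 : (b : G) * ((a : G)⁻¹ * (d * a * d⁻¹)) = d * b * d⁻¹ := by rw [e]; group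
      calc d * ((b : G) * (a : G)⁻¹) = d * b * d⁻¹ * (d * (a : G)⁻¹) := by group
        _ = (b : G) * ((a : G)⁻¹ * (d * a * d⁻¹)) * (d * (a : G)⁻¹) := by rw [e2]
        _ = (b : G) * (a : G)⁻¹ * d := by group
    exact Subtype.ext (mul_inv_eq_one.mp (hfix _ (mul_mem b.2 (inv_mem a.2)) h2)).symm
  obtain ⟨r, hr⟩ := Finite.injective_iff_surjective.mp hm ⟨p, hp⟩
  have hr' : (r : G)⁻¹ * (d * r * d⁻¹) = p := congrArg Subtype.val hr
  rw [← hr']
  calc (r : G)⁻¹ * (d * r * d⁻¹) * (d * ((r : G)⁻¹ * (d * r * d⁻¹)) * d⁻¹) *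
        (d ^ 2 * ((r : G)⁻¹ * (d * r * d⁻¹)) * (d ^ 2)⁻¹)
      = (r : G)⁻¹ * ((d * d * d) * r * (d * d * d)⁻¹) := by group
    _ = 1 := by rw [← pow_three', hd3]; group

/-- An involution inverting `q` is conjugate to one it is multiplied with. -/
theorem inverted_conj {Q : Subgroup G} {d w q : G} (hdQ : ∀ q ∈ Q, d * q * d⁻¹ ∈ Q)
    (hdQ' : ∀ q ∈ Q, d⁻¹ * q * d ∈ Q) (hfix : ∀ q ∈ Q, d * q = q * d → q = 1) (hd3 : d ^ 3 = 1)
    (hq : q ∈ Q) (hw : w * w = 1) (hwd : w * d * w = d⁻¹) (hwq : w * q * w = q⁻¹) :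
    ∃ r : G, r * w * r⁻¹ = q * w := by
  have h := fpf_three_identity (d := d⁻¹) (fun x hx => by simpa using hdQ' x hx)
    (fun x hx he => hfix x hx (by
      calc d * x = d * (x * d⁻¹) * d := by group
        _ = d * (d⁻¹ * x) * d := by rw [he]
        _ = x * d := by group)) (by rw [inv_pow, hd3, inv_one]) hq
  have hd2 : d⁻¹ ^ 2 = d := by
    calc d⁻¹ ^ 2 = (d ^ 3)⁻¹ * d := by group
      _ = d := by rw [hd3, inv_one, one_mul]
  rw [hd2, inv_inv] at h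
  refine ⟨d * q⁻¹ * d⁻¹, ?_⟩
  have hwd2 : w * d⁻¹ * w = d := by
    have := congrArg (·⁻¹) hwd
    have hwi : w⁻¹ = w := inv_eq_of_mul_eq_one_right hw
    simpa [hwi, mul_assoc] using this
  calc d * q⁻¹ * d⁻¹ * w * (d * q⁻¹ * d⁻¹)⁻¹
      = d * q⁻¹ * d⁻¹ * ((w * d * w) * (w * q * w) * (w * d⁻¹ * w)) * w := by
        have hww : ∀ x : G, w * (w * x) = x := fun x => by rw [← mul_assoc, hw, one_mul]
        simp only [mul_inv_rev, inv_inv, mul_assoc, hww, hw, mul_one]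
    _ = d * q⁻¹ * d⁻¹ * (d⁻¹ * q⁻¹ * d) * w := by rw [hwd, hwq, hwd2]
    _ = ((d⁻¹ * q * d) * (d * q * d⁻¹))⁻¹ * w := by group
    _ = (q⁻¹ * (q * (d⁻¹ * q * d) * (d * q * d⁻¹)))⁻¹ * w := by group
    _ = q * w := by rw [h]; group

/-- A `p`-subgroup `P` of `C` that is a Sylow subgroup with central normalizer has as complement
the subgroup generated by the `p'`-elements. -/
theorem complement_closure {p : ℕ} [hp : Fact p.Prime] {C P : Subgroup G} (hPC : P ≤ C)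
    (hpP : IsPGroup p P) (hmax : ∀ R : Subgroup G, IsPGroup p R → P ≤ R → R ≤ C → R = P)
    (hN : ∀ g ∈ C, (∀ x ∈ P, g * x * g⁻¹ ∈ P) → ∀ x ∈ P, g * x = x * g) :
    let Q := Subgroup.closure {c : G | c ∈ C ∧ ¬ p ∣ orderOf c}
    Q ≤ C ∧ ¬ p ∣ Nat.card Q ∧ Q ⊓ P = ⊥ ∧ Q ⊔ P = C := by
  intro Q
  obtain ⟨S, hS⟩ := (hpP.of_equiv (subgroupOfEquivOfLe hPC).symm).exists_le_sylow
  have hSP : (S : Subgroup C).map C.subtype = P :=
    hmax _ (S.isPGroup'.map C.subtype)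
      (fun x hx => ⟨⟨x, hPC hx⟩, hS (mem_subgroupOf.mpr hx), rfl⟩) (map_subtype_le _)
  have hmem : ∀ c : C, c ∈ (S : Subgroup C) ↔ (c : G) ∈ P := fun c => by
    rw [← hSP]
    exact ⟨fun h => ⟨c, h, rfl⟩, fun ⟨y, hy, he⟩ => C.subtype_injective he ▸ hy⟩
  have hNS : normalizer ((S : Subgroup C) : Set C) ≤ centralizer ((S : Subgroup C) : Set C) := by
    intro g hg
    rw [mem_centralizer_iff]
    intro y hy
    refine Subtype.ext ((hN g g.2 (fun x hx => ?_) y ((hmem y).mp hy))).symm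
    exact (hmem _).mp ((mem_normalizer_iff.mp hg ⟨x, hPC hx⟩).mp ((hmem ⟨x, hPC hx⟩).mpr hx))
  obtain ⟨M, hc, hpM, hker⟩ : ∃ M : Subgroup C, IsComplement' M (S : Subgroup C) ∧
      ¬ p ∣ Nat.card M ∧ ∀ c : C, ¬ p ∣ orderOf c → c ∈ M := by
    refine ⟨(MonoidHom.transferSylow S hNS).ker, MonoidHom.ker_transferSylow_isComplement' S hNS,
      MonoidHom.not_dvd_card_ker_transferSylow S hNS, fun c hcc => MonoidHom.mem_ker.mpr ?_⟩
    obtain ⟨k, hk⟩ := IsPGroup.iff_orderOf.mp S.isPGroup' (MonoidHom.transferSylow S hNS c)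
    have hd := orderOf_map_dvd (MonoidHom.transferSylow S hNS) c
    rw [hk] at hd
    rcases k with _ | k
    · exact orderOf_eq_one_iff.mp (by rw [hk, pow_zero])
    · exact absurd ((dvd_pow_self p k.succ_ne_zero).trans hd) hcc
  have hQM : Q = M.map C.subtype := by
    apply le_antisymm
    · rw [closure_le]
      rintro c ⟨hcC, hcp⟩
      exact ⟨⟨c, hcC⟩, hker ⟨c, hcC⟩ (by rwa [← orderOf_coe]), rfl⟩
    · rintro _ ⟨m, hm, rfl⟩
      refine subset_closure ⟨m.2, fun h => hpM ?_⟩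
      rw [coe_subtype, orderOf_coe] at h
      exact h.trans (orderOf_dvd_natCard M hm)
  refine ⟨hQM ▸ map_subtype_le M, ?_, ?_, ?_⟩
  · rw [hQM, card_map_of_injective C.subtype_injective]; exact hpM
  · rw [hQM, ← hSP, ← map_inf _ _ _ C.subtype_injective, hc.disjoint.eq_bot, Subgroup.map_bot]
  · rw [hQM, ← hSP, ← Subgroup.map_sup, hc.sup_eq_top, ← MonoidHom.range_eq_map, range_subtype]

end Cfsg.Agent.Lib.Involution
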