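import Cfsg.Agent.Lib.Involution.WreathThree

/-!
# Finite facts about the block group `(Sym 3 ≀ Sym 3) ∩ Alt 9`
-/

set_option autoImplicit false

open Subgroup SemidirectProduct

namespace Cfsg.Agent.Lib.Involution.SignThree

/-- All blocks even. -/
def AllEven (x : P) : Prop := ∀ i : Fin 3, Equiv.Perm.sign (blk i x) = 1

theorem allEven_mem {x : P} (h : AllEven x) : x ∈ Ev := by
  rw [mem_Ev, h 0, h 1, h 2]; rfl

theorem cyc_allEven (i : Fin 3) : AllEven (cyc i) := cyc_sign i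

theorem allEven_mul {x y : P} (hx : AllEven x) (hy : AllEven y) : AllEven (x * y) := fun i => by
  rw [map_mul, map_mul, hx i, hy i, one_mul]

theorem allEven_cube {x : P} (h : AllEven x) : x ^ 3 = 1 :=
  ext_blk fun i => by rw [map_pow, pow_of_sign _ (h i), map_one]

theorem allEven_comm {x y : P} (hx : AllEven x) (hy : AllEven y) : x * y = y * x :=
  ext_blk fun i => by rw [map_mul, map_mul]; exact comm_even _ _ (hx i) (hy i)

theorem conj_inl (n : Wr) (x : P) :
    n * inl x * n⁻¹ = inl (n.left * permute n.right x * n.left⁻¹) := by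
  ext <;> simp [mul_assoc]

theorem allEven_conj (n : Wr) {x : P} (hx : AllEven x) :
    AllEven (n.left * permute n.right x * n.left⁻¹) := fun i => by
  simp only [map_mul, map_inv, blk_permute, hx (n.right⁻¹ i), mul_one, mul_inv_cancel]

theorem pow4_perm : ∀ s : Equiv.Perm (Fin 3), s * s * (s * s) = 1 → s * s = 1 := by decide

theorem square_involution_right {w : Wr} (h : w * w * (w * w) = 1) : (w * w).right = 1 := by
  have := congrArg SemidirectProduct.right h
  simp only [mul_right, one_right] at this ⊢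
  exact pow4_perm _ this

/-- A square root of `inv2 0` centralizing the first block. -/
def v0 : Wr := ⟨(1, Equiv.swap 0 1, 1), Equiv.swap 1 2⟩

theorem v0_mem : v0 ∈ K0 := by rw [mem_K0]; decide

theorem v0_sq : v0 * v0 = inl (inv2 0) := SemidirectProduct.ext (by decide) (by decide)

theorem v0_comm : v0 * inl (cyc 0) = inl (cyc 0) * v0 :=
  SemidirectProduct.ext (by decide) (by decide)

theorem conj_axis : ∀ j : Fin 3, ∀ e : Fin 2, ∃ a : Fin 3, ∃ b : Fin 2,
    (((inl (inv2 1) : Wr) ^ (b : ℕ) * rot ^ (a : ℕ)) * inl (cyc j ^ ((e : ℕ) + 1)) *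
      ((inl (inv2 1) : Wr) ^ (b : ℕ) * rot ^ (a : ℕ))⁻¹).left = cyc 0 := by decide

theorem axis_of_comm {a m : P} (ha : AllEven a) (ha1 : a ≠ 1) (hm : m ∈ Ev) (hm2 : m * m = 1)
    (hm1 : m ≠ 1) (hc : a * m = m * a) :
    ∃ n ∈ K0, n * inl a * n⁻¹ = inl (cyc 0) := by
  obtain ⟨j, -, hjs⟩ := involution_type m.1 m.2.1 m.2.2 ((mem_Ev _).mp hm)
    (by rw [pow_two]; exact hm2) hm1
  have h0 : ∀ i, i ≠ j → blk i a = 1 := fun i hi =>
    fix_of_comm _ _ (ha i) (hjs i hi) (by simpa using congrArg (blk i) hc)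
  have hae : ∃ e : Fin 2, a = cyc j ^ ((e : ℕ) + 1) := by
    have hcj : blk j (cyc j) = Equiv.swap 0 1 * Equiv.swap 1 2 := by fin_cases j <;> decide
    rcases cycle_of_sign _ (ha j) with h | h | h
    · exact absurd (ext_blk fun i => by
        rw [map_one]
        by_cases hi : i = j
        · subst hi; exact h
        · exact h0 i hi) ha1
    · refine ⟨0, ext_blk fun i => ?_⟩
      by_cases hi : i = j
      · subst hi; simp [h, hcj]
      · simp [h0 i hi, (cyc_blk j i).mpr (Ne.symm hi)]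
    · refine ⟨1, ext_blk fun i => ?_⟩
      by_cases hi : i = j
      · subst hi; simp [h, hcj]
      · simp [h0 i hi, (cyc_blk j i).mpr (Ne.symm hi)]
  obtain ⟨e, rfl⟩ := hae
  obtain ⟨p, q, hpq⟩ := conj_axis j e
  refine ⟨(inl (inv2 1) : Wr) ^ (q : ℕ) * rot ^ (p : ℕ),
    mul_mem (pow_mem (inl_mem_K0.mpr (inv2_mem 1)) _) (pow_mem rot_mem _), ?_⟩
  rw [conj_inl]
  rw [conj_inl, left_inl] at hpq
  rw [hpq]

theorem exists_comm {y : Wr} (hy2 : y * y = 1) (hyr : y.right ≠ 1) :
    ∃ a : P, AllEven a ∧ a ≠ 1 ∧ y * inl a = inl a * y := by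
  obtain ⟨l, hl⟩ : ∃ l, y.right⁻¹ l ≠ l := by
    by_contra h
    push Not at h
    exact hyr (inv_eq_one.mp (Equiv.ext h))
  set c' := y.left * permute y.right (cyc l) * y.left⁻¹ with hc'
  have he : AllEven c' := allEven_conj y (cyc_allEven l)
  have hyi : y⁻¹ = y := inv_eq_of_mul_eq_one_right hy2
  refine ⟨cyc l * c', allEven_mul (cyc_allEven l) he, fun h => ?_, ?_⟩
  · have := congrArg (blk l) h
    simp only [map_mul, hc', map_inv, blk_permute, (cyc_blk l (y.right⁻¹ l)).mpr (Ne.symm hl),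
      mul_one, mul_inv_cancel, map_one] at this
    exact (cyc_blk l l).mp this rfl
  · have h1 : inl c' = y * inl (cyc l) * y⁻¹ := (conj_inl y _).symm
    rw [hyi] at h1
    rw [map_mul, h1]
    have h2 : inl (cyc l) * (y * inl (cyc l) * y) = y * inl (cyc l) * y * inl (cyc l) := by
      rw [← h1, ← map_mul, ← map_mul, allEven_comm (cyc_allEven l) he]
    calc y * (inl (cyc l) * (y * inl (cyc l) * y))
        = (y * inl (cyc l) * y) * (inl (cyc l) * y) := by group
      _ = (y * inl (cyc l) * y * inl (cyc l)) * y := by group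
      _ = inl (cyc l) * (y * inl (cyc l) * y) * y := by rw [h2]

theorem parity_fact : ∀ (b : Fin 3) (s : Equiv.Perm (Fin 3)), s b = b → s * s = 1 → s ≠ 1 →
    ∀ a₀ a₁ a₂ : ℤˣ, (∀ i : Fin 3, ![a₀, a₁, a₂] i * ![a₀, a₁, a₂] (s i) = 1) →
      ![a₀, a₁, a₂] b = 1 → a₀ * a₁ * a₂ * Equiv.Perm.sign s ≠ 1 := by decide

theorem no_axis_comm {y : Wr} (hy : y ∈ K0) (hy2 : y * y = 1) (hyr : y.right ≠ 1) (n : Wr) (i : Fin 3)
    (hc : y * inl (n.left * permute n.right (cyc i) * n.left⁻¹) =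
      inl (n.left * permute n.right (cyc i) * n.left⁻¹) * y) : False := by
  set z := n.left * permute n.right (cyc i) * n.left⁻¹ with hz
  set b := n.right i with hb
  have hze : AllEven z := allEven_conj n (cyc_allEven i)
  have hzb : blk b z ≠ 1 := by
    intro h
    simp only [hz, hb, map_mul, map_inv, blk_permute] at h
    rw [Equiv.Perm.inv_def, Equiv.symm_apply_apply, mul_inv_eq_one] at h
    exact (cyc_blk i i).mp (by simpa using h) rfl
  have hzk : ∀ k, k ≠ b → blk k z = 1 := by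
    intro k hk
    have : n.right⁻¹ k ≠ i := fun e => hk (by rw [hb, ← e]; simp)
    simp only [hz, map_mul, map_inv, blk_permute, (cyc_blk i (n.right⁻¹ k)).mpr (Ne.symm this), mul_one,
      mul_inv_cancel]
  have hyz : y.left * permute y.right z * y.left⁻¹ = z := by
    have h := conj_inl y z
    rw [hc, mul_inv_cancel_right] at h
    exact (inl_injective h).symm
  set s := y.right
  have hs2 : s * s = 1 := by simpa using congrArg SemidirectProduct.right hy2
  have hsi : s⁻¹ = s := inv_eq_of_mul_eq_one_right hs2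
  have hsb : s b = b := by
    by_contra h
    have h' := congrArg (blk b) hyz
    simp only [map_mul, map_inv, blk_permute, hsi, hzk _ h, mul_one, mul_inv_cancel] at h'
    exact hzb h'.symm
  have hev : Equiv.Perm.sign (blk b y.left) = 1 := by
    rcases Int.units_eq_one_or (Equiv.Perm.sign (blk b y.left)) with h | h
    · exact h
    · exfalso
      refine hzb (fix_of_comm _ _ (hze b) h ?_)
      have h' := congrArg (blk b) hyz
      simp only [map_mul, map_inv, blk_permute, hsi, hsb, mul_inv_eq_iff_eq_mul] at h'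
      exact h'.symm
  have hl : ∀ k, Equiv.Perm.sign (blk k y.left) * Equiv.Perm.sign (blk (s k) y.left) = 1 := fun k => by
    have h' := congrArg (fun w : Wr => Equiv.Perm.sign (blk k w.left)) hy2
    simp only [mul_left, map_mul, blk_permute, one_left, map_one, hsi, show y.right⁻¹ = s from hsi] at h'
    exact h'
  have hf : ∀ k, ![Equiv.Perm.sign (blk 0 y.left), Equiv.Perm.sign (blk 1 y.left),
      Equiv.Perm.sign (blk 2 y.left)] k = Equiv.Perm.sign (blk k y.left) := fun k => by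
    fin_cases k <;> rfl
  refine parity_fact b s hsb hs2 hyr _ _ _ (fun k => by rw [hf, hf]; exact hl k) (by rw [hf]; exact hev) ?_
  exact (mem_K0 y).mp hy

/-- The representatives of elements inducing a three-cycle on blocks. -/
def rep (k : Fin 3) : Wr := ⟨cyc 0 ^ (k : ℕ), Equiv.swap 0 1 * Equiv.swap 1 2⟩

/-- The diagonal three-element. -/
def diag : P := cyc 0 * cyc 1 * cyc 2

theorem diag_allEven : AllEven diag :=
  allEven_mul (allEven_mul (cyc_allEven 0) (cyc_allEven 1)) (cyc_allEven 2)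

theorem diag_ne : diag ≠ 1 := by decide

theorem rep_mem (k : Fin 3) : rep k ∈ K0 := by
  rw [mem_K0]
  show sgn (cyc 0 ^ (k : ℕ)) *
    Equiv.Perm.sign (Equiv.swap (0 : Fin 3) 1 * Equiv.swap 1 2) = 1
  rw [map_pow, (show sgn (cyc 0) = 1 from cyc_mem 0), one_pow, one_mul]
  decide

theorem rep_nine (k : Fin 3) : rep k ^ 9 = 1 := by
  fin_cases k <;> exact SemidirectProduct.ext (by decide) (by decide)

theorem rep_diag (k : Fin 3) : rep k * inl diag = inl diag * rep k := by
  fin_cases k <;> exact SemidirectProduct.ext (by decide) (by decide)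

theorem comm_rep_left : ∀ k : Fin 3, ∀ a b c : Equiv.Perm (Fin 3),
    Equiv.Perm.sign a * Equiv.Perm.sign b * Equiv.Perm.sign c = 1 →
    (a, b, c) * cyc 0 ^ (k : ℕ) =
      cyc 0 ^ (k : ℕ) * permuteFun (Equiv.swap (0 : Fin 3) 1 * Equiv.swap 1 2)⁻¹ (a, b, c) →
    ∃ i : Fin 3, (a, b, c) = diag ^ (i : ℕ) := by decide

theorem comm_cc : ∀ s : Equiv.Perm (Fin 3),
    s * (Equiv.swap 0 1 * Equiv.swap 1 2) = Equiv.swap 0 1 * Equiv.swap 1 2 * s →
    ∃ i : Fin 3, s = (Equiv.swap 0 1 * Equiv.swap 1 2) ^ (i : ℕ) := by decide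

theorem centralizer_rep {k : Fin 3} {h : Wr} (hh : h ∈ K0) (hc : h * rep k = rep k * h) :
    ∃ i j : ℕ, h = rep k ^ i * (inl diag : Wr) ^ j := by
  obtain ⟨i, hi⟩ := comm_cc h.right (by
    have h' := congrArg SemidirectProduct.right hc
    simp only [mul_right] at h'
    exact h')
  set e := (rep k ^ (i : ℕ))⁻¹ * h with he
  have her : e.right = 1 := by
    simp only [he, mul_right, inv_right, hi]
    rw [show (rep k ^ (i : ℕ)).right = (rep k).right ^ (i : ℕ) from map_pow rightHom (rep k) i]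
    exact inv_mul_cancel _
  have hee : e = inl e.left := SemidirectProduct.ext (by simp) (by simp [her])
  have hem : e.left ∈ Ev := inl_mem_K0.mp (hee ▸ mul_mem (inv_mem (pow_mem (rep_mem k) _)) hh)
  have hec : e * rep k = rep k * e :=
    Commute.mul_left (Commute.inv_left (Commute.pow_left (Commute.refl _) _)) hc
  have hl := congrArg SemidirectProduct.left hec
  rw [hee] at hl
  simp only [mul_left, left_inl, right_inl, map_one, MulAut.one_apply] at hl
  obtain ⟨j, hj⟩ := comm_rep_left k e.left.1 e.left.2.1 e.left.2.2 ((mem_Ev _).mp hem) hl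
  refine ⟨i, j, ?_⟩
  have : h = rep k ^ (i : ℕ) * e := by rw [he, mul_inv_cancel_left]
  rw [this, hee, show e.left = diag ^ (j : ℕ) from hj, map_pow]

theorem cycle3 : ∀ s : Equiv.Perm (Fin 3), s ^ 3 = 1 → s ≠ 1 →
    s = Equiv.swap 0 1 * Equiv.swap 1 2 ∨
      Equiv.swap 0 1 * s * (Equiv.swap 0 1)⁻¹ = Equiv.swap 0 1 * Equiv.swap 1 2 := by decide

theorem conj_rep {w : Wr} (hw : w ∈ K0) (h3 : w.right ^ 3 = 1) (h1 : w.right ≠ 1) :
    ∃ n ∈ K0, ∃ k, n * w * n⁻¹ = rep k := by
  suffices h : ∀ v ∈ K0, v.right = Equiv.swap 0 1 * Equiv.swap 1 2 →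
      ∃ n ∈ K0, ∃ k, n * v * n⁻¹ = rep k by
    rcases cycle3 _ h3 h1 with e | e
    · exact h w hw e
    · obtain ⟨n, hn, k, hk⟩ := h (bswap * w * bswap⁻¹)
        (mul_mem (mul_mem bswap_mem hw) (inv_mem bswap_mem)) (by simpa [bswap] using e)
      exact ⟨n * bswap, mul_mem hn bswap_mem, k, by rw [← hk]; group⟩
  intro v hv hr
  have hs : Equiv.Perm.sign (blk 0 v.left) * Equiv.Perm.sign (blk 1 v.left) *
      Equiv.Perm.sign (blk 2 v.left) = 1 := by
    have := (mem_K0 v).mp hv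
    rw [hr, show Equiv.Perm.sign (Equiv.swap (0 : Fin 3) 1 * Equiv.swap 1 2) = 1 by decide,
      mul_one] at this
    exact this
  have hsel : ∀ a : ℤˣ, ∃ e : Equiv.Perm (Fin 3), Equiv.Perm.sign e = a := by decide
  obtain ⟨e₀, he₀⟩ := hsel (Equiv.Perm.sign (blk 2 v.left))
  set q := e₀ * (blk 0 v.left * blk 2 v.left * blk 1 v.left) * e₀⁻¹ with hq
  have hqs : Equiv.Perm.sign q = 1 := by
    simp only [hq, map_mul, map_inv]
    rw [mul_inv_cancel_comm, mul_right_comm, hs]
  obtain ⟨k, hk⟩ : ∃ k : Fin 3, q = (Equiv.swap 0 1 * Equiv.swap 1 2) ^ (k : ℕ) := by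
    rcases cycle_of_sign q hqs with h | h | h
    · exact ⟨0, by simpa using h⟩
    · exact ⟨1, by simpa using h⟩
    · exact ⟨2, by simpa using h⟩
  set e : P := (e₀, e₀ * (blk 1 v.left)⁻¹, e₀ * (blk 1 v.left)⁻¹ * (blk 2 v.left)⁻¹) with he
  have hem : e ∈ Ev := by
    rw [mem_Ev]
    show Equiv.Perm.sign e₀ * Equiv.Perm.sign (e₀ * (blk 1 v.left)⁻¹) *
      Equiv.Perm.sign (e₀ * (blk 1 v.left)⁻¹ * (blk 2 v.left)⁻¹) = 1
    simp only [map_mul, map_inv, he₀, Int.units_inv_eq_self]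
    have huu : ∀ a b : ℤˣ, a * (a * b) * (a * b * a) = 1 := by decide
    exact huu _ _
  refine ⟨inl e, inl_mem_K0.mpr hem, k, ?_⟩
  refine SemidirectProduct.ext (ext_blk fun i => ?_)
    (by simp only [rep, mul_right, right_inl, inv_right, one_mul, inv_one, mul_one, hr])
  have c0 : ((Equiv.swap (0 : Fin 3) 1 * Equiv.swap 1 2 : Equiv.Perm (Fin 3))⁻¹ : Equiv.Perm (Fin 3)) 0 = 2 := by decide
  have c1 : ((Equiv.swap (0 : Fin 3) 1 * Equiv.swap 1 2 : Equiv.Perm (Fin 3))⁻¹ : Equiv.Perm (Fin 3)) 1 = 0 := by decide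
  have c2 : ((Equiv.swap (0 : Fin 3) 1 * Equiv.swap 1 2 : Equiv.Perm (Fin 3))⁻¹ : Equiv.Perm (Fin 3)) 2 = 1 := by decide
  have b0 : blk 0 e = e₀ := rfl
  have b1 : blk 1 e = e₀ * (blk 1 v.left)⁻¹ := rfl
  have b2 : blk 2 e = e₀ * (blk 1 v.left)⁻¹ * (blk 2 v.left)⁻¹ := rfl
  simp only [rep, mul_left, mul_right, left_inl, right_inl, inv_left, inv_right, map_one,
    MulAut.one_apply, one_mul, inv_one, mul_one, hr]
  rw [map_mul, map_mul, blk_permute, map_inv, map_pow]
  rcases (show i = 0 ∨ i = 1 ∨ i = 2 by omega) with rfl | rfl | rfl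
  · rw [c0, b0, b2, show blk 0 (cyc 0) = Equiv.swap (0 : Fin 3) 1 * Equiv.swap 1 2 by decide, ← hk, hq]
    group
  · rw [c1, b0, b1, (cyc_blk 0 1).mpr (by decide), one_pow]
    group
  · rw [c2, b1, b2, (cyc_blk 0 2).mpr (by decide), one_pow]
    group

/-- The conditions on the inner part of an inverter. -/
def inverterTest (k : Fin 3) (x : P) : Bool :=
  decide (sgn x = -1) && decide (x * permuteFun (Equiv.swap (1 : Fin 3) 2)⁻¹ x = 1) &&
    decide (((⟨x, Equiv.swap 1 2⟩ : Wr) * rep k * (⟨x, Equiv.swap 1 2⟩ : Wr)).left = (rep k)⁻¹.left) &&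
    decide (((⟨x, Equiv.swap 1 2⟩ : Wr) * inl diag * (⟨x, Equiv.swap 1 2⟩ : Wr)).left =
      (inl diag : Wr)⁻¹.left)

theorem exists_inverter_left : ∀ k : Fin 3, ∃ x : P, inverterTest k x = true := by
  decide +kernel

theorem exists_inverter (k : Fin 3) : ∃ w ∈ K0, w * w = 1 ∧ w * rep k * w = (rep k)⁻¹ ∧
    w * inl diag * w = (inl diag : Wr)⁻¹ ∧ w.right = Equiv.swap 1 2 := by
  obtain ⟨x, hx⟩ := exists_inverter_left k
  simp only [inverterTest, Bool.and_eq_true, decide_eq_true_eq] at hx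
  obtain ⟨⟨⟨hs, h2⟩, hr⟩, hd⟩ := hx
  refine ⟨⟨x, Equiv.swap 1 2⟩, ?_, SemidirectProduct.ext h2 (Equiv.swap_mul_self _ _),
    SemidirectProduct.ext hr ?_, SemidirectProduct.ext hd ?_, rfl⟩
  · rw [mem_K0]
    show sgn x * Equiv.Perm.sign (Equiv.swap (1 : Fin 3) 2) = 1
    rw [hs]; decide
  · simp only [mul_right, inv_right, rep]; decide
  · simp only [mul_right, inv_right, right_inl]; decide

end Cfsg.Agent.Lib.Involution.SignThree
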