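import Cfsg.Agent.Lib.Involution.WreathFacts
import Cfsg.Agent.Lib.Involution.ThreeComplement
import Cfsg.Agent.Lib.Coprime.Action
import Cfsg.Prelude.Def_TwoFusion

/-!
# Local structure around a strongly closed `3³` with normalizer `3³:S₄`
-/

set_option autoImplicit false

open Subgroup SemidirectProduct

namespace Cfsg.Agent.Lib.Involution.SignThree

universe u

variable {G : Type u} [Group G] [Finite G]

/-- An embedded copy of `K0` whose three-core is strongly closed and controls centralizers. -/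
structure WData (f : K0 →* G) (J : Subgroup G) : Prop where
  inj : Function.Injective f
  memJ : ∀ x : G, x ∈ J ↔ ∃ m : K0, (m : Wr).right = 1 ∧ AllEven (m : Wr).left ∧ f m = x
  cent : ∀ j ∈ J, j ≠ 1 → centralizer ({j} : Set G) ≤ f.range
  closed : Cfsg.IsStronglyClosed J f.range

/-- The element of `K0` given by an element of `Ev`. -/
def lift (x : P) (hx : x ∈ Ev) : K0 := ⟨inl x, inl_mem_K0.mpr hx⟩

/-- The elements inducing a three-cycle on blocks. -/
def cycSet (f : K0 →* G) : Set G := {x | ∃ m : K0, orderOf (m : Wr).right = 3 ∧ f m = x}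

/-- The subgroup generated by the elements of order prime to three centralizing `a`. -/
def threeCompl (a : G) : Subgroup G :=
  Subgroup.closure {c : G | c ∈ centralizer ({a} : Set G) ∧ ¬ 3 ∣ orderOf c}

theorem threeCompl_conj (z a : G) {q : G} (hq : q ∈ threeCompl a) :
    z * q * z⁻¹ ∈ threeCompl (z * a * z⁻¹) := by
  have h : (threeCompl a).map (MulAut.conj z).toMonoidHom ≤ threeCompl (z * a * z⁻¹) := by
    rw [threeCompl, MonoidHom.map_closure, closure_le]
    rintro _ ⟨c, ⟨hc, hc3⟩, rfl⟩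
    refine subset_closure ⟨?_, ?_⟩
    · simp only [MulEquiv.coe_toMonoidHom, MulAut.conj_apply]
      rw [mem_centralizer_singleton_iff] at hc ⊢
      calc z * c * z⁻¹ * (z * a * z⁻¹) = z * (c * a) * z⁻¹ := by group
        _ = z * (a * c) * z⁻¹ := by rw [hc]
        _ = z * a * z⁻¹ * (z * c * z⁻¹) := by group
    · rwa [orderOf_injective _ (MulAut.conj z).injective]
  exact h ⟨q, hq, rfl⟩

theorem threeCompl_inv (a : G) : threeCompl a⁻¹ = threeCompl a := by
  simp only [threeCompl]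
  congr 1
  ext c
  simp only [Set.mem_setOf_eq, mem_centralizer_singleton_iff, and_congr_left_iff]
  exact fun _ => ⟨fun h => (Commute.inv_right_iff.mp h), fun h => Commute.inv_right h⟩

namespace WData

variable {f : K0 →* G} {J : Subgroup G} (D : WData f J)
include D

omit [Finite G] in
theorem le : J ≤ f.range := D.closed.1

omit [Finite G] in
theorem lift_mem {a : P} (ha : AllEven a) : f (lift a (allEven_mem ha)) ∈ J :=
  (D.memJ _).mpr ⟨_, by simp [lift], by simpa [lift] using ha, rfl⟩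

omit [Finite G] in
theorem lift_ne {a : P} (ha : a ∈ Ev) (ha1 : a ≠ 1) : f (lift a ha) ≠ 1 := fun h => by
  have := congrArg (fun m : K0 => (m : Wr).left) (D.inj (h.trans (map_one f).symm))
  exact ha1 (by simpa [lift] using this)

omit [Finite G] in
theorem exists_lift {j : G} (hj : j ∈ J) : ∃ a : P, ∃ ha : AllEven a, f (lift a (allEven_mem ha)) = j := by
  obtain ⟨m, hr, ha, rfl⟩ := (D.memJ j).mp hj
  exact ⟨(m : Wr).left, ha, congrArg f (Subtype.ext (SemidirectProduct.ext (by simp [lift]) (by simp [lift, hr])))⟩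

omit [Finite G] in
theorem cube {j : G} (hj : j ∈ J) : j ^ 3 = 1 := by
  obtain ⟨a, ha, rfl⟩ := D.exists_lift hj
  rw [← map_pow, show lift a (allEven_mem ha) ^ 3 = 1 from Subtype.ext (by
    show (inl a : Wr) ^ 3 = 1
    rw [← map_pow, allEven_cube ha, map_one]), map_one]

omit [Finite G] in
theorem comm {i j : G} (hi : i ∈ J) (hj : j ∈ J) : i * j = j * i := by
  obtain ⟨a, ha, rfl⟩ := D.exists_lift hi
  obtain ⟨b, hb, rfl⟩ := D.exists_lift hj
  rw [← map_mul, ← map_mul]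
  exact congrArg f (Subtype.ext (by
    show (inl a : Wr) * inl b = inl b * inl a
    rw [← map_mul, ← map_mul, allEven_comm ha hb]))

omit [Finite G] in
theorem image_le {j : G} (hj : j ∈ J) (hj1 : j ≠ 1) {g : G} (hg : g * j * g⁻¹ ∈ f.range) {i : G}
    (hi : i ∈ J) : g * i * g⁻¹ ∈ J := by
  have hy : g * j * g⁻¹ ∈ J := D.closed.2 j hj g hg
  refine D.closed.2 i hi g (D.cent _ hy (fun e => hj1 (by simpa using e)) ?_)
  rw [mem_centralizer_singleton_iff]
  calc g * i * g⁻¹ * (g * j * g⁻¹) = g * (i * j) * g⁻¹ := by group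
    _ = g * (j * i) * g⁻¹ := by rw [D.comm hi hj]
    _ = g * j * g⁻¹ * (g * i * g⁻¹) := by group

omit [Finite G] in
theorem normalizing_mem {g : G} (hg : ∀ i ∈ J, g * i * g⁻¹ ∈ J) : g ∈ f.range := by
  set t := f (lift (cyc 0) (cyc_mem 0)) with ht
  have htJ : t ∈ J := D.lift_mem (cyc_allEven 0)
  have ht1 : t ≠ 1 := D.lift_ne (cyc_mem 0) (fun h => by
    exact (cyc_blk 0 0).mp (by rw [h, map_one]) rfl)
  obtain ⟨a, ha, hae⟩ := D.exists_lift (hg t htJ)
  have ht' : g * t * g⁻¹ ≠ 1 := fun e => ht1 (by simpa using e)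
  have ha1 : a ≠ 1 := fun e => ht' (by
    rw [← hae, show lift a (allEven_mem ha) = 1 from Subtype.ext (by simp [lift, e]), map_one])
  have hv : g * f ⟨v0, v0_mem⟩ * g⁻¹ ∈ f.range := by
    refine D.cent _ (hg t htJ) ht' ?_
    rw [mem_centralizer_singleton_iff]
    have : f ⟨v0, v0_mem⟩ * t = t * f ⟨v0, v0_mem⟩ := by
      rw [ht, ← map_mul, ← map_mul]; exact congrArg f (Subtype.ext v0_comm)
    calc g * f ⟨v0, v0_mem⟩ * g⁻¹ * (g * t * g⁻¹) = g * (f ⟨v0, v0_mem⟩ * t) * g⁻¹ := by group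
      _ = g * (t * f ⟨v0, v0_mem⟩) * g⁻¹ := by rw [this]
      _ = g * t * g⁻¹ * (g * f ⟨v0, v0_mem⟩ * g⁻¹) := by group
  obtain ⟨w, hw⟩ := hv
  have hww : f (w * w) = g * f (lift (inv2 0) (inv2_mem 0)) * g⁻¹ := by
    rw [map_mul, hw, show lift (inv2 0) (inv2_mem 0) = (⟨v0, v0_mem⟩ : K0) * ⟨v0, v0_mem⟩ from
      Subtype.ext v0_sq.symm, map_mul]
    group
  have h22 : (inl (inv2 0) : Wr) * inl (inv2 0) = 1 := by
    rw [← map_mul, ← pow_two, (inv2_sq 0).1, map_one]
  have hinv : (w * w) * (w * w) = 1 := D.inj (by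
    rw [map_mul, hww, map_one]
    calc g * f (lift (inv2 0) (inv2_mem 0)) * g⁻¹ * (g * f (lift (inv2 0) (inv2_mem 0)) * g⁻¹)
        = g * (f (lift (inv2 0) (inv2_mem 0) * lift (inv2 0) (inv2_mem 0))) * g⁻¹ := by rw [map_mul]; group
      _ = 1 := by
        rw [show lift (inv2 0) (inv2_mem 0) * lift (inv2 0) (inv2_mem 0) = 1 from Subtype.ext h22,
          map_one]
        group)
  have hne : w * w ≠ 1 := fun e => by
    rw [e, map_one] at hww
    exact D.lift_ne (inv2_mem 0) (inv2_sq 0).2.1 (by simpa using hww.symm)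
  have hr : ((w * w : K0) : Wr).right = 1 := square_involution_right (congrArg Subtype.val hinv)
  set m := ((w * w : K0) : Wr).left with hm
  have hwm : ((w * w : K0) : Wr) = inl m := SemidirectProduct.ext (by simp [hm]) (by rw [right_inl, hr])
  have hmEv : m ∈ Ev := inl_mem_K0.mp (hwm ▸ (w * w).2)
  have hm2 : m * m = 1 := inl_injective (φ := permute) (by
    rw [map_mul, ← hwm, map_one]; exact congrArg Subtype.val hinv)
  have hm1 : m ≠ 1 := fun e => hne (Subtype.ext (by rw [hwm, e, map_one]; rfl))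
  have hc : a * m = m * a := inl_injective (φ := permute) (by
    rw [map_mul, map_mul, ← hwm]
    refine congrArg Subtype.val (D.inj (a₁ := lift a (allEven_mem ha) * (w * w))
      (a₂ := w * w * lift a (allEven_mem ha)) ?_)
    rw [map_mul, map_mul _ (w * w), hww, hae]
    have : t * f (lift (inv2 0) (inv2_mem 0)) = f (lift (inv2 0) (inv2_mem 0)) * t := by
      rw [ht, ← map_mul, ← map_mul]
      exact congrArg f (Subtype.ext (show (inl (cyc 0) : Wr) * inl (inv2 0) = inl (inv2 0) * inl (cyc 0) by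
        rw [← map_mul, ← map_mul, cyc_comm_inv2]))
    calc g * t * g⁻¹ * (g * f (lift (inv2 0) (inv2_mem 0)) * g⁻¹)
        = g * (t * f (lift (inv2 0) (inv2_mem 0))) * g⁻¹ := by group
      _ = g * (f (lift (inv2 0) (inv2_mem 0)) * t) * g⁻¹ := by rw [this]
      _ = g * f (lift (inv2 0) (inv2_mem 0)) * g⁻¹ * (g * t * g⁻¹) := by group)
  obtain ⟨n, hn, hne'⟩ := axis_of_comm ha ha1 hmEv hm2 hm1 hc
  have hnt : f ⟨n, hn⟩ * (g * t * g⁻¹) * (f ⟨n, hn⟩)⁻¹ = t := by
    rw [← hae, ← map_inv, ← map_mul, ← map_mul, ht]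
    exact congrArg f (Subtype.ext hne')
  have : f ⟨n, hn⟩ * g ∈ f.range := D.cent t htJ ht1 (by
    rw [mem_centralizer_singleton_iff]
    calc f ⟨n, hn⟩ * g * t = f ⟨n, hn⟩ * (g * t * g⁻¹) * (f ⟨n, hn⟩)⁻¹ * (f ⟨n, hn⟩ * g) := by group
      _ = t * (f ⟨n, hn⟩ * g) := by rw [hnt])
  simpa using mul_mem (inv_mem (⟨_, rfl⟩ : f ⟨n, hn⟩ ∈ f.range)) this

omit [Finite G] in
theorem control {j : G} (hj : j ∈ J) (hj1 : j ≠ 1) {g : G} (hg : g * j * g⁻¹ ∈ f.range) : g ∈ f.range :=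
  D.normalizing_mem fun _ hi => D.image_le hj hj1 hg hi

theorem three_le {R : Subgroup G} (hR : IsPGroup 3 R) {d : G} (hd : d ∈ J) (hd1 : d ≠ 1)
    (hdR : d ∈ R) : R ≤ f.range := by
  haveI : Fact (Nat.Prime 3) := ⟨Nat.prime_three⟩
  haveI := hR.isNilpotent
  set S := f.range.subgroupOf R
  by_contra hle
  have hS : S < ⊤ := lt_top_iff_ne_top.mpr fun h => hle fun x hx => mem_subgroupOf.mp
    (h ▸ mem_top (⟨x, hx⟩ : R) : (⟨x, hx⟩ : R) ∈ S)
  obtain ⟨g, hgN, hgS⟩ := SetLike.exists_of_lt (Group.normalizerCondition_of_isNilpotent S hS)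
  refine hgS (mem_subgroupOf.mpr (D.control hd hd1 ?_))
  exact mem_subgroupOf.mp ((mem_normalizer_iff.mp hgN ⟨d, hdR⟩).mp (mem_subgroupOf.mpr (D.le hd)))

theorem exists_sylow_conj_mem {C : Subgroup G} {s t : G} (hs : s ∈ J) (hs1 : s ≠ 1) (hsC : s ∈ C)
    (htC : t ∈ C) (ht3 : t ^ 3 = 1) : ∃ c ∈ C, c * t * c⁻¹ ∈ f.range := by
  haveI : Fact (Nat.Prime 3) := ⟨Nat.prime_three⟩
  have hp3 : ∀ x : C, x ^ 3 = 1 → IsPGroup 3 (zpowers x) := fun x hx y => ⟨1, by
    obtain ⟨y, k, rfl⟩ := y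
    refine Subtype.ext ?_
    show (x ^ k) ^ 3 ^ 1 = 1
    rw [pow_one, ← zpow_natCast, ← zpow_mul, mul_comm, zpow_mul, zpow_natCast, hx, one_zpow]⟩
  obtain ⟨Q, hQ⟩ := (hp3 ⟨s, hsC⟩ (Subtype.ext (D.cube hs))).exists_le_sylow
  obtain ⟨Q', hQ'⟩ := (hp3 ⟨t, htC⟩ (Subtype.ext ht3)).exists_le_sylow
  have hQH : (Q : Subgroup C).map C.subtype ≤ f.range :=
    D.three_le (Q.isPGroup'.map C.subtype) hs hs1 ⟨⟨s, hsC⟩, hQ (mem_zpowers _), rfl⟩
  obtain ⟨c, hc⟩ := MulAction.exists_smul_eq C Q' Q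
  refine ⟨c, c.2, hQH ⟨c * ⟨t, htC⟩ * c⁻¹, ?_, by simp⟩⟩
  rw [← hc, Sylow.coe_subgroup_smul]
  exact Subgroup.smul_mem_pointwise_smul _ (MulAut.conj c) _ (hQ' (mem_zpowers _))

theorem htype (m : K0) (hm : IsConj (f m) (f (lift (inv2 0) (inv2_mem 0)))) : (m : Wr).right = 1 := by
  by_contra hr
  set u := f (lift (inv2 0) (inv2_mem 0)) with hu
  obtain ⟨g, hg⟩ := isConj_iff.mp hm.symm
  have hu2 : u * u = 1 := by
    rw [hu, ← map_mul, show lift (inv2 0) (inv2_mem 0) * lift (inv2 0) (inv2_mem 0) = 1 from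
      Subtype.ext (by show (inl (inv2 0) : Wr) * inl (inv2 0) = 1
                      rw [← map_mul, ← pow_two, (inv2_sq 0).1, map_one]), map_one]
  have hm2 : m * m = 1 := D.inj (by
    rw [map_mul, ← hg, map_one]
    calc g * u * g⁻¹ * (g * u * g⁻¹) = g * (u * u) * g⁻¹ := by group
      _ = 1 := by rw [hu2]; group)
  obtain ⟨a, ha, ha1, hac⟩ := exists_comm (congrArg Subtype.val hm2) hr
  set t := f (lift (cyc 0) (cyc_mem 0)) with ht
  have htJ : t ∈ J := D.lift_mem (cyc_allEven 0)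
  have ht1 : t ≠ 1 := D.lift_ne (cyc_mem 0) (fun h => by
    exact (cyc_blk 0 0).mp (by rw [h, map_one]) rfl)
  have hsC : f (lift a (allEven_mem ha)) ∈ centralizer ({f m} : Set G) := by
    rw [mem_centralizer_singleton_iff, ← map_mul, ← map_mul]
    exact congrArg f (Subtype.ext hac.symm)
  have htC : g * t * g⁻¹ ∈ centralizer ({f m} : Set G) := by
    rw [mem_centralizer_singleton_iff, ← hg]
    have : t * u = u * t := by
      rw [ht, hu, ← map_mul, ← map_mul]
      exact congrArg f (Subtype.ext (show (inl (cyc 0) : Wr) * inl (inv2 0) = inl (inv2 0) * inl (cyc 0) by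
        rw [← map_mul, ← map_mul, cyc_comm_inv2]))
    calc g * t * g⁻¹ * (g * u * g⁻¹) = g * (t * u) * g⁻¹ := by group
      _ = g * (u * t) * g⁻¹ := by rw [this]
      _ = g * u * g⁻¹ * (g * t * g⁻¹) := by group
  obtain ⟨c, hc, hcH⟩ := D.exists_sylow_conj_mem (D.lift_mem ha) (D.lift_ne (allEven_mem ha) ha1) hsC htC
    (by rw [conj_pow, D.cube htJ]; group)
  have hcg : c * g * t * (c * g)⁻¹ ∈ f.range := by convert hcH using 1; group
  obtain ⟨n, hn⟩ := D.control htJ ht1 hcg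
  have hcomm : (n * lift (cyc 0) (cyc_mem 0) * n⁻¹) * m = m * (n * lift (cyc 0) (cyc_mem 0) * n⁻¹) := by
    refine D.inj ?_
    simp only [map_mul, map_inv, hn, ← ht]
    have h1 := mem_centralizer_singleton_iff.mp (mul_mem (mul_mem hc htC) (inv_mem hc))
    calc c * g * t * (c * g)⁻¹ * f m = c * (g * t * g⁻¹) * c⁻¹ * f m := by group
      _ = f m * (c * (g * t * g⁻¹) * c⁻¹) := h1
      _ = f m * (c * g * t * (c * g)⁻¹) := by group
  have h := congrArg Subtype.val hcomm
  simp only [Subgroup.coe_mul, Subgroup.coe_inv, lift, conj_inl] at h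
  exact no_axis_comm m.2 (congrArg Subtype.val hm2) hr n 0 h.symm

omit [Finite G] in
theorem rep_local (k : Fin 3) (x : G) :
    x ∈ f.range ⊓ centralizer ({f ⟨rep k, rep_mem k⟩} : Set G) ↔ ∃ i j : ℕ,
      x = f ⟨rep k, rep_mem k⟩ ^ i * f (lift diag (allEven_mem diag_allEven)) ^ j := by
  constructor
  · rintro ⟨⟨n, rfl⟩, hc⟩
    have hc' := mem_centralizer_singleton_iff.mp hc
    rw [← map_mul, ← map_mul] at hc'
    obtain ⟨i, j, hij⟩ := centralizer_rep n.2 (congrArg Subtype.val (D.inj hc'))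
    refine ⟨i, j, ?_⟩
    rw [← map_pow, ← map_pow, ← map_mul]
    exact congrArg f (Subtype.ext (by simpa [lift] using hij))
  · rintro ⟨i, j, rfl⟩
    refine Subgroup.mem_inf.mpr ⟨mul_mem (pow_mem (⟨_, rfl⟩ : f ⟨rep k, rep_mem k⟩ ∈ f.range) i)
      (pow_mem (⟨_, rfl⟩ : f (lift diag (allEven_mem diag_allEven)) ∈ f.range) j),
      mem_centralizer_singleton_iff.mpr ?_⟩
    have : Commute (f (lift diag (allEven_mem diag_allEven))) (f ⟨rep k, rep_mem k⟩) := by
      unfold Commute SemiconjBy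
      rw [← map_mul, ← map_mul]
      exact congrArg f (Subtype.ext (rep_diag k).symm)
    exact Commute.mul_left (Commute.pow_left (Commute.refl _) i) (this.pow_left j)

omit [Finite G] in
theorem exists_rep {a : G} (ha : a ∈ cycSet f) :
    ∃ n : K0, ∃ k, f n * a * (f n)⁻¹ = f ⟨rep k, rep_mem k⟩ := by
  obtain ⟨m, hm, rfl⟩ := ha
  obtain ⟨n, hn, k, hk⟩ := conj_rep m.2 (orderOf_dvd_iff_pow_eq_one.mp (dvd_of_eq hm))
    (fun e => by rw [e, orderOf_one] at hm; omega)
  refine ⟨⟨n, hn⟩, k, ?_⟩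
  rw [← map_inv, ← map_mul, ← map_mul]
  exact congrArg f (Subtype.ext hk)

omit [Finite G] in
theorem local_data {a : G} (ha : a ∈ cycSet f) :
    IsPGroup 3 ↥(f.range ⊓ centralizer ({a} : Set G)) ∧
      (∀ x ∈ f.range ⊓ centralizer ({a} : Set G), ∀ y ∈ f.range ⊓ centralizer ({a} : Set G), x * y = y * x) ∧
      ∃ d ∈ J, d ≠ 1 ∧ d ∈ centralizer ({a} : Set G) := by
  obtain ⟨n, k, hk⟩ := D.exists_rep ha
  set z := f n with hz
  set r := f ⟨rep k, rep_mem k⟩ with hr
  set d := f (lift diag (allEven_mem diag_allEven)) with hd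
  have hrd : Commute r d := by
    unfold Commute SemiconjBy
    rw [hr, hd, ← map_mul, ← map_mul]
    exact congrArg f (Subtype.ext (rep_diag k))
  have hmove : ∀ x ∈ f.range ⊓ centralizer ({a} : Set G), ∃ i j : ℕ, z * x * z⁻¹ = r ^ i * d ^ j := by
    rintro x ⟨hx, hxc⟩
    refine (D.rep_local k _).mp (Subgroup.mem_inf.mpr
      ⟨mul_mem (mul_mem ⟨n, rfl⟩ hx) (inv_mem (⟨n, rfl⟩ : z ∈ f.range)), ?_⟩)
    rw [mem_centralizer_singleton_iff, ← hr, ← hk]
    have := mem_centralizer_singleton_iff.mp hxc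
    calc z * x * z⁻¹ * (z * a * z⁻¹) = z * (x * a) * z⁻¹ := by group
      _ = z * (a * x) * z⁻¹ := by rw [this]
      _ = z * a * z⁻¹ * (z * x * z⁻¹) := by group
  refine ⟨fun x => ⟨2, ?_⟩, fun x hx y hy => ?_, z⁻¹ * d * z, ?_, ?_, ?_⟩
  · obtain ⟨i, j, hij⟩ := hmove x x.2
    have h9 : (r ^ i * d ^ j) ^ 9 = 1 := by
      rw [(hrd.pow_pow i j).mul_pow, ← pow_mul, ← pow_mul, mul_comm i 9, mul_comm j 9, pow_mul, pow_mul]
      rw [show r ^ 9 = 1 by rw [hr, ← map_pow, show (⟨rep k, rep_mem k⟩ : K0) ^ 9 = 1 from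
        Subtype.ext (rep_nine k), map_one],
        show d ^ 9 = 1 by rw [show 9 = 3 * 3 by norm_num, pow_mul, D.cube (D.lift_mem diag_allEven), one_pow],
        one_pow, one_pow, one_mul]
    rw [← hij, conj_pow] at h9
    refine Subtype.ext ?_
    show (x : G) ^ (3 ^ 2) = 1
    simpa using h9
  · obtain ⟨i, j, hx'⟩ := hmove x hx
    obtain ⟨i', j', hy'⟩ := hmove y hy
    have hcm : Commute (r ^ i * d ^ j) (r ^ i' * d ^ j') :=
      Commute.mul_left (Commute.mul_right (Commute.pow_pow (Commute.refl r) _ _) (hrd.pow_pow _ _))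
        (Commute.mul_right (hrd.symm.pow_pow _ _) (Commute.pow_pow (Commute.refl d) _ _))
    rw [← hx', ← hy'] at hcm
    have e : z * (x * y) * z⁻¹ = z * (y * x) * z⁻¹ := by
      calc z * (x * y) * z⁻¹ = z * x * z⁻¹ * (z * y * z⁻¹) := by group
        _ = z * y * z⁻¹ * (z * x * z⁻¹) := hcm.eq
        _ = z * (y * x) * z⁻¹ := by group
    exact mul_left_cancel (mul_right_cancel e)
  · have := D.closed.2 d (D.lift_mem diag_allEven) z⁻¹
      (mul_mem (mul_mem (inv_mem ⟨n, rfl⟩) ⟨_, rfl⟩) (inv_mem (inv_mem ⟨n, rfl⟩)))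
    simpa using this
  · intro e
    have : d = z * (z⁻¹ * d * z) * z⁻¹ := by group
    rw [e] at this
    exact D.lift_ne (allEven_mem diag_allEven) diag_ne (this.trans (by group))
  · rw [mem_centralizer_singleton_iff]
    have : a = z⁻¹ * r * z := by rw [← hk]; group
    rw [this]
    calc z⁻¹ * d * z * (z⁻¹ * r * z) = z⁻¹ * (d * r) * z := by group
      _ = z⁻¹ * (r * d) * z := by rw [hrd.eq]
      _ = z⁻¹ * r * z * (z⁻¹ * d * z) := by group

theorem compl {a : G} (ha : a ∈ cycSet f) :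
    threeCompl a ≤ centralizer ({a} : Set G) ∧ ¬ 3 ∣ Nat.card (threeCompl a) ∧
      threeCompl a ⊓ (f.range ⊓ centralizer ({a} : Set G)) = ⊥ ∧
      threeCompl a ⊔ (f.range ⊓ centralizer ({a} : Set G)) = centralizer ({a} : Set G) := by
  haveI : Fact (Nat.Prime 3) := ⟨Nat.prime_three⟩
  obtain ⟨hp, hcomm, d, hd, hd1, hdc⟩ := D.local_data ha
  have hdP : d ∈ f.range ⊓ centralizer ({a} : Set G) := ⟨D.le hd, hdc⟩
  refine complement_closure inf_le_right hp (fun R hR hPR hRC => le_antisymm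
    (le_inf (D.three_le hR hd hd1 (hPR hdP)) hRC) hPR) fun g hg hgP x hx => ?_
  exact hcomm g ⟨D.control hd hd1 (hgP d hdP).1, hg⟩ x hx

theorem not_inverted_rep (k : Fin 3) {x : G}
    (hx : IsConj x (f (lift (inv2 0) (inv2_mem 0))))
    (hinv : x * f ⟨rep k, rep_mem k⟩ * x⁻¹ = (f ⟨rep k, rep_mem k⟩)⁻¹) : False := by
  haveI : Fact (Nat.Prime 3) := ⟨Nat.prime_three⟩
  obtain ⟨g, hg⟩ := isConj_iff.mp hx.symm
  have hu2 : f (lift (inv2 0) (inv2_mem 0)) * f (lift (inv2 0) (inv2_mem 0)) = 1 := by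
    rw [← map_mul, show lift (inv2 0) (inv2_mem 0) * lift (inv2 0) (inv2_mem 0) = 1 from
      Subtype.ext (by show (inl (inv2 0) : Wr) * inl (inv2 0) = 1
                      rw [← map_mul, ← pow_two, (inv2_sq 0).1, map_one]), map_one]
  have hx2 : x * x = 1 := by
    rw [← hg]
    calc g * f (lift (inv2 0) (inv2_mem 0)) * g⁻¹ * (g * f (lift (inv2 0) (inv2_mem 0)) * g⁻¹)
        = g * (f (lift (inv2 0) (inv2_mem 0)) * f (lift (inv2 0) (inv2_mem 0))) * g⁻¹ := by group
      _ = 1 := by rw [hu2]; group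
  obtain ⟨w₀, hw₀, hw2, hwr, hwd, hwright⟩ := exists_inverter k
  set r := f ⟨rep k, rep_mem k⟩ with hr
  set d := f (lift diag (allEven_mem diag_allEven)) with hd
  set w := f ⟨w₀, hw₀⟩ with hw
  have hww : w * w = 1 := by
    rw [hw, ← map_mul, show (⟨w₀, hw₀⟩ : K0) * ⟨w₀, hw₀⟩ = 1 from Subtype.ext hw2, map_one]
  have hwrw : w * r * w = r⁻¹ := by
    rw [hw, hr, ← map_inv, ← map_mul, ← map_mul]
    exact congrArg f (Subtype.ext hwr)
  have hwdw : w * d * w = d⁻¹ := by
    rw [hw, hd, ← map_inv, ← map_mul, ← map_mul]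
    exact congrArg f (Subtype.ext hwd)
  have hwi : w⁻¹ = w := inv_eq_of_mul_eq_one_right hww
  have ha : r ∈ cycSet f := ⟨_, by
    show orderOf (Equiv.swap (0 : Fin 3) 1 * Equiv.swap 1 2) = 3
    exact orderOf_eq_prime (by decide) (by decide), rfl⟩
  have hcomp := D.compl ha
  obtain ⟨hQC, -, hQP, hsup⟩ := hcomp
  set Q := threeCompl r
  set Pc := f.range ⊓ centralizer ({r} : Set G)
  have hQn : ∀ c ∈ centralizer ({r} : Set G), ∀ q ∈ Q, c * q * c⁻¹ ∈ Q := fun c hc q hq => by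
    have := threeCompl_conj c r hq
    rwa [show c * r * c⁻¹ = r by rw [mem_centralizer_singleton_iff.mp hc, mul_inv_cancel_right]] at this
  have hnle : Pc ≤ normalizer (Q : Set G) := fun c hc => by
    rw [mem_normalizer_iff]
    intro q
    refine ⟨hQn c hc.2 q, fun h => ?_⟩
    have := hQn c⁻¹ (inv_mem hc.2) _ h
    simpa [mul_assoc] using this
  have hxw : x * w ∈ centralizer ({r} : Set G) := by
    rw [mem_centralizer_singleton_iff]
    have hwr' : w * r = r⁻¹ * w := by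
      calc w * r = w * r * (w * w) := by rw [hww, mul_one]
        _ = w * r * w * w := by group
        _ = r⁻¹ * w := by rw [hwrw]
    have hxr : x * r⁻¹ = r * x := by
      have h := congrArg (·⁻¹) hinv
      simp only [mul_inv_rev, inv_inv] at h
      calc x * r⁻¹ = x * (r⁻¹ * x⁻¹) * x := by group
        _ = r * x := by rw [h]
    calc x * w * r = x * (w * r) := by group
      _ = x * r⁻¹ * w := by rw [hwr']; group
      _ = r * (x * w) := by rw [hxr]; group
  rw [← hsup, sup_comm] at hxw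
  obtain ⟨e, he, q₀, hq₀, heq⟩ := (Lib.Coprime.mem_sup_of_le_normalizer hnle).mp hxw
  obtain ⟨q, hq, hqe⟩ : ∃ q ∈ Q, q * e = x * w :=
    ⟨e * q₀ * e⁻¹, hQn e he.2 q₀ hq₀, by rw [inv_mul_cancel_right, heq]⟩
  obtain ⟨i, j, rfl⟩ := (D.rep_local k e).mp he
  set w' := r ^ i * d ^ j * w with hw'
  have hrd : Commute r d := by
    unfold Commute SemiconjBy
    rw [hr, hd, ← map_mul, ← map_mul]
    exact congrArg f (Subtype.ext (rep_diag k))
  have hconjw : w * (r ^ i * d ^ j) * w = (r ^ i * d ^ j)⁻¹ := by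
    have e1 : w * (r ^ i * d ^ j) * w⁻¹ = (w * r * w⁻¹) ^ i * (w * d * w⁻¹) ^ j := by
      rw [conj_pow, conj_pow]; group
    rw [hwi] at e1
    rw [e1, hwrw, hwdw, inv_pow, inv_pow, ← mul_inv_rev, (hrd.pow_pow i j).eq]
  have hw'2 : w' * w' = 1 := by
    calc w' * w' = r ^ i * d ^ j * (w * (r ^ i * d ^ j) * w) := by rw [hw']; group
      _ = 1 := by rw [hconjw, mul_inv_cancel]
  have hxq : x = q * w' := by
    calc x = x * w * w := by rw [mul_assoc, hww, mul_one]
      _ = q * (r ^ i * d ^ j) * w := by rw [← hqe]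
      _ = q * w' := by rw [hw']; group
  have hdP : d ∈ Pc := (D.rep_local k d).mpr ⟨0, 1, by simp [hd]⟩
  have hwq : w' * q * w' = q⁻¹ := by
    have h1 : q * w' * (q * w') = 1 := by rw [← hxq]; exact hx2
    calc w' * q * w' = q⁻¹ * (q * w' * (q * w')) := by group
      _ = q⁻¹ := by rw [h1, mul_one]
  have hw'd : w' * d * w' = d⁻¹ := by
    have hc : Commute (r ^ i * d ^ j) d⁻¹ :=
      Commute.inv_right (Commute.mul_left (hrd.pow_left i) (Commute.pow_left (Commute.refl d) j))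
    calc w' * d * w' = r ^ i * d ^ j * (w * d * w) * (w * (r ^ i * d ^ j) * w) := by
          rw [hw']
          have hww' : ∀ y : G, w * (w * y) = y := fun y => by rw [← mul_assoc, hww, one_mul]
          simp only [mul_assoc, hww']
      _ = r ^ i * d ^ j * d⁻¹ * (r ^ i * d ^ j)⁻¹ := by rw [hwdw, hconjw]
      _ = d⁻¹ := by rw [hc.eq, mul_inv_cancel_right]
  obtain ⟨s, hs⟩ := inverted_conj (Q := Q) (fun y hy => hQn d hdP.2 y hy)
    (fun y hy => by simpa using hQn d⁻¹ (inv_mem hdP.2) y hy)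
    (fun y hy hyd => by
      have hyH : y ∈ f.range := D.cent d (D.lift_mem diag_allEven)
        (D.lift_ne (allEven_mem diag_allEven) diag_ne)
        (mem_centralizer_singleton_iff.mpr hyd.symm)
      have : y ∈ Q ⊓ Pc := ⟨hy, hyH, hQC hy⟩
      rwa [hQP, mem_bot] at this)
    (D.cube (D.lift_mem diag_allEven)) hq hw'2 hw'd hwq
  set n : K0 := ⟨rep k, rep_mem k⟩ ^ i * lift diag (allEven_mem diag_allEven) ^ j * ⟨w₀, hw₀⟩ with hn
  have hfn : f n = w' := by rw [hn, hw', map_mul, map_mul, map_pow, map_pow]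
  have hr1 := D.htype n (by
    rw [hfn]
    exact (isConj_iff.mpr ⟨s, hs.trans hxq.symm⟩ : IsConj w' x).trans hx)
  have hsign : Equiv.Perm.sign (n : Wr).right = -1 := by
    simp only [hn, lift, Subgroup.coe_mul, Subgroup.coe_pow, mul_right, hwright]
    rw [show ((rep k) ^ i).right = (rep k).right ^ i from map_pow rightHom (rep k) i,
      show ((inl diag : Wr) ^ j).right = (inl diag : Wr).right ^ j from map_pow rightHom (inl diag : Wr) j,
      right_inl, one_pow, mul_one, map_mul, map_pow]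
    rw [show Equiv.Perm.sign (rep k).right = 1 from
      (show Equiv.Perm.sign (Equiv.swap (0 : Fin 3) 1 * Equiv.swap 1 2) = 1 by decide), one_pow, one_mul]
    decide
  rw [hr1] at hsign
  exact absurd hsign (by decide)

end WData

end Cfsg.Agent.Lib.Involution.SignThree
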