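import Cfsg.Agent.Lib.Involution.WreathLocal
import Cfsg.Agent.Lib.Involution.WeightZero
import Cfsg.Agent.Lib.Dade.Virtual
import Cfsg.Agent.Lib.Dade.Lattice

/-!
# A group with such a strongly closed `3³` equals the normalizer
-/

set_option autoImplicit false

open Subgroup SemidirectProduct
open scoped ComplexConjugate

namespace Cfsg.Agent.Lib.Involution.SignThree

open Cfsg Cfsg.Agent.Lib.Char Cfsg.Agent.Lib.CharTools Cfsg.Agent.Lib.Dade

theorem axis_commutator : ∀ j : Fin 3, j ≠ 0 →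
    inv2 0 * cyc j * (inv2 0)⁻¹ * (cyc j)⁻¹ = cyc j := by decide

theorem even_cycle : ∀ s : Equiv.Perm (Fin 3), Equiv.Perm.sign s = 1 →
    ∃ i : Fin 3, s = (Equiv.swap 0 1 * Equiv.swap 1 2) ^ (i : ℕ) := by decide

theorem orderOf_three_iff : ∀ s : Equiv.Perm (Fin 3),
    (s ^ 3 = 1 ∧ s ≠ 1) ↔ supportFun s ≠ 0 := fun s => (supportFun_ne_zero s).symm

theorem allEven_decomp {a : P} (ha : AllEven a) :
    ∃ i j k : Fin 3, a = cyc 0 ^ (i : ℕ) * cyc 1 ^ (j : ℕ) * cyc 2 ^ (k : ℕ) := by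
  obtain ⟨i, hi⟩ := even_cycle _ (ha 0)
  obtain ⟨j, hj⟩ := even_cycle _ (ha 1)
  obtain ⟨k, hk⟩ := even_cycle _ (ha 2)
  refine ⟨i, j, k, ext_blk fun l => ?_⟩
  simp only [map_mul, map_pow]
  rcases (show l = 0 ∨ l = 1 ∨ l = 2 by omega) with rfl | rfl | rfl
  · simpa [blk, cyc] using hi
  · simpa [blk, cyc] using hj
  · simpa [blk, cyc] using hk

theorem orderOf_cc : orderOf (Equiv.swap (0 : Fin 3) 1 * Equiv.swap 1 2) = 3 :=
  haveI : Fact (Nat.Prime 3) := ⟨Nat.prime_three⟩
  orderOf_eq_prime (by decide) (by decide)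

universe u

variable {G : Type u} [Group G] [Finite G] {f : K0 →* G} {J : Subgroup G}

namespace WData

variable (D : WData f J)
include D

theorem not_inverted {a x : G} (ha : a ∈ cycSet f) (hx : IsConj x (f (lift (inv2 0) (inv2_mem 0))))
    (hinv : x * a * x⁻¹ = a⁻¹) : False := by
  obtain ⟨n, k, hk⟩ := D.exists_rep ha
  refine D.not_inverted_rep k (x := f n * x * (f n)⁻¹)
    ((isConj_iff.mpr ⟨f n, rfl⟩ : IsConj x (f n * x * (f n)⁻¹)).symm.trans hx) ?_
  rw [← hk]
  calc f n * x * (f n)⁻¹ * (f n * a * (f n)⁻¹) * (f n * x * (f n)⁻¹)⁻¹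
      = f n * (x * a * x⁻¹) * (f n)⁻¹ := by group
    _ = (f n * a * (f n)⁻¹)⁻¹ := by rw [hinv]; group

theorem inv_cycSet {a : G} (ha : a ∈ cycSet f) : a⁻¹ ∈ cycSet f := by
  obtain ⟨m, hm, rfl⟩ := ha
  exact ⟨m⁻¹, by rw [Subgroup.coe_inv, inv_right, orderOf_inv]; exact hm, map_inv f m⟩

theorem dadeHyp : DadeHypothesis (cycSet f) f.range threeCompl where
  one_not_mem := by
    rintro ⟨m, hm, he⟩
    rw [D.inj (he.trans (map_one f).symm)] at hm
    simp at hm
  subset := fun x ⟨m, _, he⟩ => ⟨m, he⟩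
  conj_mem := by
    rintro _ ⟨l, rfl⟩ _ ⟨m, hm, rfl⟩
    refine ⟨l * m * l⁻¹, ?_, by simp⟩
    simp only [Subgroup.coe_mul, Subgroup.coe_inv, mul_right, inv_right]
    exact (orderOf_injective (MulAut.conj (l : Wr).right).toMonoidHom (MulAut.conj (l : Wr).right).injective
      (m : Wr).right).trans hm
  fusion := by
    intro a ha g hg
    obtain ⟨-, -, d, hd, hd1, hdc⟩ := D.local_data ha
    obtain ⟨-, -, d', hd', hd'1, hd'c⟩ := D.local_data hg
    have hgd : g * d * g⁻¹ ∈ centralizer ({g * a * g⁻¹} : Set G) := by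
      rw [mem_centralizer_singleton_iff] at hdc ⊢
      calc g * d * g⁻¹ * (g * a * g⁻¹) = g * (d * a) * g⁻¹ := by group
        _ = g * (a * d) * g⁻¹ := by rw [hdc]
        _ = g * a * g⁻¹ * (g * d * g⁻¹) := by group
    obtain ⟨c, hc, hcH⟩ := D.exists_sylow_conj_mem hd' hd'1 hd'c hgd (by rw [conj_pow, D.cube hd]; group)
    refine ⟨c * g, D.control hd hd1 (by convert hcH using 1; group), ?_⟩
    rw [mem_centralizer_singleton_iff] at hc
    calc c * g * a * (c * g)⁻¹ = c * (g * a * g⁻¹) * c⁻¹ := by group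
      _ = g * a * g⁻¹ := by rw [hc, mul_inv_cancel_right]
  le_centralizer := fun a ha => (D.compl ha).1
  conj_mem_H := fun a _ c hc u hu => by
    have := threeCompl_conj c a hu
    rwa [mem_centralizer_singleton_iff.mp hc, mul_inv_cancel_right] at this
  inf_eq_bot := fun a ha => (D.compl ha).2.2.1
  sup_eq := fun a ha => (D.compl ha).2.2.2
  coprime := fun a ha b hb => by
    haveI : Fact (Nat.Prime 3) := ⟨Nat.prime_three⟩
    obtain ⟨n, hn⟩ := IsPGroup.iff_card.mp (D.local_data hb).1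
    rw [hn]
    exact ((Nat.prime_three.coprime_iff_not_dvd.mpr (D.compl ha).2.1).symm).pow_right n

theorem exists_sign : ∃ l : G →* ℂˣ,
    (∀ m : K0, l (f m) = 1 ↔ Equiv.Perm.sign (m : Wr).right = 1) ∧
      ∀ g : G, ∃ h ∈ f.range, l g = l h := by
  classical
  cases nonempty_fintype G
  haveI := Fintype.ofFinite f.range
  set u := f (lift (inv2 0) (inv2_mem 0)) with hu
  let e : K0 ≃* f.range := MonoidHom.ofInjective D.inj
  let π : f.range →* Equiv.Perm (Fin 3) :=
    (SemidirectProduct.rightHom).comp (K0.subtype.comp e.symm.toMonoidHom)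
  have hπm : ∀ m : K0, π ⟨f m, ⟨m, rfl⟩⟩ = (m : Wr).right := fun m => by
    show ((e.symm ⟨f m, ⟨m, rfl⟩⟩ : K0) : Wr).right = _
    rw [show (⟨f m, ⟨m, rfl⟩⟩ : f.range) = e m from rfl, e.symm_apply_apply]
  have hπ : Function.Surjective π := fun s => by
    have hgen : ∀ s : Equiv.Perm (Fin 3), ∃ a : Fin 3, ∃ b : Fin 2,
        (rot ^ (a : ℕ) * bswap ^ (b : ℕ)).right = s := by decide
    obtain ⟨a, b, rfl⟩ := hgen s
    exact ⟨⟨f ⟨_, mul_mem (pow_mem rot_mem _) (pow_mem bswap_mem _)⟩, _, rfl⟩, hπm _⟩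
  obtain ⟨hn, ht, h10, hQ, hφ⟩ := supportFun_comp_facts π hπ
  set φ : f.range → ℂ := fun x => (supportFun (π x) : ℂ) with hφdef
  have hgen : IsGeneralizedCharacter f.range φ := ⟨_, _,
    isCharacter_add (isCharacter_add isCharacter_one isCharacter_one)
      (isCharacter_of_isIrr (isIrrCharacter_linear _)), hQ, hφ⟩
  have hφc : IsClassFunction f.range φ := isClassFunction_of_generalized hgen
  have hφA : ∀ x : f.range, (x : G) ∉ cycSet f → φ x = 0 := by
    rintro ⟨_, m, rfl⟩ hx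
    by_contra hne
    haveI : Fact (Nat.Prime 3) := ⟨Nat.prime_three⟩
    simp only [hφdef, hπm, ne_eq, Int.cast_eq_zero] at hne
    obtain ⟨h3, h1⟩ := (orderOf_three_iff _).mpr hne
    exact hx ⟨m, orderOf_eq_prime h3 h1, rfl⟩
  have hD := D.dadeHyp
  set τ := dadeIsometry (cycSet f) f.range threeCompl φ with hτ
  have hτc : IsClassFunction G τ := isClassFunction_dade hD hφc
  have havg : ∀ (F : G → ℂ) (c : ℂ) (a : G), (∀ q ∈ threeCompl a, F (a * q) = c) →
      avgH threeCompl F a = c := by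
    intro F c a h
    have hset : (threeCompl a : Set G).Finite := Set.toFinite _
    rw [avgH, finsum_mem_eq_finite_toFinset_sum _ hset,
      Finset.sum_congr rfl (fun q hq => h q (hset.mem_toFinset.mp hq)), Finset.sum_const,
      ← Set.ncard_eq_toFinset_card _ hset, nsmul_eq_mul, ← Nat.card_coe_set_eq]
    exact inv_mul_cancel_left₀ (Nat.cast_ne_zero.mpr Nat.card_pos.ne') c
  have hτgen : IsGeneralizedCharacter G τ := isGeneralizedCharacter_dade hD hgen hφA
  have hττ : classInner τ τ = 3 := by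
    rw [hτ, classInner_dade hD hφc hφA hτc (ψ := φ) (fun a ha => ?_), hn]
    exact (havg τ (φ a) a fun q hq => dade_apply hD hφc (x := 1) ha hq (by simp)).symm
  have hτt : classInner τ (fun _ : G => (1 : ℂ)) = 1 := by
    rw [hτ, classInner_dade hD hφc hφA (fun _ _ => rfl) (ψ := fun _ => 1) (fun a ha => ?_), ht]
    exact (havg _ 1 a fun q _ => rfl).symm
  have hu2 : u * u = 1 := by
    rw [hu, ← map_mul, show lift (inv2 0) (inv2_mem 0) * lift (inv2 0) (inv2_mem 0) = 1 from
      Subtype.ext (by show (inl (inv2 0) : Wr) * inl (inv2 0) = 1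
                      rw [← map_mul, ← pow_two, (inv2_sq 0).1, map_one]), map_one]
  have hsupp : ∀ x y : G, IsConj x u → IsConj y u → ¬ InSupp (cycSet f) threeCompl (x * y) := by
    rintro x y hx hy ⟨a, ha, q, hq, z, hz⟩
    have hsq : ∀ v : G, IsConj v u → v * v = 1 := fun v hv => by
      obtain ⟨g, hg⟩ := isConj_iff.mp hv.symm
      rw [← hg]
      calc g * u * g⁻¹ * (g * u * g⁻¹) = g * (u * u) * g⁻¹ := by group
        _ = 1 := by rw [hu2]; group
    have hxi : x⁻¹ = x := inv_eq_of_mul_eq_one_right (hsq x hx)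
    have hyi : y⁻¹ = y := inv_eq_of_mul_eq_one_right (hsq y hy)
    have e1 : x * (x * y) * x⁻¹ = (x * y)⁻¹ := by
      rw [← mul_assoc, hsq x hx, one_mul, mul_inv_rev, hxi, hyi]
    have hai : a * q = q * a := commute_of_mem hD ha hq
    have e2 : z * x * z⁻¹ * (a * q) * (z * x * z⁻¹)⁻¹ = a⁻¹ * q⁻¹ := by
      rw [← hz]
      calc z * x * z⁻¹ * (z * (x * y) * z⁻¹) * (z * x * z⁻¹)⁻¹ = z * (x * (x * y) * x⁻¹) * z⁻¹ := by group
        _ = (z * (x * y) * z⁻¹)⁻¹ := by rw [e1]; group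
        _ = a⁻¹ * q⁻¹ := by rw [hz, mul_inv_rev, (Commute.inv_inv (show Commute q a from hai.symm)).eq]
    have e3 := conj_eq_of_conj_mul hD ha (D.inv_cycSet ha) hq
      (by rw [threeCompl_inv]; exact inv_mem hq) e2
    exact D.not_inverted ha
      ((isConj_iff.mpr ⟨z, rfl⟩ : IsConj x (z * x * z⁻¹)).symm.trans hx) e3
  have hτu : τ u = 0 := by
    refine dade_eq_zero hD φ fun ⟨a, ha, q, hq, z, hz⟩ => ?_
    have hsq : (a * q) * (a * q) = 1 := by
      rw [← hz]
      calc z * u * z⁻¹ * (z * u * z⁻¹) = z * (u * u) * z⁻¹ := by group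
        _ = 1 := by rw [hu2]; group
    have hai : a * q = q * a := commute_of_mem hD ha hq
    have haa : a * a = (q * q)⁻¹ := eq_inv_of_mul_eq_one_left (by
      calc a * a * (q * q) = a * (a * q) * q := by group
        _ = a * (q * a) * q := by rw [hai]
        _ = (a * q) * (a * q) := by group
        _ = 1 := hsq)
    have hmem : a * a ∈ threeCompl a ⊓ (f.range ⊓ centralizer ({a} : Set G)) :=
      Subgroup.mem_inf.mpr ⟨haa ▸ inv_mem (mul_mem hq hq), Subgroup.mem_inf.mpr ⟨mul_mem (hD.subset ha) (hD.subset ha),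
        mul_mem (mem_centralizer_singleton_iff.mpr rfl) (mem_centralizer_singleton_iff.mpr rfl)⟩⟩
    rw [hD.inf_eq_bot a ha, mem_bot] at hmem
    obtain ⟨m, hm, rfl⟩ := ha
    rw [← map_mul] at hmem
    have := congrArg (fun m : K0 => (m : Wr).right) (D.inj (hmem.trans (map_one f).symm))
    simp only [Subgroup.coe_mul, OneMemClass.coe_one, mul_right, one_right] at this
    have h2 := orderOf_dvd_of_pow_eq_one (show (m : Wr).right ^ 2 = 1 by rw [pow_two]; exact this)
    rw [hm] at h2; norm_num at h2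
  have hsum : ∑ x : G, ∑ y : G, classInd u x * classInd u y * τ (x * y) = 0 := by
    refine Finset.sum_eq_zero fun x _ => Finset.sum_eq_zero fun y _ => ?_
    by_cases hx : IsConj x u
    · by_cases hy : IsConj y u
      · rw [hτ, dade_eq_zero hD φ (hsupp x y hx hy), mul_zero]
      · rw [classInd_of_not hy, mul_zero, zero_mul]
    · rw [classInd_of_not hx, zero_mul, zero_mul]
  obtain ⟨χ, hχ1, hχu, hχin⟩ := exists_kernel_core (τ := τ) hτgen
    (dade_eq_zero hD φ (not_inSupp_one hD)) hττ hτt u hτu hsum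
  have hac := isCharacter_of_isIrr χ.2
  haveI := charKer_normal hac
  set K := charKer (χ : G → ℂ) with hK
  have huK : u ∈ K := (mem_charKer hac).mpr hχu
  have hcyc : ∀ j, f (lift (cyc j) (cyc_mem j)) ∈ K := by
    have h12 : ∀ j : Fin 3, j ≠ 0 → f (lift (cyc j) (cyc_mem j)) ∈ K := by
      intro j hj
      have : lift (cyc j) (cyc_mem j) = lift (inv2 0) (inv2_mem 0) *
          (lift (cyc j) (cyc_mem j) * (lift (inv2 0) (inv2_mem 0))⁻¹ * (lift (cyc j) (cyc_mem j))⁻¹) :=
        Subtype.ext (by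
          show (inl (cyc j) : Wr) = inl (inv2 0) * (inl (cyc j) * (inl (inv2 0))⁻¹ * (inl (cyc j))⁻¹)
          rw [← map_inv, ← map_inv, ← map_mul, ← map_mul, ← map_mul]
          congr 1
          rw [← mul_assoc, ← mul_assoc, axis_commutator j hj])
      rw [this, map_mul, map_mul, map_mul, map_inv, map_inv]
      exact mul_mem huK ((charKer_normal hac).conj_mem _ (inv_mem huK) _)
    intro j
    by_cases hj : j = 0
    · subst hj
      have e0 : lift (cyc 0) (cyc_mem 0) =
          (⟨rot, rot_mem⟩ : K0)⁻¹ * lift (cyc 1) (cyc_mem 1) * (⟨rot, rot_mem⟩ : K0)⁻¹⁻¹ :=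
        Subtype.ext (by
          show (inl (cyc 0) : Wr) = rot⁻¹ * inl (cyc 1) * rot⁻¹⁻¹
          rw [inv_inv]
          exact SemidirectProduct.ext (by decide) (by decide))
      rw [e0, map_mul, map_mul, map_inv f (_⁻¹)]
      exact (charKer_normal hac).conj_mem _ (h12 1 (by decide)) _
    · exact h12 j hj
  have hJK : ∀ x ∈ J, x ∈ K := by
    intro x hx
    obtain ⟨a, ha, rfl⟩ := D.exists_lift hx
    obtain ⟨i, j, k, rfl⟩ := allEven_decomp ha
    have e : lift (cyc 0 ^ (i : ℕ) * cyc 1 ^ (j : ℕ) * cyc 2 ^ (k : ℕ)) (allEven_mem ha) =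
        lift (cyc 0) (cyc_mem 0) ^ (i : ℕ) * lift (cyc 1) (cyc_mem 1) ^ (j : ℕ) *
          lift (cyc 2) (cyc_mem 2) ^ (k : ℕ) := Subtype.ext (by simp [lift])
    rw [e, map_mul, map_mul, map_pow, map_pow, map_pow]
    exact mul_mem (mul_mem (pow_mem (hcyc 0) _) (pow_mem (hcyc 1) _)) (pow_mem (hcyc 2) _)
  have hsup : K ⊔ f.range = ⊤ := by
    haveI : Fact (Nat.Prime 3) := ⟨Nat.prime_three⟩
    set t := f (lift (cyc 0) (cyc_mem 0))
    have htJ : t ∈ J := D.lift_mem (cyc_allEven 0)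
    have ht1 : t ≠ 1 := D.lift_ne (cyc_mem 0) (fun h => by
      exact (cyc_blk 0 0).mp (by rw [h, map_one]) rfl)
    have hp : IsPGroup 3 (zpowers (⟨t, hJK t htJ⟩ : K)) := fun y => ⟨1, by
      obtain ⟨y, i, rfl⟩ := y
      refine Subtype.ext ?_
      show ((⟨t, hJK t htJ⟩ : K) ^ i) ^ 3 ^ 1 = 1
      rw [pow_one, ← zpow_natCast, ← zpow_mul, mul_comm, zpow_mul, zpow_natCast,
        show (⟨t, hJK t htJ⟩ : K) ^ 3 = 1 from Subtype.ext (D.cube htJ), one_zpow]⟩
    obtain ⟨R, hR⟩ := hp.exists_le_sylow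
    have htR : t ∈ (R : Subgroup K).map K.subtype := ⟨_, hR (mem_zpowers _), rfl⟩
    refine top_unique ?_
    rw [← R.normalizer_sup_eq_top]
    refine sup_le (fun g hg => ?_) le_sup_left
    exact mem_sup_right (D.control htJ ht1
      (D.three_le (R.isPGroup'.map K.subtype) htJ ht1 htR ((mem_normalizer_iff.mp hg t).mp htR)))
  have hKa : ∀ k ∈ K, ∀ g : G, (χ : G → ℂ) (g * k) = (χ : G → ℂ) g := fun k hk g =>
    (char_mul_of_eq_one hac ((mem_charKer hac).mp hk) g).2
  have hKn : K.Normal := charKer_normal hac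
  have hin : classInner φ (fun h : f.range => (χ : G → ℂ) h) = 1 := by
    rw [← hχin, hτ]
    refine (classInner_dade hD hφc hφA (isClassFunction_of_isIrr χ.2) fun a ha => ?_).symm
    refine (havg _ _ _ fun q hq => hKa q ?_ _).symm
    obtain ⟨hQC, hQ3, hQP, -⟩ := D.compl ha
    obtain ⟨-, -, d, hd, hd1, hdc⟩ := D.local_data ha
    have hdK : d ∈ K := hJK d hd
    have hdn : ∀ c ∈ centralizer ({(a : G)} : Set G), ∀ p ∈ threeCompl (a : G), c * p * c⁻¹ ∈ threeCompl (a : G) :=
      fun c hc p hp => hD.conj_mem_H (a : G) ha c hc p hp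
    have h := fpf_three_identity (Q := threeCompl (a : G)) (d := d) (fun p hp => hdn d hdc p hp)
      (fun p hp he => by
        have : p ∈ threeCompl (a : G) ⊓ (f.range ⊓ centralizer ({(a : G)} : Set G)) :=
          ⟨hp, D.cent d hd hd1 (mem_centralizer_singleton_iff.mpr he.symm), hQC hp⟩
        rwa [hQP, mem_bot] at this) (D.cube hd) hq
    -- modulo `K` the identity says `q ^ 3 = 1`
    have hq3 : q ^ 3 ∈ K := by
      rw [← QuotientGroup.eq_one_iff (N := K)]
      have h' := congrArg (QuotientGroup.mk' K) h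
      have hd0 : QuotientGroup.mk' K d = 1 := (QuotientGroup.eq_one_iff d).mpr hdK
      simp only [map_mul, map_inv, map_pow, hd0, one_pow, inv_one, one_mul, mul_one, map_one] at h'
      rw [← QuotientGroup.mk'_apply, map_pow, pow_succ, pow_two]
      exact h'
    have hoq : Nat.Coprime 3 (orderOf q) := Nat.prime_three.coprime_iff_not_dvd.mpr fun h' =>
      hQ3 (h'.trans (Subgroup.orderOf_dvd_natCard _ hq))
    obtain ⟨i, hi⟩ := (exists_pow_eq_self_of_coprime hoq : ∃ i, (q ^ 3) ^ i = q)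
    exact hi ▸ pow_mem hq3 i
  obtain ⟨l, hlχ, hl⟩ := exists_hom_of_inner_one _ hQ hφ hχ1 hsup hin
  refine ⟨l, fun m => ?_, fun g => ?_⟩
  · rw [show l (f m) = _ from hl ⟨f m, ⟨m, rfl⟩⟩]
    simp only [MonoidHom.coe_comp, Function.comp_apply, hπm]
    rcases Int.units_eq_one_or (Equiv.Perm.sign (m : Wr).right) with h | h <;> rw [h]
    · simp
    · simp only [show (-1 : ℤˣ) ≠ 1 by decide, iff_false]
      intro h'
      have := congrArg Units.val h'
      norm_num at this
  · obtain ⟨k, hk, h, hh, rfl⟩ := mem_sup_of_normal_left.mp (hsup ▸ mem_top g)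
    refine ⟨h, hh, ?_⟩
    have hlk : l k = 1 := Units.ext (by
      rw [hlχ, (mem_charKer hac).mp hk, ← hlχ 1, map_one])
    rw [map_mul, hlk, one_mul]

end WData

/-- Orbits of a `9`-element on cosets: only the base coset contributes to the transfer. -/
theorem transfer_eq_self {Γ : Type u} [Group Γ] [Finite Γ] {L : Subgroup Γ} {A : Type*} [CommGroup A]
    (φ : L →* A) (g : Γ) (hg : g ∈ L) (k : ℕ) (hk : g ^ 3 ^ (k + 1) = 1)
    (hctrl : ∀ y : Γ, y⁻¹ * g ^ 3 ^ k * y ∈ L → y ∈ L) :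
    MonoidHom.transfer φ g = φ ⟨g, hg⟩ := by
  classical
  haveI : L.FiniteIndex := inferInstance
  haveI := Fintype.ofFinite (Quotient (MulAction.orbitRel (zpowers g) (Γ ⧸ L)))
  rw [MonoidHom.transfer_eq_prod_quotient_orbitRel_zpowers_quot]
  have hbase : g • ((1 : Γ) : Γ ⧸ L) = ((1 : Γ) : Γ ⧸ L) := by
    show ((g * 1 : Γ) : Γ ⧸ L) = _
    exact QuotientGroup.eq.mpr (by simpa using inv_mem hg)
  set q₀ : Quotient (MulAction.orbitRel (zpowers g) (Γ ⧸ L)) := Quotient.mk'' ((1 : Γ) : Γ ⧸ L)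
  have hfix : ∀ y : Γ ⧸ L, (∀ z : zpowers g, z • y = y) → ∀ w, (MulAction.orbitRel (zpowers g) (Γ ⧸ L)) w y → w = y := by
    intro y hy w hw
    obtain ⟨z, hz⟩ := MulAction.orbitRel_apply.mp hw
    exact hz.symm.trans (hy z)
  have h1fix : ∀ z : zpowers g, z • ((1 : Γ) : Γ ⧸ L) = ((1 : Γ) : Γ ⧸ L) := by
    rintro ⟨_, i, rfl⟩
    show g ^ i • ((1 : Γ) : Γ ⧸ L) = _
    have : g ∈ MulAction.stabilizer Γ ((1 : Γ) : Γ ⧸ L) := hbase
    exact zpow_mem this i
  have hq0 : q₀.out = ((1 : Γ) : Γ ⧸ L) := hfix _ h1fix _ (Quotient.mk_out (s := MulAction.orbitRel (zpowers g) (Γ ⧸ L)) _)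
  rw [Finset.prod_eq_single q₀]
  · set y := (q₀.out : Γ ⧸ L).out with hy
    have hyL : y ∈ L := by
      have h := QuotientGroup.out_eq' (q₀.out)
      rw [← hy] at h
      have h2 := QuotientGroup.eq.mp (h.trans hq0)
      simpa using inv_mem h2
    have hper : Function.minimalPeriod (g • ·) q₀.out = 1 := by
      rw [Function.minimalPeriod_eq_one_iff_isFixedPt, hq0]
      exact hbase
    have he : (⟨y⁻¹ * g ^ Function.minimalPeriod (g • ·) q₀.out * y,
        QuotientGroup.out_conj_pow_minimalPeriod_mem L g q₀.out⟩ : L) =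
        (⟨y, hyL⟩ : L)⁻¹ * ⟨g, hg⟩ * ⟨y, hyL⟩ := Subtype.ext (by simp [hper])
    show φ (⟨y⁻¹ * g ^ Function.minimalPeriod (g • ·) q₀.out * y,
        QuotientGroup.out_conj_pow_minimalPeriod_mem L g q₀.out⟩ : L) = φ ⟨g, hg⟩
    rw [he, map_mul, map_mul, map_inv, inv_mul_cancel_comm]
  · intro q _ hq
    have hne : ((q.out : Γ ⧸ L).out : Γ) ∉ L := by
      intro hmem
      refine hq ?_
      rw [← Quotient.out_eq q]
      refine congrArg Quotient.mk'' (show q.out = ((1 : Γ) : Γ ⧸ L) from ?_)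
      rw [← QuotientGroup.out_eq' q.out]
      exact QuotientGroup.eq.mpr (by simpa using inv_mem hmem)
    set p := Function.minimalPeriod (g • ·) q.out with hp
    have hdvd : p ∣ 3 ^ (k + 1) := Function.IsPeriodicPt.minimalPeriod_dvd (by
      show (fun x => g • x)^[3 ^ (k + 1)] q.out = q.out
      rw [smul_iterate_apply, hk, one_smul])
    obtain ⟨i, hi, hpe⟩ := (Nat.dvd_prime_pow Nat.prime_three).mp hdvd
    have hik : i = k + 1 := by
      by_contra hne'
      refine hne (hctrl _ ?_)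
      have hm := QuotientGroup.out_conj_pow_minimalPeriod_mem L g q.out
      rw [← hp, hpe] at hm
      have : g ^ 3 ^ k = (g ^ 3 ^ i) ^ 3 ^ (k - i) := by
        rw [← pow_mul, ← pow_add, Nat.add_sub_cancel' (by omega)]
      rw [this]
      have h2 := pow_mem hm (3 ^ (k - i))
      rwa [show ((q.out.out)⁻¹ * g ^ 3 ^ i * q.out.out) ^ 3 ^ (k - i) =
        (q.out.out)⁻¹ * (g ^ 3 ^ i) ^ 3 ^ (k - i) * q.out.out by
          rw [show (q.out.out)⁻¹ * g ^ 3 ^ i * q.out.out =
            (q.out.out)⁻¹ * g ^ 3 ^ i * ((q.out.out)⁻¹)⁻¹ by rw [inv_inv], conj_pow, inv_inv]] at h2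
    have : (⟨(q.out.out)⁻¹ * g ^ p * q.out.out,
        QuotientGroup.out_conj_pow_minimalPeriod_mem L g q.out⟩ : L) = 1 :=
      Subtype.ext (by simp [hpe, hik, hk])
    show φ (⟨(q.out.out)⁻¹ * g ^ p * q.out.out,
        QuotientGroup.out_conj_pow_minimalPeriod_mem L g q.out⟩ : L) = 1
    rw [this, map_one]
  · exact fun h => absurd (Finset.mem_univ _) h

theorem rep_one_cube : rep 1 ^ 3 = inl diag := SemidirectProduct.ext (by decide) (by decide)

/-- The main theorem. -/
theorem WData.range_eq_top (D : WData f J) : f.range = ⊤ := by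
  classical
  haveI : Fact (Nat.Prime 3) := ⟨Nat.prime_three⟩
  obtain ⟨l, hl, hlg⟩ := D.exists_sign
  set G1 := l.ker
  set L : Subgroup G1 := f.range.subgroupOf G1
  have hL : ∀ x : G1, x ∈ L → ∃ m : K0, f m = x ∧ Equiv.Perm.sign (m : Wr).right = 1 := by
    intro x hx
    obtain ⟨m, hm⟩ := mem_subgroupOf.mp hx
    exact ⟨m, hm, (hl m).mp (hm ▸ MonoidHom.mem_ker.mp x.2)⟩
  let C3 : Subgroup (Equiv.Perm (Fin 3)) := zpowers (Equiv.swap 0 1 * Equiv.swap 1 2)
  letI : CommGroup C3 := IsCyclic.commGroup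
  let e : K0 ≃* f.range := MonoidHom.ofInjective D.inj
  let ψ : L →* Equiv.Perm (Fin 3) :=
    SemidirectProduct.rightHom.comp (K0.subtype.comp (e.symm.toMonoidHom.comp
      ((G1.subtype.comp L.subtype).codRestrict f.range fun x => mem_subgroupOf.mp x.2)))
  have hψ : ∀ (x : L) (m : K0), f m = ((x : G1) : G) → ψ x = (m : Wr).right := by
    intro x m hm
    show ((e.symm ⟨((x : G1) : G), _⟩ : K0) : Wr).right = _
    rw [show (⟨((x : G1) : G), mem_subgroupOf.mp x.2⟩ : f.range) = e m from Subtype.ext hm.symm,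
      e.symm_apply_apply]
  let φ : L →* C3 := ψ.codRestrict C3 fun x => by
    obtain ⟨m, hm, hs⟩ := hL x x.2
    rw [hψ x m hm]
    obtain ⟨i, hi⟩ := even_cycle _ hs
    rw [hi]
    exact pow_mem (mem_zpowers _) _
  set T := MonoidHom.transfer φ with hT
  have hctrl : ∀ {j : G}, j ∈ J → j ≠ 1 → ∀ y : G1, (∀ z : G1, (z : G) = j → y⁻¹ * z * y ∈ L → y ∈ L) := by
    intro j hj hj1 y z hz hmem
    refine mem_subgroupOf.mpr (inv_mem_iff.mp (D.control hj hj1 ?_))
    have h := mem_subgroupOf.mp hmem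
    simpa [hz] using h
  have hl1 : ∀ m : K0, Equiv.Perm.sign (m : Wr).right = 1 → f m ∈ G1 := fun m hm =>
    MonoidHom.mem_ker.mpr ((hl m).mpr hm)
  have hTJ : ∀ (a : P) (ha : AllEven a), ∀ h : f (lift a (allEven_mem ha)) ∈ G1, T ⟨_, h⟩ = 1 := by
    intro a ha h
    by_cases h1 : f (lift a (allEven_mem ha)) = 1
    · rw [show (⟨_, h⟩ : G1) = 1 from Subtype.ext h1, map_one]
    rw [hT, transfer_eq_self φ ⟨_, h⟩ (mem_subgroupOf.mpr ⟨_, rfl⟩) 0
      (Subtype.ext (D.cube (D.lift_mem ha)))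
      (fun y hy => hctrl (D.lift_mem ha) h1 y ⟨_, h⟩ rfl (by simpa using hy))]
    refine Subtype.ext ?_
    show ψ _ = 1
    rw [hψ _ (lift a (allEven_mem ha)) rfl]
    simp [lift]
  have hTinv : ∀ g : G1, g * g = 1 → T g = 1 := by
    intro g hg
    have h2 : (T g) ^ 2 = 1 := by rw [pow_two, ← map_mul, hg, map_one]
    have h3 : (T g) ^ 3 = 1 := by
      refine orderOf_dvd_iff_pow_eq_one.mp ((_root_.orderOf_dvd_natCard _).trans (dvd_of_eq ?_))
      rw [Nat.card_zpowers, orderOf_cc]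
    calc T g = (T g) ^ 3 * ((T g) ^ 2)⁻¹ := by group
      _ = 1 := by rw [h2, h3, inv_one, mul_one]
  have hEv : ∀ x (hx : x ∈ Ev), ∃ h : f (lift x hx) ∈ G1, T ⟨_, h⟩ = 1 := by
    have hmem : ∀ x (hx : x ∈ Ev), f (lift x hx) ∈ G1 := fun x hx => hl1 _ (by simp [lift])
    let R : Subgroup P :=
      { carrier := {x | ∃ hx : x ∈ Ev, T ⟨_, hmem x hx⟩ = 1}
        one_mem' := ⟨one_mem _, by
          rw [show (⟨_, hmem 1 (one_mem _)⟩ : G1) = 1 from Subtype.ext (by
            show f (lift 1 (one_mem _)) = 1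
            rw [show lift 1 (one_mem Ev) = 1 from Subtype.ext (map_one inl), map_one]), map_one]⟩
        mul_mem' := fun {x y} ⟨hx, hx'⟩ ⟨hy, hy'⟩ => ⟨mul_mem hx hy, by
          rw [show (⟨_, hmem _ (mul_mem hx hy)⟩ : G1) = ⟨_, hmem x hx⟩ * ⟨_, hmem y hy⟩ from Subtype.ext (by
            show f (lift (x * y) (mul_mem hx hy)) = f (lift x hx) * f (lift y hy)
            rw [← map_mul]; exact congrArg f (Subtype.ext (map_mul inl x y))), map_mul, hx', hy', one_mul]⟩
        inv_mem' := fun {x} ⟨hx, hx'⟩ => ⟨inv_mem hx, by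
          rw [show (⟨_, hmem _ (inv_mem hx)⟩ : G1) = ⟨_, hmem x hx⟩⁻¹ from Subtype.ext (by
            show f (lift x⁻¹ (inv_mem hx)) = (f (lift x hx))⁻¹
            rw [← map_inv]; exact congrArg f (Subtype.ext (map_inv inl x))), map_inv, hx', inv_one]⟩ }
    have hinv2 : ∀ i, inv2 i ∈ R := fun i => ⟨inv2_mem i, hTinv _ (Subtype.ext (by
      show f (lift (inv2 i) (inv2_mem i)) * f (lift (inv2 i) (inv2_mem i)) = 1
      rw [← map_mul, show lift (inv2 i) (inv2_mem i) * lift (inv2 i) (inv2_mem i) = 1 from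
        Subtype.ext (by show (inl (inv2 i) : Wr) * inl (inv2 i) = 1
                        rw [← map_mul, ← pow_two, (inv2_sq i).1, map_one]), map_one]))⟩
    have hcycR : ∀ i, cyc i ∈ R := fun i => ⟨cyc_mem i, hTJ _ (cyc_allEven i) _⟩
    have hle : Ev ≤ R := Ev_le_closure.trans ((closure_le R).mpr (by
      intro y hy
      simp only [Set.mem_insert_iff, Set.mem_singleton_iff] at hy
      rcases hy with rfl | rfl | rfl | rfl | rfl
      · exact hcycR 0
      · exact hcycR 1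
      · exact hcycR 2
      · exact hinv2 2
      · exact hinv2 1))
    intro x hx
    obtain ⟨_, h⟩ := hle hx
    exact ⟨hmem x hx, h⟩
  set r : K0 := ⟨rep 1, rep_mem 1⟩
  have hrs : Equiv.Perm.sign (r : Wr).right = 1 :=
    (show Equiv.Perm.sign (Equiv.swap (0 : Fin 3) 1 * Equiv.swap 1 2) = 1 by decide)
  set ρ : G1 := ⟨f r, hl1 r hrs⟩
  have hTρ : ((T ρ : C3) : Equiv.Perm (Fin 3)) = Equiv.swap 0 1 * Equiv.swap 1 2 := by
    have hr3 : r ^ 3 = lift diag (allEven_mem diag_allEven) := Subtype.ext rep_one_cube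
    have hd1 : f (lift diag (allEven_mem diag_allEven)) ≠ 1 := D.lift_ne _ diag_ne
    rw [hT, transfer_eq_self φ ρ (mem_subgroupOf.mpr ⟨r, rfl⟩) 1 (Subtype.ext (by
        show f r ^ 9 = 1
        rw [← map_pow, show r ^ 9 = 1 from Subtype.ext (rep_nine 1), map_one]))
      (fun y hy => hctrl (D.lift_mem diag_allEven) hd1 y (ρ ^ 3)
        (show f r ^ 3 = _ by rw [← map_pow, hr3]) (by simpa using hy))]
    show ψ _ = _
    rw [hψ _ r rfl]
    rfl
  -- the kernel of the transfer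
  set M : Subgroup G := T.ker.map G1.subtype
  have hML : ∀ m : K0, f m ∈ M ↔ (m : Wr).right = 1 := by
    intro m
    constructor
    · rintro ⟨x, hx, hxm⟩
      have hs : Equiv.Perm.sign (m : Wr).right = 1 :=
        (hl m).mp (MonoidHom.mem_ker.mp (hxm ▸ x.2))
      obtain ⟨i, hi⟩ := even_cycle _ hs
      set m' : K0 := m * (r ^ (i : ℕ))⁻¹ with hm'
      have hr' : (m' : Wr).right = 1 := by
        rw [hm', Subgroup.coe_mul, Subgroup.coe_inv, Subgroup.coe_pow, mul_right, inv_right, hi,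
          show ((r : Wr) ^ (i : ℕ)).right = (r : Wr).right ^ (i : ℕ) from map_pow rightHom (r : Wr) i]
        exact mul_inv_cancel _
      have he : m' = lift (m' : Wr).left (inl_mem_K0.mp (by
          rw [show (inl (m' : Wr).left : Wr) = (m' : Wr) from
            SemidirectProduct.ext (by simp) (by simp [hr'])]
          exact m'.2)) :=
        Subtype.ext (SemidirectProduct.ext (by simp [lift]) (by simp [lift, hr']))
      obtain ⟨hg, hgT⟩ := hEv _ (inl_mem_K0.mp (by
          rw [show (inl (m' : Wr).left : Wr) = (m' : Wr) from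
            SemidirectProduct.ext (by simp) (by simp [hr'])]
          exact m'.2) : (m' : Wr).left ∈ Ev)
      have hx' : (⟨_, hg⟩ : G1) = x * (ρ ^ (i : ℕ))⁻¹ := Subtype.ext (by
        show f (lift (m' : Wr).left _) = (x : G) * ((f r) ^ (i : ℕ))⁻¹
        rw [← he, hm', map_mul, map_inv, map_pow]
        exact congrArg (· * _) hxm.symm)
      rw [hx', map_mul, MonoidHom.mem_ker.mp hx, one_mul, map_inv, map_pow, inv_eq_one] at hgT
      have := congrArg Subtype.val hgT
      rw [SubmonoidClass.coe_pow, hTρ] at this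
      rw [hi]
      exact this
    · intro hm
      have hx : (m : Wr).left ∈ Ev := inl_mem_K0.mp (by
        rw [show (inl (m : Wr).left : Wr) = (m : Wr) from SemidirectProduct.ext (by simp) (by simp [hm])]
        exact m.2)
      obtain ⟨h, h1⟩ := hEv _ hx
      refine ⟨⟨_, h⟩, MonoidHom.mem_ker.mpr h1, congrArg f ?_⟩
      exact Subtype.ext (SemidirectProduct.ext (by simp [lift]) (by simp [lift, hm]))
  -- the previous theorem inside `M`
  let f' : Ev →* M := (f.comp (((SemidirectProduct.inl).comp Ev.subtype).codRestrict K0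
    fun x => inl_mem_K0.mpr x.2)).codRestrict M fun x => (hML _).mpr (by simp)
  have hf' : ∀ (x : Ev), ((f' x : M) : G) = f (lift (x : P) x.2) := fun x => rfl
  have hinj : Function.Injective f' := fun x y h => by
    have h' := D.inj ((hf' x).symm.trans ((congrArg Subtype.val h).trans (hf' y)))
    exact Subtype.ext (inl_injective (congrArg Subtype.val h'))
  have hrange : ∀ x : M, (x : G) ∈ f.range → x ∈ f'.range := by
    rintro x ⟨m, hm⟩
    have hr := (hML m).mp (hm ▸ x.2)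
    refine ⟨⟨(m : Wr).left, inl_mem_K0.mp (by
      rw [show (inl (m : Wr).left : Wr) = (m : Wr) from SemidirectProduct.ext (by simp) (by simp [hr])]
      exact m.2)⟩, Subtype.ext ?_⟩
    rw [hf', ← hm]
    exact congrArg f (Subtype.ext (SemidirectProduct.ext (by simp [lift]) (by simp [lift, hr])))
  have hmain := main f' hinj (J.subgroupOf M)
    (fun x => by
      constructor
      · intro hx
        obtain ⟨a, ha, hae⟩ := D.exists_lift (mem_subgroupOf.mp hx)
        exact ⟨⟨a, allEven_mem ha⟩, ha, Subtype.ext ((hf' _).trans hae)⟩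
      · rintro ⟨a, ha, rfl⟩
        exact mem_subgroupOf.mpr (by rw [hf']; exact D.lift_mem ha))
    (by
      apply le_antisymm
      · intro g hg
        refine hrange g (D.normalizing_mem fun i hi => ?_)
        obtain ⟨a, ha, rfl⟩ := D.exists_lift hi
        have := (mem_normalizer_iff.mp hg (f' ⟨a, allEven_mem ha⟩)).mp
          (mem_subgroupOf.mpr (by rw [hf']; exact D.lift_mem ha))
        exact mem_subgroupOf.mp this
      · rintro g ⟨x, rfl⟩
        rw [mem_normalizer_iff]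
        have key : ∀ (x : Ev) (i : M), i ∈ J.subgroupOf M → f' x * i * (f' x)⁻¹ ∈ J.subgroupOf M := by
          intro x i hi
          refine mem_subgroupOf.mpr ?_
          simp only [Subgroup.coe_mul, Subgroup.coe_inv]
          exact D.closed.2 _ (mem_subgroupOf.mp hi) _
            (mul_mem (mul_mem ⟨_, rfl⟩ (D.le (mem_subgroupOf.mp hi))) (inv_mem ⟨_, rfl⟩))
        intro i
        refine ⟨key x i, fun h => ?_⟩
        have := key x⁻¹ _ h
        simpa [map_inv, mul_assoc] using this)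
    (fun t ht ht1 g hg => by
      refine hrange g (D.cent _ (mem_subgroupOf.mp ht) (fun e => ht1 (Subtype.ext e)) ?_)
      rw [mem_centralizer_singleton_iff] at hg ⊢
      exact congrArg Subtype.val hg)
  have hMH : M ≤ f.range := fun x hx => by
    obtain ⟨y, hy⟩ : (⟨x, hx⟩ : M) ∈ f'.range := by rw [hmain]; exact mem_top _
    exact ⟨_, (hf' y).symm.trans (congrArg Subtype.val hy)⟩
  have hG1 : ∀ g : G1, (g : G) ∈ f.range := by
    intro g
    obtain ⟨i, hi⟩ := mem_zpowers_iff.mp (T g).2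
    have hker : g * (ρ ^ i)⁻¹ ∈ T.ker := MonoidHom.mem_ker.mpr (by
      rw [map_mul, map_inv, map_zpow, mul_inv_eq_one]
      exact Subtype.ext (by rw [SubgroupClass.coe_zpow, hTρ, hi]))
    have h1 : ((g * (ρ ^ i)⁻¹ : G1) : G) ∈ f.range := hMH ⟨_, hker, rfl⟩
    have h2 : ((g * (ρ ^ i)⁻¹ * ρ ^ i : G1) : G) ∈ f.range := by
      rw [Subgroup.coe_mul, SubgroupClass.coe_zpow]
      exact mul_mem h1 (zpow_mem (⟨r, rfl⟩ : (ρ : G) ∈ f.range) i)
    rwa [inv_mul_cancel_right] at h2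
  refine top_unique fun g _ => ?_
  obtain ⟨h, hh, hgh⟩ := hlg g
  have : g * h⁻¹ ∈ f.range := hG1 ⟨g * h⁻¹, MonoidHom.mem_ker.mpr (by rw [map_mul, map_inv, hgh, mul_inv_cancel])⟩
  simpa using mul_mem this hh

end Cfsg.Agent.Lib.Involution.SignThree
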