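import Cfsg.Agent.Lib.Involution.SignThreeModel
import Mathlib.GroupTheory.SemidirectProduct

/-!
# The normalizer in `Alt 9` of the group generated by three disjoint three-cycles
-/

set_option autoImplicit false

open Subgroup

namespace Cfsg.Agent.Lib.Involution.SignThree

theorem blk_mk (y : Fin 3 → Equiv.Perm (Fin 3)) (j : Fin 3) : blk j (y 0, y 1, y 2) = y j := by
  match j with
  | 0 => rfl
  | 1 => rfl
  | 2 => rfl

/-- Permute the blocks (underlying map). -/
def permuteFun (s : Equiv.Perm (Fin 3)) (x : P) : P := (blk (s 0) x, blk (s 1) x, blk (s 2) x)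

theorem blk_permuteFun (s : Equiv.Perm (Fin 3)) (x : P) (i : Fin 3) :
    blk i (permuteFun s x) = blk (s i) x := blk_mk (fun j => blk (s j) x) i

/-- Permute the blocks. -/
def permute : Equiv.Perm (Fin 3) →* MulAut P where
  toFun s :=
    { toFun := permuteFun s⁻¹
      invFun := permuteFun s
      left_inv := fun x => ext_blk fun i => by simp [blk_permuteFun]
      right_inv := fun x => ext_blk fun i => by simp [blk_permuteFun]
      map_mul' := fun x y => ext_blk fun i => by simp [blk_permuteFun] }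
  map_one' := MulEquiv.ext fun x => ext_blk fun i => by
    show blk i (permuteFun 1⁻¹ x) = _
    simp [blk_permuteFun]
  map_mul' s t := MulEquiv.ext fun x => ext_blk fun i => by
    rw [MulAut.mul_apply]
    show blk i (permuteFun (s * t)⁻¹ x) = blk i (permuteFun s⁻¹ (permuteFun t⁻¹ x))
    simp [blk_permuteFun, Equiv.Perm.mul_apply]

theorem blk_permute (s : Equiv.Perm (Fin 3)) (x : P) (i : Fin 3) :
    blk i (permute s x) = blk (s⁻¹ i) x := blk_permuteFun s⁻¹ x i

theorem sgn_permute : ∀ (s : Equiv.Perm (Fin 3)) (x : P), sgn (permute s x) = sgn x := by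
  intro s x
  have h : ∀ (s : Equiv.Perm (Fin 3)) (a : Fin 3 → ℤˣ), a (s⁻¹ 0) * a (s⁻¹ 1) * a (s⁻¹ 2) = a 0 * a 1 * a 2 := by
    intro s a
    have := Equiv.prod_comp s⁻¹ a
    simpa [Fin.prod_univ_three] using this
  show Equiv.Perm.sign (blk 0 (permute s x)) * Equiv.Perm.sign (blk 1 (permute s x)) *
      Equiv.Perm.sign (blk 2 (permute s x)) = _
  simp only [blk_permute]
  exact h s (fun j => Equiv.Perm.sign (blk j x))

abbrev Wr : Type := P ⋊[permute] Equiv.Perm (Fin 3)

/-- The sign on nine points. -/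
def sgnW : Wr →* ℤˣ :=
  SemidirectProduct.lift sgn Equiv.Perm.sign fun s => MonoidHom.ext fun x => by
    simp [sgn_permute, MulAut.conj_apply, mul_comm, ← mul_assoc, Int.units_inv_eq_self, Int.units_mul_self]

abbrev K0 : Subgroup Wr := sgnW.ker

theorem mem_K0 (w : Wr) : w ∈ K0 ↔ sgn w.left * Equiv.Perm.sign w.right = 1 := MonoidHom.mem_ker

/-- The action on the blocks. -/
def bperm : Equiv.Perm (Fin 3) →* Equiv.Perm (Fin 9) where
  toFun s := (finProdFinEquiv : Fin 3 × Fin 3 ≃ Fin (3 * 3)).permCongr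
    (Equiv.prodCongr s (Equiv.refl _))
  map_one' := by ext i; simp
  map_mul' s t := by ext i; simp [Equiv.Perm.mul_apply, Prod.map_map]

theorem emb_apply (x : P) (i j : Fin 3) :
    emb x (finProdFinEquiv (i, j)) = finProdFinEquiv (i, blk i x j) :=
  show finProdFinEquiv _ = _ by simp [Equiv.prodCongrRight]

theorem bperm_apply (s : Equiv.Perm (Fin 3)) (i j : Fin 3) :
    bperm s (finProdFinEquiv (i, j)) = finProdFinEquiv (s i, j) :=
  show finProdFinEquiv _ = _ by simp

theorem bperm_conj (s : Equiv.Perm (Fin 3)) (x : P) :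
    emb (permute s x) = bperm s * emb x * (bperm s)⁻¹ := by
  rw [eq_mul_inv_iff_mul_eq]
  refine Equiv.ext fun k => ?_
  obtain ⟨⟨i, j⟩, rfl⟩ := (finProdFinEquiv : Fin 3 × Fin 3 ≃ Fin (3 * 3)).surjective k
  rw [Equiv.Perm.mul_apply, Equiv.Perm.mul_apply, emb_apply, bperm_apply, bperm_apply, emb_apply,
    blk_permute]
  simp

/-- The embedding in `Sym 9`. -/
def embW : Wr →* Equiv.Perm (Fin 9) :=
  SemidirectProduct.lift emb bperm fun s => MonoidHom.ext fun x => by
    simp [bperm_conj]

theorem embW_injective : Function.Injective embW := by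
  rw [injective_iff_map_eq_one]
  intro w hw
  have h : ∀ i j : Fin 3, (w.right i, blk (w.right i) w.left j) = (i, j) := fun i j => by
    have := Equiv.congr_fun hw (finProdFinEquiv (i, j))
    simp only [embW, SemidirectProduct.lift, MonoidHom.coe_mk, OneHom.coe_mk, Equiv.Perm.mul_apply,
      bperm_apply, emb_apply, Equiv.Perm.one_apply, EmbeddingLike.apply_eq_iff_eq] at this
    exact this
  have hr : w.right = 1 := Equiv.ext fun i => congrArg Prod.fst (h i 0)
  refine SemidirectProduct.ext (ext_blk fun i => Equiv.ext fun j => ?_) hr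
  have := congrArg Prod.snd (h i j)
  simpa [hr] using this

/-- The three-cycle on blocks. -/
def rot : Wr := ⟨1, Equiv.swap 0 1 * Equiv.swap 1 2⟩

/-- A block swap with an inner transposition. -/
def bswap : Wr := ⟨(1, 1, Equiv.swap 0 1), Equiv.swap 0 1⟩

theorem embW_rot : embW rot =
    Equiv.swap (0 : Fin 9) 3 * Equiv.swap 3 6 * (Equiv.swap (1 : Fin 9) 4 * Equiv.swap 4 7) *
      (Equiv.swap (2 : Fin 9) 5 * Equiv.swap 5 8) := by decide

theorem embW_bswap : embW bswap =
    Equiv.swap (0 : Fin 9) 3 * Equiv.swap 1 4 * Equiv.swap 2 5 * Equiv.swap 6 7 := by decide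

theorem embW_inl (x : P) : embW (SemidirectProduct.inl x) = emb x := by
  simp [embW]

theorem rot_mem : rot ∈ K0 := by rw [mem_K0]; decide
theorem bswap_mem : bswap ∈ K0 := by rw [mem_K0]; decide

theorem inl_mem_K0 {x : P} : (SemidirectProduct.inl x : Wr) ∈ K0 ↔ x ∈ Ev := by
  rw [mem_K0, mem_Ev]
  simp [sgn]

theorem K0_le_closure : K0 ≤ Subgroup.closure
    ({SemidirectProduct.inl (cyc 0), rot, SemidirectProduct.inl (inv2 2), bswap} : Set Wr) := by
  set S := Subgroup.closure
    ({SemidirectProduct.inl (cyc 0), rot, SemidirectProduct.inl (inv2 2), bswap} : Set Wr)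
  have h0 : SemidirectProduct.inl (cyc 0) ∈ S := subset_closure (by simp)
  have hr : rot ∈ S := subset_closure (by simp)
  have h2 : SemidirectProduct.inl (inv2 2) ∈ S := subset_closure (by simp)
  have hb : bswap ∈ S := subset_closure (by simp)
  have e1 : rot * SemidirectProduct.inl (cyc 0) * rot⁻¹ = SemidirectProduct.inl (cyc 1) :=
    SemidirectProduct.ext (by decide) (by decide)
  have e2 : rot * SemidirectProduct.inl (cyc 1) * rot⁻¹ = SemidirectProduct.inl (cyc 2) :=
    SemidirectProduct.ext (by decide) (by decide)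
  have e3 : rot⁻¹ * SemidirectProduct.inl (inv2 2) * rot = SemidirectProduct.inl (inv2 1) :=
    SemidirectProduct.ext (by decide) (by decide)
  have h1 : SemidirectProduct.inl (cyc 1) ∈ S := e1 ▸ mul_mem (mul_mem hr h0) (inv_mem hr)
  have hEv : ∀ x ∈ Ev, (SemidirectProduct.inl x : Wr) ∈ S := by
    have : Subgroup.closure ({cyc 0, cyc 1, cyc 2, inv2 2, inv2 1} : Set P) ≤
        S.comap SemidirectProduct.inl := by
      rw [closure_le]
      intro y hy
      simp only [Set.mem_insert_iff, Set.mem_singleton_iff] at hy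
      rcases hy with rfl | rfl | rfl | rfl | rfl
      · exact h0
      · exact h1
      · show (SemidirectProduct.inl (cyc 2) : Wr) ∈ S
        exact e2 ▸ mul_mem (mul_mem hr h1) (inv_mem hr)
      · exact h2
      · show (SemidirectProduct.inl (inv2 1) : Wr) ∈ S
        exact e3 ▸ mul_mem (mul_mem (inv_mem hr) h2) hr
    exact fun x hx => this (Ev_le_closure hx)
  intro w hw
  have hgen : ∀ s : Equiv.Perm (Fin 3), ∃ a : Fin 3, ∃ b : Fin 2,
      (rot ^ (a : ℕ) * bswap ^ (b : ℕ)).right = s := by decide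
  obtain ⟨a, b, hab⟩ := hgen w.right
  set v := rot ^ (a : ℕ) * bswap ^ (b : ℕ)
  have hv : v ∈ K0 := mul_mem (pow_mem rot_mem _) (pow_mem bswap_mem _)
  have hvS : v ∈ S := mul_mem (pow_mem hr _) (pow_mem hb _)
  have e : w * v⁻¹ = SemidirectProduct.inl (w * v⁻¹).left := by
    refine SemidirectProduct.ext (by simp) ?_
    simp [← hab]
  have hmem : (w * v⁻¹).left ∈ Ev := inl_mem_K0.mp (e ▸ mul_mem hw (inv_mem hv))
  have := mul_mem (hEv _ hmem) hvS
  rwa [← e, inv_mul_cancel_right] at this

theorem closure_eq_rangeW :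
    Subgroup.closure ({Equiv.swap (0 : Fin 9) 1 * Equiv.swap 1 2,
        Equiv.swap (0 : Fin 9) 3 * Equiv.swap 3 6 * (Equiv.swap (1 : Fin 9) 4 * Equiv.swap 4 7) *
          (Equiv.swap (2 : Fin 9) 5 * Equiv.swap 5 8),
        Equiv.swap (0 : Fin 9) 1 * Equiv.swap 3 4,
        Equiv.swap (0 : Fin 9) 3 * Equiv.swap 1 4 * Equiv.swap 2 5 * Equiv.swap 6 7} :
          Set (Equiv.Perm (Fin 9))) = (embW.comp K0.subtype).range := by
  rw [MonoidHom.range_comp, Subgroup.range_subtype, ← emb_gen0, ← emb_gen3, ← embW_rot,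
    ← embW_bswap, ← embW_inl, ← embW_inl]
  apply le_antisymm
  · rw [Subgroup.closure_le]
    intro y hy
    simp only [Set.mem_insert_iff, Set.mem_singleton_iff] at hy
    rcases hy with rfl | rfl | rfl | rfl
    · exact Subgroup.mem_map_of_mem embW (inl_mem_K0.mpr (cyc_mem 0))
    · exact Subgroup.mem_map_of_mem embW rot_mem
    · exact Subgroup.mem_map_of_mem embW (inl_mem_K0.mpr (inv2_mem 2))
    · exact Subgroup.mem_map_of_mem embW bswap_mem
  · refine (Subgroup.map_mono K0_le_closure).trans ?_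
    rw [MonoidHom.map_closure]
    simp [Set.image_insert_eq]

end Cfsg.Agent.Lib.Involution.SignThree
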